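/-
The normal complement theorem of Brauer and Suzuki (Isaacs, Character theory, 8.22).
-/
import Cfsg.Agent.H5.Brauer

set_option autoImplicit false

namespace Cfsg.Agent.H5

open Subgroup Cfsg Cfsg.Agent Cfsg.Agent.FT
open scoped ComplexConjugate

universe u

variable {G : Type u} [Group G] [Finite G]

theorem DProd_exists_vchar_res {A B E : Subgroup G} (h : DProd A B E) {γ : G → ℂ}
    (hγ : γ ∈ VChar A) : ∃ χ ∈ VChar E, B ≤ cfKer χ ∧ res A χ = γ := by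
  refine vchar_induction (P := fun γ => ∃ χ ∈ VChar E, B ≤ cfKer χ ∧ res A χ = γ)
    ⟨0, zero_mem _, fun _ _ _ => rfl, map_zero _⟩ (fun θ hθ => ?_) ?_ hγ
  · obtain ⟨χ, hχ, e⟩ := h.symm.sdProd.exists_irrKer_res hθ
    exact ⟨χ, irr_mem_VChar (mem_irrKer.1 hχ).1, (mem_irrKer.1 hχ).2, e⟩
  · rintro _ _ ⟨χ, h1, h2, rfl⟩ ⟨ψ, h3, h4, rfl⟩
    exact ⟨χ - ψ, sub_mem h1 h3, (le_inf h2 h4).trans (inf_cfKer_le_sub χ ψ), map_sub _ _ _⟩

/-- Let `H ≤ L` be a π-subgroup which controls the fusion of its elements in `L` and contains a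
conjugate of every nilpotent π-subgroup of `L`. Then the π'-elements of `L` form a subgroup. -/
theorem exists_normal_compl_of_fusion {π : Set ℕ} {L H : Subgroup G} (hHL : H ≤ L)
    (hH : IsPiSubgroup π H)
    (hnil : ∀ E ≤ L, Group.IsNilpotent E → IsPiSubgroup π E → ∃ g ∈ L, E ^ᵍ g ≤ H)
    (hfus : ∀ x ∈ H, ∀ g ∈ L, g * x * g⁻¹ ∈ H → ∃ h ∈ H, h * x * h⁻¹ = g * x * g⁻¹) :
    ∃ K : Subgroup G, ∀ x, x ∈ K ↔ x ∈ L ∧ IsPiElt πᶜ x := by
  classical
  have h0 : ∀ x, ∃ y, x ∈ L → y ∈ H ∧ ∃ g ∈ L, y = g * piPt π x * g⁻¹ := fun x => by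
    by_cases hx : x ∈ L
    · obtain ⟨g, hg, h⟩ := hnil _ (zpowers_le.2 (piPt_mem hx π)) (isNilpotent_of_isMulComm
        (isMulComm_of_isCyclic inferInstance)) (isPi_zpowers.2 (isPiElt_piPt π x))
      exact ⟨_, fun _ => ⟨h (conj_mem_conj (mem_zpowers _) g), g, hg, rfl⟩⟩
    · exact ⟨1, fun h => (hx h).elim⟩
  choose r hr using h0
  have hwd : ∀ x ∈ L, ∀ g ∈ L, g * piPt π x * g⁻¹ ∈ H →
      ∃ h ∈ H, h * r x * h⁻¹ = g * piPt π x * g⁻¹ := fun x hx g hg hgx => by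
    obtain ⟨h1, t, ht, e⟩ := hr x hx
    have e' : g * t⁻¹ * r x * (g * t⁻¹)⁻¹ = g * piPt π x * g⁻¹ := by rw [e]; group
    exact e' ▸ hfus _ h1 _ (mul_mem hg (inv_mem ht)) (e' ▸ hgx)
  let lift : (G → ℂ) → G → ℂ := fun α => res L (α ∘ r)
  have hl : ∀ α ∈ CF H, ∀ x ∈ L, ∀ g ∈ L, g * piPt π x * g⁻¹ ∈ H →
      lift α x = α (g * piPt π x * g⁻¹) := fun α hα x hx g hg hgx => by
    obtain ⟨h, hh, e⟩ := hwd x hx g hg hgx
    rw [← e, CF_conj hα hh]
    exact res_of_mem _ hx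
  have hlCF : ∀ α ∈ CF H, lift α ∈ CF L := fun α hα =>
    mem_CF_of (fun x hx => res_of_notMem _ hx) fun g hg x hx => by
      obtain ⟨h1, t, ht, e⟩ := hr x hx
      have e' : t * g⁻¹ * piPt π (g * x * g⁻¹) * (t * g⁻¹)⁻¹ = r x := by rw [e, piPt_conj]; group
      rw [hl α hα _ (mul_mem (mul_mem hg hx) (inv_mem hg)) _ (mul_mem ht (inv_mem hg)) (e' ▸ h1), e']
      exact (res_of_mem (α ∘ r) hx).symm
  have hlV : ∀ α ∈ VChar H, lift α ∈ VChar L := fun α hα => by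
    refine vchar_of_nilpotent (hlCF α (vchar_mem_CF hα)) fun E hE hEn => ?_
    have hd := dProd_piCoreOf_of_isNilpotent hEn π
    obtain ⟨t, ht, hAt⟩ := hnil _ (hd.le_left.trans hE) (isNilpotent_of_le hd.le_left hEn)
      (isPi_piCoreOf π E)
    obtain ⟨χ, hχ, hk, e⟩ := DProd_exists_vchar_res hd
      (vchar_res (conj_le_iff.1 hAt) (vchar_cfConj hα t⁻¹))
    convert hχ using 1
    refine CF_ext (res_mem_CF hE (hlCF α (vchar_mem_CF hα))) (vchar_mem_CF hχ) fun x hx => ?_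
    obtain ⟨a, ha, b, hb, rfl⟩ := hd.mem_iff.1 hx
    have h1 := piPt_mul_eq (isPiElt_of_mem (isPi_piCoreOf π E) ha)
      (isPiElt_of_mem (isPi_piCoreOf πᶜ E) hb) (hd.commute ha hb)
    have h2 := congrFun e a
    rw [res_of_mem _ ha, res_of_mem _ ha, cfConj_apply, inv_inv] at h2
    rw [res_of_mem _ hx, hl α (vchar_mem_CF hα) _ (hE hx) t ht (h1.symm ▸ hAt (conj_mem_conj ha t)),
      h1, apply_mul_of_mem_cfKer (vchar_mem_CF hχ) (hk hb), h2]
  -- the weight function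
  let m : G → ℕ := fun h => ∑ g ∈ fs (L : Set G), ∑ k ∈ fs (H : Set G),
    if k * r g * k⁻¹ = h then 1 else 0
  let β : G → ℂ := fun h => (m h : ℂ) / 𝐨(L)
  have hL0 := card_ne_zero_C L
  have hH0 := card_ne_zero_C H
  have hβ : ∀ α ∈ CF H, ip H α β = ip L (lift α) (cf1 L) := fun α hα => by
    have h1 : ∑ x ∈ fs (H : Set G), α x * (m x : ℂ) = 𝐨(H) * ∑ g ∈ fs (L : Set G), lift α g := by
      simp only [m, Nat.cast_sum, Finset.mul_sum]
      rw [Finset.sum_comm]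
      refine sum_fs_congr fun g hg => ?_
      rw [Finset.sum_comm, ← nsmul_eq_mul, ← sum_fs_const]
      refine sum_fs_congr fun k hk => ?_
      rw [Finset.sum_eq_single (k * r g * k⁻¹) (fun y _ hy => by simp [hy.symm])
        fun hy => (hy (mem_fs.2 (mul_mem (mul_mem hk (hr g hg).1) (inv_mem hk)))).elim,
        CF_conj hα hk]
      simpa using (res_of_mem (α ∘ r) hg).symm
    rw [ip_cf1_right, ip_def]
    simp only [β, map_div₀, map_natCast, ← mul_div_assoc, ← Finset.sum_div, h1]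
    field_simp
  have hβCF : β ∈ CF H := by
    refine mem_CF_of (fun x hx => ?_) fun j hj x _ => ?_
    · have : m x = 0 := Finset.sum_eq_zero fun g hg => Finset.sum_eq_zero fun k hk => if_neg
        fun e : k * r g * k⁻¹ = x => hx (e ▸ mul_mem (mul_mem (mem_fs.1 hk) (hr g (mem_fs.1 hg)).1) (inv_mem (mem_fs.1 hk)))
      simp [β, this]
    · have : m (j * x * j⁻¹) = m x := Finset.sum_congr rfl fun g _ => by
        rw [← sum_fs_mul_left hj]
        refine Finset.sum_congr rfl fun k _ => if_congr ?_ rfl rfl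
        rw [show j * k * r g * (j * k)⁻¹ = j * (k * r g * k⁻¹) * j⁻¹ by group]
        simp
      simp [β, this]
  have hβV : β ∈ VChar H := mem_VChar_iff.2 ⟨hβCF, fun φ hφ => by
    obtain ⟨n, hn⟩ := vchar_ip_int (hlV φ (irr_mem_VChar hφ)) (cf1_mem_VChar L)
    exact ⟨n, ip_comm_of_int ((hβ φ (irr_mem_CF hφ)).trans hn)⟩⟩
  have hm : ∀ h ∈ H, 𝐨(L) ≤ m h := fun h hh => by
    have h1 := H6.dvd_of_isIntegral_div (a := m h) (b := 𝐨(L)) (FT.card_ne_zero L)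
      (by simpa using vchar_isIntegral hβV h)
    refine Nat.le_of_dvd ?_ (by exact_mod_cast h1)
    have h2 := piPt_eq_self_iff.2 (isPiElt_of_mem hH hh)
    obtain ⟨k, hk, e⟩ := hwd h (hHL hh) 1 (one_mem L) (by simpa [h2] using hh)
    refine Finset.sum_pos' (fun _ _ => Nat.zero_le _) ⟨h, mem_fs.2 (hHL hh), ?_⟩
    exact Finset.sum_pos' (fun _ _ => Nat.zero_le _) ⟨k, mem_fs.2 hk, by simp [e, h2]⟩
  have hβ1 : ∀ h ∈ H, β h = 1 := by
    have h1 := hβ _ (cf1_mem_CF H)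
    rw [ip_congr (φ := lift (cf1 H)) (φ' := cf1 L) (ψ' := cf1 L) (fun x hx => by
      rw [cf1_of_mem hx]; exact (res_of_mem _ hx).trans (cf1_of_mem (hr x hx).1)) fun _ _ => rfl,
      ip_irr_self (cf1_mem_Irr L), ← conj_ip, ip_cf1_right] at h1
    have h2 : ∑ x ∈ fs (H : Set G), 𝐨(L) = ∑ x ∈ fs (H : Set G), m x := by
      simp only [β, ← Finset.sum_div, ← Nat.cast_sum, map_mul, map_inv₀, map_div₀,
        map_natCast] at h1
      field_simp at h1
      rw [sum_fs_const, smul_eq_mul]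
      exact_mod_cast h1.symm
    intro h hh
    rw [show β h = (m h : ℂ) / 𝐨(L) from rfl, ← (Finset.sum_eq_sum_iff_of_le fun x hx =>
      hm x (mem_fs.1 hx)).1 h2 h (mem_fs.2 hh), div_self hL0]
  have hl1 : ∀ α ∈ CF H, ∀ x ∈ L, IsPiElt πᶜ x → lift α x = α 1 := fun α hα x hx hx' => by
    simpa [piPt_eq_one_iff.2 hx'] using hl α hα x hx 1 (one_mem L)
  have hirr : ∀ φ ∈ Irr H, IsChar L (lift φ) := fun φ hφ => by
    have h1 := hβ _ (mul_mem_CF (irr_mem_CF hφ) (star_mem_CF (irr_mem_CF hφ)))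
    rw [ip_congr (φ' := φ * star φ) (ψ' := cf1 H) (fun _ _ => rfl) fun x hx => by
      rw [hβ1 x hx, cf1_of_mem hx], ip_mul_left, star_star, mul_cf1 (irr_mem_CF hφ),
      ip_irr_self hφ, ip_congr (φ' := lift φ * star (lift φ)) (ψ' := cf1 L) (fun x hx => by
        simp [lift, res_of_mem _ hx]) fun _ _ => rfl, ip_mul_left, star_star,
      mul_cf1 (hlCF φ (irr_mem_CF hφ))] at h1
    rcases dirr_of_nsq_one (hlV φ (irr_mem_VChar hφ)) (nsq_eq_one_iff.2 h1.symm) with h | h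
    · exact irr_isChar h
    · have h2 := irr_one_eq h
      rw [Pi.neg_apply, hl1 φ (irr_mem_CF hφ) 1 (one_mem L) (isPiElt_one _), irr_one_eq hφ] at h2
      have h3 : -(dg φ : ℤ) = dg (-lift φ) := by exact_mod_cast h2
      have := irr_dg_pos hφ
      omega
  refine ⟨L ⊓ ⨅ φ ∈ Irr H, cfKer (lift φ), fun x => and_congr_right fun hx => ?_⟩
  change x ∈ (⨅ φ ∈ Irr H, cfKer (lift φ) : Subgroup G) ↔ _
  simp only [Subgroup.mem_iInf]
  constructor
  · intro h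
    obtain ⟨h1, t, ht, e⟩ := hr x hx
    have h2 : r x ∈ (⊥ : Subgroup G) := by_contra fun hn => by
      obtain ⟨φ, hφ, h3⟩ := exists_irrKer_notMem_cfKer (K := H) ⟨bot_le, norm_bot.ge.trans' le_top⟩ hn
      have hφ := (mem_irrKer.1 hφ).1
      have h4 := ((hirr φ hφ).mem_cfKer_iff).1 (piPt_mem (h φ hφ) π)
      have h5 := piPt_eq_self_iff.2 (isPiElt_piPt π x)
      rw [hl1 φ (irr_mem_CF hφ) 1 (one_mem L) (isPiElt_one _),
        hl φ (irr_mem_CF hφ) _ (piPt_mem hx π) t ht (by rwa [h5, ← e]), h5, ← e] at h4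
      exact h3 ((irr_isChar hφ).mem_cfKer_iff.2 h4)
    rw [mem_bot, e] at h2
    exact piPt_eq_one_iff.1 (by simpa using h2)
  · intro h φ hφ
    rw [(hirr φ hφ).mem_cfKer_iff, hl1 φ (irr_mem_CF hφ) x hx h,
      hl1 φ (irr_mem_CF hφ) 1 (one_mem L) (isPiElt_one _)]

end Cfsg.Agent.H5
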