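import Cfsg.Agent.S4010
import Cfsg.Agent.H3.PBasic

/-! Derived length of `p`-groups: permutation and linear representations, wreath products. -/

set_option autoImplicit false

namespace Cfsg.Agent.H5

open Subgroup Module Cfsg.Agent.H1 Cfsg.Agent.S4010
open scoped commutatorElement

universe u v w

theorem mul_le_finrank_of_eigenspaces {k : Type*} [Field k] {V : Type*} [AddCommGroup V]
    [Module k V] [FiniteDimensional k V] (T : End k V) {ι : Type*} [Fintype ι] (c : ι → k)
    (hc : Function.Injective c) (d : ℕ) (hd : ∀ i, d ≤ finrank k (T.eigenspace (c i))) :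
    Fintype.card ι * d ≤ finrank k V := by
  classical
  have h1 : iSupIndep fun i => T.eigenspace (c i) := T.eigenspaces_iSupIndep.comp hc
  have h2 := LinearMap.finrank_le_finrank_of_injective h1.dfinsupp_lsum_injective
  have h3 : finrank k (Π₀ i, T.eigenspace (c i)) = ∑ i, finrank k (T.eigenspace (c i)) :=
    Module.finrank_directSum (R := k) fun i => T.eigenspace (c i)
  rw [h3] at h2
  refine le_trans ?_ h2
  rw [← Finset.card_univ, ← smul_eq_mul]
  exact Finset.card_nsmul_le_sum _ _ _ fun i _ => hd i

theorem derivedSeries_le_of_index_lt {p : ℕ} [hp : Fact p.Prime] (k : ℕ) :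
    ∀ {Q : Type u} [Group Q] [Finite Q], IsPGroup p Q → ∀ H : Subgroup Q, H.index < p ^ (k + 1) →
      derivedSeries Q k ≤ H := by
  induction k with
  | zero =>
    intro Q _ _ hQ H hH
    obtain ⟨j, hj⟩ := hQ.index H
    rw [hj] at hH
    have : j = 0 := by have := (Nat.pow_lt_pow_iff_right hp.out.one_lt).1 hH; omega
    rw [this, pow_zero, index_eq_one] at hj
    rw [hj]; exact le_top
  | succ k ih =>
    intro Q _ _ hQ H hH
    rcases eq_top_or_exists_le_coatom H with rfl | ⟨M, hM, hHM⟩
    · exact le_top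
    have hMi := H3.index_eq_of_isCoatom hQ hM
    have := hQ.isNilpotent
    have hMn := H3.normal_of_isCoatom hM
    have h1 := derived_succ_le (H3.commutator_le_of_index_prime (M := M) (hMi ▸ hp.out)) k
    have h2 : (H.subgroupOf M).index < p ^ (k + 1) := by
      have h3 := relIndex_mul_index hHM
      rw [hMi] at h3
      rw [← h3, pow_succ] at hH
      exact Nat.lt_of_mul_lt_mul_right hH
    refine h1.trans ((map_mono (ih (hQ.to_subgroup M) _ h2)).trans ?_)
    rw [subgroupOf_map_subtype]
    exact inf_le_left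

theorem derivedSeries_ne_bot_of_injective {X Y : Type*} [Group X] [Group Y] (f : X →* Y)
    (hf : Function.Injective f) {j : ℕ} (h : derivedSeries X j ≠ ⊥) : derivedSeries Y j ≠ ⊥ := by
  intro h'
  have := map_derivedSeries_le_derivedSeries f j
  rw [h', le_bot_iff, map_eq_bot_iff_of_injective _ hf] at this
  exact h this

theorem derivedSeries_sylow_ne_bot {p : ℕ} [Fact p.Prime] {X G : Type*} [Group X] [Group G]
    [Finite G] (hX : IsPGroup p X) (f : X →* G) (hf : Function.Injective f) (P : Sylow p G)
    {j : ℕ} (h : derivedSeries X j ≠ ⊥) : derivedSeries (P : Subgroup G) j ≠ ⊥ := by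
  have h1 : IsPGroup p f.range := hX.of_surjective _ f.rangeRestrict_surjective
  obtain ⟨Q, hQ⟩ := h1.exists_le_sylow
  exact derivedSeries_ne_bot_of_injective (Q.equiv P).toMonoidHom (Q.equiv P).injective
    (derivedSeries_ne_bot_of_injective ((inclusion hQ).comp f.rangeRestrict)
      ((inclusion_injective hQ).comp (f.rangeRestrict_injective_iff.2 hf)) h)

theorem wreath_derivedSeries_ne_bot {D Q : Type*} [Group D] [Group Q] [Nontrivial Q] {j : ℕ}
    (h : derivedSeries D j ≠ ⊥) : derivedSeries (D ≀ᵣ Q) (j + 1) ≠ ⊥ := by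
  classical
  let B : Subgroup (D ≀ᵣ Q) := RegularWreathProduct.rightHom.ker
  let π : B →* D :=
    { toFun := fun w => w.1.left 1
      map_one' := rfl
      map_mul' := fun a b => by
        have : a.1.right = 1 := a.2
        simp [this] }
  have key : ∀ j, derivedSeries D j ≤ ((derivedSeries (D ≀ᵣ Q) (j + 1)).subgroupOf B).map π := by
    intro j
    induction j with
    | zero =>
      intro d _
      obtain ⟨q, hq⟩ := exists_ne (1 : Q)
      refine ⟨⟨⁅(⟨Pi.mulSingle 1 d, 1⟩ : D ≀ᵣ Q), RegularWreathProduct.inl q⁆, ?_⟩, ?_, ?_⟩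
      · simp [B, commutatorElement_def]
      · exact commutator_mem_commutator (mem_top _) (mem_top _)
      · simp [π, commutatorElement_def, hq]
    | succ j ih =>
      rw [derivedSeries_succ, derivedSeries_succ (D ≀ᵣ Q)]
      refine (commutator_mono ih ih).trans ?_
      rw [← map_commutator]
      refine map_mono (commutator_le.2 fun a ha b hb => ?_)
      exact commutator_mem_commutator (mem_subgroupOf.1 ha) (mem_subgroupOf.1 hb)
  intro h'
  have := key j
  rw [h', bot_subgroupOf, Subgroup.map_bot, le_bot_iff] at this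
  exact h this

theorem iteratedWreath_derivedSeries_ne_bot (G : Type u) [Group G] [Nontrivial G] (k : ℕ) :
    derivedSeries (IteratedWreathProduct G (k + 1)) k ≠ ⊥ := by
  induction k with
  | zero =>
    have : Nontrivial (IteratedWreathProduct G (0 + 1)) :=
      Function.Injective.nontrivial
        (f := (RegularWreathProduct.inl : G →* IteratedWreathProduct G 0 ≀ᵣ G))
        fun a b h => congrArg RegularWreathProduct.right h
    rw [derivedSeries_zero]
    exact top_ne_bot
  | succ k ih => exact wreath_derivedSeries_ne_bot ih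

theorem isPGroup_iteratedWreath {p : ℕ} (G : Type u) [Group G] [Finite G] (hG : Nat.card G = p)
    (k : ℕ) : IsPGroup p (IteratedWreathProduct G k) :=
  IsPGroup.of_card (by rw [IteratedWreathProduct.card, hG])

theorem exists_rep_wreath {F : Type*} [Field F] (G : Type*) [Group G] {D : Type*} [Group D]
    {W : Type*} [AddCommGroup W] [Module F W] [Nontrivial W] (τ : D →* End F W)
    (hτ : Function.Injective τ) : ∃ τ' : D ≀ᵣ G →* End F (G → W), Function.Injective τ' := by
  classical
  let τ' : D ≀ᵣ G →* End F (G → W) :=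
    { toFun := fun w => LinearMap.pi fun x => τ (w.left x) ∘ₗ LinearMap.proj (w.right⁻¹ * x)
      map_one' := by ext; simp
      map_mul' := fun a b => by ext; simp [mul_assoc] }
  refine ⟨τ', ?_⟩
  rw [injective_iff_map_eq_one]
  intro w hw
  have h1 : ∀ (f : G → W) (x : G), τ (w.left x) (f (w.right⁻¹ * x)) = f x := fun f x =>
    congrArg (fun T : End F (G → W) => T f x) hw
  have h2 : w.right = 1 := by
    by_contra h
    obtain ⟨v, hv⟩ := exists_ne (0 : W)
    have := h1 (Pi.single 1 v) 1
    rw [Pi.single_eq_of_ne (by simpa using h), map_zero, Pi.single_eq_same] at this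
    exact hv this.symm
  refine RegularWreathProduct.ext (funext fun x => hτ ?_) h2
  ext v
  simpa using h1 (fun _ => v) x

/-- A faithful module for `G` of dimension `e` gives one of dimension `e |G|^k` for the iterated
wreath product. -/
theorem exists_rep_iteratedWreath {F : Type u} [Field F] {G : Type u} [Group G] [Finite G]
    {V : Type u} [AddCommGroup V] [Module F V] [FiniteDimensional F V] [Nontrivial V]
    (ρ : G →* End F V) (hρ : Function.Injective ρ) (k : ℕ) :
    ∃ (W : Type u) (_ : AddCommGroup W) (_ : Module F W) (_ : FiniteDimensional F W)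
      (_ : Nontrivial W), finrank F W = finrank F V * Nat.card G ^ k ∧
      ∃ τ : IteratedWreathProduct G (k + 1) →* End F W, Function.Injective τ := by
  induction k with
  | zero =>
    refine ⟨V, inferInstance, inferInstance, inferInstance, inferInstance, by simp,
      ρ.comp (RegularWreathProduct.rightHom (D := IteratedWreathProduct G 0)), hρ.comp ?_⟩
    intro a b hab
    exact RegularWreathProduct.ext (funext fun _ => Subsingleton.elim (α := PUnit) _ _) hab
  | succ k ih =>
    obtain ⟨W, _, _, _, _, hW, τ, hτ⟩ := ih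
    have := Fintype.ofFinite G
    obtain ⟨τ', hτ'⟩ := exists_rep_wreath G τ hτ
    refine ⟨G → W, inferInstance, inferInstance, inferInstance, inferInstance, ?_, τ', hτ'⟩
    rw [Module.finrank_pi_fintype, Finset.sum_const, hW, Finset.card_univ,
      Nat.card_eq_fintype_card, smul_eq_mul, pow_succ]
    ring

theorem irr_case_log {k : Type u} [Field k] [IsAlgClosed k] {q : ℕ} (hq : q.Prime)
    (n : ℕ) : ∀ {Q : Type v} [Group Q] [Finite Q], IsPGroup q Q → Nat.card Q = n →
      ∀ {V : Type w} [AddCommGroup V] [Module k V] [FiniteDimensional k V] [Nontrivial V]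
        (σ : Q →* End k V), IrrBy (Set.range σ) →
        ∀ g ∈ derivedSeries Q (Nat.log q (finrank k V) + 1), σ g = 1 := by
  classical
  have := Fact.mk hq
  induction n using Nat.strong_induction_on with
  | h n ih =>
  intro Q _ _ hQ hn V _ _ _ _ σ hirr
  by_cases htop : scalarSub σ = ⊤
  · intro g hg
    have h1 : derivedSeries Q 1 ≤ σ.ker := by
      rw [derivedSeries_succ, commutator_le]
      intro a _ b _
      obtain ⟨c, hc⟩ : a ∈ scalarSub σ := htop ▸ mem_top a
      rw [MonoidHom.mem_ker, commutatorElement_def, map_mul, map_mul, map_mul]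
      have : σ a * σ b = σ b * σ a := by rw [hc]; simp
      rw [this, mul_assoc (σ b), rep_mul_inv, mul_one, rep_mul_inv]
    exact h1 (derived_anti (by omega) hg)
  have hnt : Nontrivial (Q ⧸ scalarSub σ) := QuotientGroup.nontrivial_iff.mpr htop
  have hc := (hQ.to_quotient (scalarSub σ)).center_nontrivial
  obtain ⟨⟨x, hxc⟩, hx1⟩ := exists_ne (1 : center (Q ⧸ scalarSub σ))
  obtain ⟨x, rfl⟩ := QuotientGroup.mk_surjective x
  have hxZ : x ∉ scalarSub σ := fun h => hx1 (Subtype.ext ((QuotientGroup.eq_one_iff x).mpr h))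
  have hμ : ∀ y, ∃ c : k, σ (y * x * y⁻¹) = c • σ x := by
    intro y
    refine exists_eq_smul_of_inv_mul_mem (QuotientGroup.eq.mp ?_)
    rw [QuotientGroup.mk_mul, QuotientGroup.mk_mul, mem_center_iff.mp hxc]
    simp
  choose μ hμ using hμ
  have hμ' : ∀ y, σ y * σ x = μ y • (σ x * σ y) := by
    intro y
    rw [← smul_mul_assoc, ← hμ, ← map_mul, ← map_mul, inv_mul_cancel_right]
  let H : Subgroup Q :=
    { carrier := {y | σ y * σ x = σ x * σ y}
      one_mem' := by simp
      mul_mem' := by
        intro a b (ha : σ a * σ x = σ x * σ a) (hb : σ b * σ x = σ x * σ b)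
        change σ (a * b) * σ x = σ x * σ (a * b)
        rw [map_mul, mul_assoc, hb, ← mul_assoc, ha, mul_assoc]
      inv_mem' := by
        intro a (ha : σ a * σ x = σ x * σ a)
        change σ a⁻¹ * σ x = σ x * σ a⁻¹
        rw [← mul_one (σ a⁻¹ * σ x), ← rep_mul_inv σ a, ← mul_assoc, mul_assoc _ (σ x), ← ha,
          ← mul_assoc, rep_inv_mul, one_mul] }
  have hH : H ≠ ⊤ := fun h => hxZ (mem_scalarSub_of_commute hirr fun y =>
    (show y ∈ H from h ▸ mem_top y).symm)
  have hcomm : _root_.commutator Q ≤ H := by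
    rw [_root_.commutator, commutator_le]
    intro a _ b _
    change σ _ * σ x = σ x * σ _
    have e1 : σ ((a * b) * x * (a * b)⁻¹) = σ ((b * a) * x * (b * a)⁻¹) := by
      have k1 : ∀ a b : Q, σ ((a * b) * x * (a * b)⁻¹) = μ b • μ a • σ x := by
        intro a b
        calc σ ((a * b) * x * (a * b)⁻¹) = σ a * σ (b * x * b⁻¹) * σ a⁻¹ := by
              rw [← map_mul, ← map_mul]; congr 1; group
          _ = _ := by rw [hμ, mul_smul_comm, smul_mul_assoc, ← map_mul, ← map_mul, hμ]
      rw [k1, k1, smul_comm]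
    have k2 : ∀ c : Q, σ (c * x * c⁻¹) = σ x → σ c * σ x = σ x * σ c := by
      intro c hc
      conv_rhs => rw [← hc]
      rw [← map_mul, ← map_mul, inv_mul_cancel_right]
    apply k2
    have k3 : ∀ y : Q, σ ((a * b) * (y * x * y⁻¹) * (a * b)⁻¹) =
        σ ((b * a) * (y * x * y⁻¹) * (b * a)⁻¹) := by
      intro y
      have k4 : ∀ c : Q, σ (c * (y * x * y⁻¹) * c⁻¹) = μ y • σ (c * x * c⁻¹) := by
        intro c
        rw [map_mul, map_mul, hμ, mul_smul_comm, smul_mul_assoc, ← map_mul, ← map_mul]
      rw [k4, k4, e1]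
    calc σ (⁅a, b⁆ * x * ⁅a, b⁆⁻¹)
        = σ ((a * b) * ((b * a)⁻¹ * x * (b * a)⁻¹⁻¹) * (a * b)⁻¹) := by
          congr 1; simp only [commutatorElement_def]; group
      _ = σ x := by rw [k3]; congr 1; group
  obtain ⟨c, hc⟩ := End.exists_eigenvalue (σ x)
  have hinj : ∀ y : Q, Function.Injective (σ y) := fun y v w e => by
    rw [← End.one_apply (R := k) v, ← End.one_apply (R := k) w, ← rep_inv_mul σ y, End.mul_apply,
      End.mul_apply, e]
  have hc0 : c ≠ 0 := by
    rintro rfl
    obtain ⟨v, hv⟩ := hc.exists_hasEigenvector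
    refine hv.2 (hinj x ?_)
    rw [hv.apply_eq_smul]; simp
  obtain ⟨U, hU, hU0, hUH, hmin⟩ := exists_minimal_invBy (S := Set.range (σ.comp H.subtype))
    (W := (σ x).eigenspace c) (by
      rintro _ ⟨y, rfl⟩ v hv
      rw [End.mem_eigenspace_iff] at hv ⊢
      have : σ y * σ x = σ x * σ y := y.2
      change σ x (σ y v) = c • σ y v
      rw [← End.mul_apply, ← this, End.mul_apply, hv, map_smul]) hc
  have hUH' : ∀ y, ∀ u ∈ U, (σ.comp H.subtype) y u ∈ U := fun y => hUH _ ⟨y, rfl⟩
  have : Nontrivial U := Submodule.nontrivial_iff_ne_bot.mpr hU0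
  have he := ih _ (hn ▸ L.card_lt_of_ne_top hH)
    (hQ.to_subgroup H) rfl (restrictRep _ U hUH') (by
      have := irrBy_restrict (Y := 1) hUH' (fun _ h => h)
        (fun U' a b _ => hmin U' a (by rintro _ ⟨y, rfl⟩; exact b y))
      refine this.mono ?_
      rintro T (hT | hT)
      · rw [hT, show (1 : End k V).restrict (fun _ h => h : ∀ u ∈ U, (1 : End k V) u ∈ U) = 1 by
          ext; rfl]
        exact one_mem _
      · exact Algebra.subset_adjoin hT)
  have hdim : finrank k U * q ≤ finrank k V := by
    obtain ⟨y, hy⟩ : ∃ y, y ∉ H := by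
      by_contra hcon
      push Not at hcon
      exact hH (eq_top_iff.2 fun y _ => hcon y)
    have hμ1 : μ y ≠ 1 := fun h5 => hy (by
      change σ y * σ x = σ x * σ y
      rw [hμ', h5, one_smul])
    have hpow : ∀ i : ℕ, ∀ u ∈ U, μ y ^ i • σ x (σ (y ^ i) u) = c • σ (y ^ i) u := by
      intro i u hu
      induction i with
      | zero => simpa using End.mem_eigenspace_iff.mp (hU hu)
      | succ i ihi =>
        have h3 := congrArg (fun T : End k V => T (σ (y ^ i) u)) (hμ' y)
        simp only [End.mul_apply, LinearMap.smul_apply] at h3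
        rw [pow_succ' y, map_mul, End.mul_apply, pow_succ, mul_smul, ← h3, ← map_smul, ihi,
          map_smul]
    obtain ⟨u, hu0⟩ := exists_ne (0 : U)
    have hu0' : (u : V) ≠ 0 := fun h => hu0 (Subtype.ext h)
    obtain ⟨e, he⟩ := hQ y
    have hμe : μ y ^ q ^ e = 1 := by
      have h1 := hpow (q ^ e) u u.2
      rw [he, map_one, End.one_apply, End.mem_eigenspace_iff.mp (hU u.2), smul_smul] at h1
      exact mul_right_cancel₀ hc0 (by rw [one_mul]; exact smul_left_injective k hu0' h1)
    have hμ0 : μ y ≠ 0 := by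
      intro h
      rw [h, zero_pow (pow_pos hq.pos e).ne'] at hμe
      exact zero_ne_one hμe
    have hord : q ≤ orderOf (μ y) := by
      obtain ⟨j, -, hj⟩ := (Nat.dvd_prime_pow hq).1 (orderOf_dvd_of_pow_eq_one hμe)
      rcases j with _ | j
      · exact absurd (orderOf_eq_one_iff.1 hj) hμ1
      · rw [hj]; exact Nat.le_self_pow j.succ_ne_zero q
    have := mul_le_finrank_of_eigenspaces (σ x) (fun i : Fin q => c / μ y ^ (i : ℕ)) (by
      intro i j hij
      have h1 : μ y ^ (i : ℕ) = μ y ^ (j : ℕ) := by
        simp only [div_eq_mul_inv] at hij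
        exact inv_injective (mul_left_cancel₀ hc0 hij)
      exact Fin.ext (pow_injOn_Iio_orderOf (i.2.trans_le hord) (j.2.trans_le hord) h1))
      (finrank k U) (fun i => by
        rw [(Submodule.equivMapOfInjective _ (hinj (y ^ (i : ℕ))) U).finrank_eq]
        refine Submodule.finrank_mono ?_
        rintro _ ⟨u, hu, rfl⟩
        rw [End.mem_eigenspace_iff, div_eq_inv_mul, mul_smul, ← hpow i u hu, smul_smul,
          inv_mul_cancel₀ (pow_ne_zero _ hμ0), one_smul])
    rwa [Fintype.card_fin, mul_comm] at this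
  have hlog : Nat.log q (finrank k U) + 1 ≤ Nat.log q (finrank k V) := by
    rw [← Nat.log_mul_base hq.one_lt finrank_pos.ne']
    exact Nat.log_mono_right hdim
  let W : Submodule k V :=
    { carrier := {v | ∀ g ∈ derivedSeries Q (Nat.log q (finrank k V) + 1), σ g v = v}
      zero_mem' := fun g _ => map_zero _
      add_mem' := fun {a b} ha hb g hg => by rw [map_add, ha g hg, hb g hg]
      smul_mem' := fun c a ha g hg => by rw [map_smul, ha g hg] }
  have hW : InvBy (Set.range σ) W := by
    rintro _ ⟨y, rfl⟩ v hv g hg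
    have := hv _ ((derivedSeries_normal Q _).conj_mem' g hg y)
    conv_rhs => rw [← this]
    rw [← End.mul_apply, ← End.mul_apply, ← map_mul, ← map_mul]
    congr 2; group
  have hUW : U ≤ W := by
    intro u hu g hg
    obtain ⟨h, hh, rfl⟩ := derived_succ_le hcomm _ hg
    have := congrArg (fun T : End k U => (T ⟨u, hu⟩ : V)) (he h (derived_anti hlog hh))
    exact this
  have hWt : W = ⊤ := (hirr W hW).resolve_left fun e => hU0 (le_bot_iff.1 (e ▸ hUW))
  intro g hg
  ext v
  exact (hWt ▸ Submodule.mem_top : v ∈ W) g hg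

theorem coprime_case_log {k : Type u} [Field k] [IsAlgClosed k] {q : ℕ} (hq : q.Prime)
    (hqk : (q : k) ≠ 0) {Q : Type v} [Group Q] [Finite Q] (hQ : IsPGroup q Q)
    {V : Type w} [AddCommGroup V] [Module k V] [FiniteDimensional k V] (σ : Q →* End k V) :
    ∀ g ∈ derivedSeries Q (Nat.log q (finrank k V) + 1), σ g = 1 := by
  by_contra hcon
  push Not at hcon
  have := Fact.mk hq
  have := derivedSeries_normal Q (Nat.log q (finrank k V) + 1)
  obtain ⟨W, hW0, hW, hfix, -⟩ := exists_nofix_subspace σ
    (derivedSeries Q (Nat.log q (finrank k V) + 1)) (by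
      obtain ⟨e, he⟩ := (hQ.to_subgroup (derivedSeries Q (Nat.log q (finrank k V) + 1))).exists_card_eq
      rw [he, Nat.cast_pow]; exact pow_ne_zero _ hqk) hcon
  obtain ⟨U, hU, hU0, hUH, hmin⟩ := exists_minimal_invBy (S := Set.range σ) (W := W)
    (by rintro _ ⟨y, rfl⟩; exact hW y) hW0
  have hUH' : ∀ y, ∀ u ∈ U, σ y u ∈ U := fun y => hUH _ ⟨y, rfl⟩
  have : Nontrivial U := Submodule.nontrivial_iff_ne_bot.mpr hU0
  have he := irr_case_log hq _ hQ rfl (restrictRep _ U hUH') (by
      have := irrBy_restrict (Y := 1) hUH' (fun _ h => h)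
        (fun U' a b _ => hmin U' a (by rintro _ ⟨y, rfl⟩; exact b y))
      refine this.mono ?_
      rintro T (hT | hT)
      · rw [hT, show (1 : End k V).restrict (fun _ h => h : ∀ u ∈ U, (1 : End k V) u ∈ U) = 1 by
          ext; rfl]
        exact one_mem _
      · exact Algebra.subset_adjoin hT)
  obtain ⟨u, hu⟩ := exists_ne (0 : U)
  refine hu (Subtype.ext (hfix u (hU u.2) fun g hg => ?_))
  exact congrArg (fun T : End k U => (T u : V)) (he g (derived_anti
    (Nat.succ_le_succ (Nat.log_mono_right U.finrank_le)) hg))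

end Cfsg.Agent.H5
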