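import Cfsg.Agent.H1.Basic

/-! Extending the identity of a normal subgroup of prime index to an automorphism. -/

set_option autoImplicit false

namespace Cfsg.Agent.H5

open Subgroup

variable {G : Type*} [Group G]

/-- A subgroup of `G × H` projecting injectively and surjectively onto `G` and surjectively onto
`H` is the graph of a surjection. -/
theorem exists_hom_of_graph {H : Type*} [Group H] (K : Subgroup (G × H))
    (h1 : ∀ g : G, ∃ h, (g, h) ∈ K) (h2 : ∀ h : H, (1, h) ∈ K → h = 1) :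
    ∃ f : G →* H, ∀ g h, (g, h) ∈ K ↔ f g = h := by
  choose f hf using h1
  have key : ∀ g h, (g, h) ∈ K → f g = h := fun g h hh => by
    have := h2 ((f g)⁻¹ * h) (by simpa using K.mul_mem (K.inv_mem (hf g)) hh)
    rwa [inv_mul_eq_one] at this
  exact ⟨MonoidHom.mk' f fun a b => key _ _ (K.mul_mem (hf a) (hf b)),
    fun g h => ⟨key g h, fun e => e ▸ hf g⟩⟩

theorem exists_mulAut_extend [Finite G] {C : Subgroup G} [hC : C.Normal] {p : ℕ} (hp : p.Prime)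
    {x y : G} (hx : x ∉ C) (hxp : x ^ p ∈ C) (hsup : zpowers x ⊔ C = ⊤) (hy : x⁻¹ * y ∈ C)
    (hxy : ∀ c ∈ C, y * c * y⁻¹ = x * c * x⁻¹) (hyp : y ^ p = x ^ p) :
    ∃ α : MulAut G, α x = y ∧ ∀ c ∈ C, α c = c := by
  set D : Subgroup (G × G) := C.map ((MonoidHom.id G).prod (MonoidHom.id G)) with hD
  have hDm : ∀ {u v : G}, (u, v) ∈ D ↔ u ∈ C ∧ u = v := by
    intro u v
    simp only [hD, mem_map, MonoidHom.prod_apply, MonoidHom.id_apply, Prod.mk.injEq]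
    exact ⟨fun ⟨c, hc, h1, h2⟩ => ⟨h1 ▸ hc, h1.symm.trans h2⟩, fun ⟨h1, h2⟩ => ⟨u, h1, rfl, h2⟩⟩
  have hn : zpowers (x, y) ≤ normalizer (D : Set (G × G)) := by
    rw [zpowers_le]
    refine mem_normalizer_fintype ?_
    rintro ⟨u, v⟩ h
    obtain ⟨hu, rfl⟩ := hDm.1 h
    exact hDm.2 ⟨hC.conj_mem u hu x, (hxy u hu).symm⟩
  obtain ⟨f, hf⟩ := exists_hom_of_graph (zpowers (x, y) ⊔ D) (fun g => by
    obtain ⟨_, ⟨i, rfl⟩, c, hc, rfl⟩ := mem_sup_of_normal_right.1 (hsup ▸ mem_top g)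
    exact ⟨y ^ i * c, mul_mem_sup (zpow_mem (mem_zpowers (x, y)) i) (hDm.2 ⟨hc, rfl⟩ :
      (c, c) ∈ D)⟩) (fun h hh => by
    obtain ⟨_, ⟨i, rfl⟩, ⟨u, v⟩, hc, h1⟩ := (H1.mem_sup_iff_of_le_normalizer hn).1 hh
    obtain ⟨hu, rfl⟩ := hDm.1 hc
    simp only [Prod.pow_mk, Prod.mk_mul_mk, Prod.mk.injEq] at h1
    have h2 : x ^ i ∈ C := (Subgroup.mul_mem_cancel_right C hu).1 (h1.1 ▸ one_mem C)
    have h3 : (p : ℤ) ∣ i := by
      by_contra h3
      obtain ⟨s, t, hst⟩ := (Nat.prime_iff_prime_int.1 hp).irreducible.coprime_iff_not_dvd.2 h3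
      apply hx
      rw [← zpow_one x, ← hst, zpow_add, mul_comm s, mul_comm t, zpow_mul, zpow_mul, zpow_natCast]
      exact mul_mem (zpow_mem hxp _) (zpow_mem h2 _)
    obtain ⟨j, rfl⟩ := h3
    rw [← h1.2, ← h1.1, zpow_mul, zpow_mul, zpow_natCast, zpow_natCast, hyp])
  have hfx : f x = y := (hf _ _).1 (mem_sup_left (mem_zpowers _))
  have hfc : ∀ c ∈ C, f c = c := fun c hc => (hf _ _).1 (mem_sup_right (hDm.2 ⟨hc, rfl⟩))
  have hsurj : Function.Surjective f := by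
    rw [← MonoidHom.range_eq_top, eq_top_iff, ← hsup]
    refine sup_le (zpowers_le.2 ⟨x * (x⁻¹ * y)⁻¹, ?_⟩) fun c hc => ⟨c, hfc c hc⟩
    rw [map_mul, hfx, hfc _ (inv_mem hy)]
    group
  exact ⟨MulEquiv.ofBijective f ⟨Finite.injective_iff_surjective.2 hsurj, hsurj⟩, hfx, hfc⟩

end Cfsg.Agent.H5
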