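/-
Coprime action with a nilpotent maximal invariant subgroup whose Sylow 2-subgroup has class at
most 2: a pushing-up argument for the prime 2.
-/
import Cfsg.Agent.FT.BG01
import Cfsg.Agent.H5.Thompson
import Cfsg.Agent.H8.InvNilp
import Cfsg.Agent.L.Invol

set_option autoImplicit false

namespace Cfsg.Agent.H5

open Subgroup Cfsg Cfsg.Agent Cfsg.Agent.FT
open scoped commutatorElement

universe u

variable {X : Type u} [Group X]

/-- The configuration produced by a minimal overgroup of the Sylow 2-subgroup `P`. -/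
structure PushUp (P D W : Subgroup X) : Prop where
  le : D ≤ P
  idx : ∀ s ∈ P, ∀ t ∈ P, s ∉ D → t ∉ D → s * t ∈ D
  zle : 𝐙(P) ≤ D
  wle : W ≤ D
  wcent : D ≤ 𝐂(W)
  wsq : ∀ w ∈ W, w * w = 1
  wnorm : P ≤ 𝐍(W)
  wnc : ¬ P ≤ 𝐂(W)
  der : W ⊓ ⁅D, D⁆ = ⊥
  sq : ∀ d ∈ D, d * d ∈ W → d * d = 1

namespace PushUp

variable {P D W D₁ W₁ D₂ W₂ D₃ W₃ : Subgroup X}

theorem conj (h : PushUp P D W) {g : X} (hg : g ∈ 𝐍(P)) : PushUp P (D ^ᵍ g) (W ^ᵍ g) := by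
  have hP := conj_eq_of_mem_norm hg
  have hP' : ∀ {s}, s ∈ P → g⁻¹ * s * g ∈ P := fun hs => mem_conj.1 (hP.symm ▸ hs)
  refine ⟨hP ▸ conj_mono h.le g, fun s hs t ht h1 h2 => ?_, ?_, conj_mono h.wle g,
    conj_le_cent_iff.2 h.wcent, ?_, hP ▸ conj_le_norm_iff.2 h.wnorm,
    fun e => h.wnc (conj_le_cent_iff.1 (hP.symm ▸ e)), ?_, ?_⟩
  · rw [mem_conj] at h1 h2 ⊢
    have := h.idx _ (hP' hs) _ (hP' ht) h1 h2
    rwa [show g⁻¹ * s * g * (g⁻¹ * t * g) = g⁻¹ * (s * t) * g by group] at this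
  · rw [← hP, cent_conj, ← conj_inf]
    exact conj_mono h.zle g
  · rintro _ ⟨w, hw, rfl⟩
    rw [← map_mul, h.wsq w hw, map_one]
  · rw [← conj_comm, ← conj_inf, h.der, conj_bot]
  · rintro _ ⟨d, hd, rfl⟩ h1
    rw [← map_mul] at h1 ⊢
    rw [h.sq d hd (conj_mem_conj_iff.1 h1), map_one]

theorem le_of_notMem (h : PushUp P D W) {C : Subgroup X} (hD : D ≤ C) {s : X} (hs : s ∈ P)
    (h1 : s ∉ D) (h2 : s ∈ C) : P ≤ C := fun x hx => by
  by_cases hxD : x ∈ D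
  · exact hD hxD
  · exact (mul_mem_cancel_left h2).1 (hD (h.idx s hs x hx h1 hxD))

theorem symm (h₁ : PushUp P D₁ W₁) (h₂ : PushUp P D₂ W₂) (h : W₂ ≤ D₁) : W₁ ≤ D₂ := fun w hw => by
  by_contra h1
  exact h₂.wnc (h₂.le_of_notMem h₂.wcent ((h₁.wle.trans h₁.le) hw) h1
    (cent_comm.1 (h.trans h₁.wcent) hw))

theorem comm_mem (h₁ : PushUp P D₁ W₁) (h₂ : PushUp P D₂ W₂) (h : ¬ W₁ ≤ D₂) {w x : X}
    (hw : w ∈ W₂) (hx : x ∈ P) : ⁅w, x⁆ ∈ W₁ := by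
  obtain ⟨v, hv, hv'⟩ := SetLike.not_le_iff_exists.1 h
  have hc : ∀ d ∈ D₂, w * d = d * w := fun d hd => h₂.wcent hd w hw
  by_cases hxD : x ∈ D₂
  · rw [commutatorElement_eq_one_iff_mul_comm.2 (hc x hxD)]
    exact one_mem _
  · have h1 := hc _ (h₂.idx v ((h₁.wle.trans h₁.le) hv) x hx hv' hxD)
    have h2 : ⁅w, x⁆ = w * v⁻¹ * w⁻¹ * v := by
      calc ⁅w, x⁆ = w * v⁻¹ * w⁻¹ * (w * (v * x)) * w⁻¹ * x⁻¹ := by
            rw [commutatorElement_def]; group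
        _ = _ := by rw [h1]; group
    rw [h2]
    exact mul_mem (conj_eq_of_mem_norm (h₁.wnorm ((h₂.wle.trans h₂.le) hw)) ▸
      conj_mem_conj (inv_mem hv) w) hv

theorem uniq (h₁ : PushUp P D₁ W₁) (h₂ : PushUp P D₂ W₂) (h₃ : PushUp P D₃ W₃) (h : ¬ W₁ ≤ D₂)
    (h' : ¬ W₁ ≤ D₃) : D₂ ≤ D₃ := by
  obtain ⟨v, hv, hv'⟩ := SetLike.not_le_iff_exists.1 (mt (h₁.symm h₂) h)
  obtain ⟨w, hw, hw'⟩ := SetLike.not_le_iff_exists.1 (mt (h₁.symm h₃) h')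
  have hvP := (h₂.wle.trans h₂.le) hv
  have hwP := (h₃.wle.trans h₃.le) hw
  have hd := h₁.idx v hvP w hwP hv' hw'
  have h3 : ∀ x ∈ P, w * x = x * w → x ∈ D₃ := fun x hx hc => by
    by_contra hx'
    exact hw' (h₁.zle ⟨hwP, mem_cent_iff_cent1.2 (h₃.le_of_notMem
      (h₃.wcent.trans (cent_le_cent1 hw)) hx hx' (mem_cent1.2 hc))⟩)
  have h4 : ∀ x ∈ D₁, x ∈ D₂ → x ∈ D₃ := fun x hx hx' => by
    have h5 : ⁅v * w, x⁆ = v * ⁅w, x⁆ * v⁻¹ * ⁅v, x⁆ := by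
      simp only [commutatorElement_def]; group
    have h6 : ⁅v * w, x⁆ ∈ W₁ ⊓ ⁅D₁, D₁⁆ := ⟨h5 ▸ mul_mem
      (conj_eq_of_mem_norm (h₁.wnorm hvP) ▸ conj_mem_conj (h₁.comm_mem h₃ h' hw (h₁.le hx)) v)
      (h₁.comm_mem h₂ h hv (h₁.le hx)), commutator_mem_commutator hd hx⟩
    rw [h₁.der, mem_bot, h5, commutatorElement_eq_one_iff_mul_comm.2 (h₂.wcent hx' v hv),
      mul_one, mul_inv_eq_one, mul_eq_left, commutatorElement_eq_one_iff_mul_comm] at h6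
    exact h3 x (h₁.le hx) h6
  have h5 : v ∈ D₃ := by
    have e : v * w * (v * w) = ⁅v, w⁆ := by
      rw [commutatorElement_def, inv_eq_of_mul_eq_one_right (h₂.wsq v hv),
        inv_eq_of_mul_eq_one_right (h₃.wsq w hw), mul_assoc (v * w)]
    have := h₁.sq _ hd (e ▸ h₁.comm_mem h₂ h hv hwP)
    rw [e, commutatorElement_eq_one_iff_mul_comm] at this
    exact h3 v hvP this.symm
  intro x hx
  by_cases hx1 : x ∈ D₁
  · exact h4 x hx1 hx
  · exact (mul_mem_cancel_left h5).1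
      (h4 _ (h₁.idx v hvP x (h₂.le hx) hv' hx1) (mul_mem (h₂.wle hv) hx))

theorem le_conj [Finite X] (h : PushUp P D W) {a : X} (ha : a ∈ 𝐍(P)) (ho : Odd (orderOf a)) :
    W ≤ D ^ᵍ a := by
  by_contra h1
  have h2 : ¬ W ≤ D ^ᵍ a⁻¹ := fun e => h1 (h.symm (h.conj ha) (conj_le_iff.2 e))
  have h3 : a ^ 2 ∈ 𝐍(D) := mem_norm_of_conj_le (by
    rw [pow_two, ← conj_conj, conj_le_iff]
    exact h.uniq (h.conj ha) (h.conj (inv_mem ha)) h1 h2)
  have h4 : a ∈ 𝐍(D) :=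
    zpowers_le.2 h3 (mem_zpowers_pow_iff.2 (Nat.coprime_two_left.2 ho))
  exact h1 ((conj_eq_of_mem_norm h4).symm ▸ h.wle)

end PushUp

theorem sq_conj_eq {t u : X} (h : t * ⁅t, u⁆ = ⁅t, u⁆ * t) :
    t * t * u * (t * t)⁻¹ = ⁅t, u⁆ * ⁅t, u⁆ * u := by
  calc t * t * u * (t * t)⁻¹ = (t * ⁅t, u⁆) * u * t⁻¹ := by rw [commutatorElement_def]; group
    _ = _ := by rw [h, commutatorElement_def]; group

variable [Finite X] {H P : Subgroup X}

theorem pushUp_bar (hP : IsSyl 2 P H) (hab : IsMulCommutative P)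
    (hmax : ∀ Y, P ≤ Y → Y ≤ H → Y = P ∨ Y = H) (hn : ¬ H ≤ 𝐍(P)) (hO : pCoreOf 2 H = ⊥)
    (hsq : ∀ s ∈ P, s * s = 1) : SdProd (H2.pPrimeCoreOf 2 H) P H ∧
      ∀ s ∈ P, ∀ t ∈ P, s ≠ 1 → t ≠ 1 → s * t = 1 := by
  have hc := isMulComm_iff_le_cent.1 hab
  have h1 : H ⊓ 𝐍(P) = P := (hmax _ (le_inf hP.le le_normalizer) inf_le_left).resolve_right
    fun e => hn (e.ge.trans inf_le_right)
  have hsd := (burnside_npc Nat.prime_two hP (h1.le.trans hc)).sdProd Nat.prime_two hP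
  have h2 : ∀ s ∈ P, s ≠ 1 → H ⊓ 𝐂[s] = P := fun s hs hs1 =>
    (hmax _ (le_inf hP.le (hc.trans (cent_le_cent1 hs))) inf_le_left).resolve_right fun e => by
      have h3 := le_pCoreOf (N := zpowers s) ⟨zpowers_le.2 (hP.le hs), (e.ge.trans inf_le_right).trans
        ((cent_zpowers s).ge.trans (cent_le_norm _))⟩ (hP.pgrp.to_le (zpowers_le.2 hs))
      exact hs1 (by simpa [hO] using h3)
  have h3 : ∀ s ∈ P, s ≠ 1 → ∀ a ∈ H2.pPrimeCoreOf 2 H, s * a * s = a⁻¹ := fun s hs hs1 =>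
    L.inverts_of_fpf (hsq s hs) (hsd.norm hs) fun a ha hc' =>
      mem_bot.1 (hsd.disj ▸ ⟨ha, (h2 s hs hs1).le ⟨hsd.le_left ha, mem_cent1.2 hc'.eq⟩⟩)
  refine ⟨hsd, fun s hs t ht hs1 ht1 => by_contra fun h4 => hn ?_⟩
  have h5 : H2.pPrimeCoreOf 2 H ≤ P := fun a ha => (h2 _ (mul_mem hs ht) h4).le
    ⟨hsd.le_left ha, mem_cent1.2 (by
      have e1 := h3 s hs hs1 _ (inv_mem ha)
      have e2 := h3 t ht ht1 _ ha
      have e3 := hc hs t ht
      calc s * t * a = s * (t * a * t) * s * (s * s)⁻¹ * s * (t * t)⁻¹ * t := by group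
        _ = a * (s * t) := by rw [e2, e1, hsq s hs, hsq t ht]; group)⟩
  rw [← hsd.sup]
  exact (sup_le h5 le_rfl).trans le_normalizer

theorem exists_pushUp (hP : IsSyl 2 P H) (hcl : ⁅P, P⁆ ≤ 𝐂(P))
    (hmax : ∀ Y, P ≤ Y → Y ≤ H → Y = P ∨ Y = H) (hn : ¬ H ≤ 𝐍(P))
    (hC : H ⊓ 𝐂(omegaOne 2 𝐙(P)) ≤ P) (hZ : 𝐙(P) ≤ pCoreOf 2 H) :
    ∃ D W R : Subgroup X, PushUp P D W ∧ R ≤ H ∧ ¬ R ≤ P ∧ ⁅D, R⁆ ≤ W := by
  have hDn := pCoreOf_normal 2 H
  have hDP := hP.pCoreOf_le Nat.prime_two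
  have hDle : ∀ N, N ⊲ H → N ≤ P → N ≤ pCoreOf 2 H := fun N h1 h2 =>
    le_pCoreOf h1 (hP.pgrp.to_le h2)
  have := H1.normal_subgroupOf_of_le hDn.2
  have hO := pCoreOf_bar (Y := H) Nat.prime_two hDn.1 le_rfl (hP.pgrp.to_le hDP)
  rw [H1.bar_self] at hO
  generalize pCoreOf 2 H = D at *
  have hPP : ⁅P, P⁆ ≤ 𝐙(P) := le_inf (der_le P) hcl
  have hall : ∀ C : Subgroup X, H ≤ 𝐍(C) → P ≤ C → H ≤ C := fun C h1 h2 =>
    (hmax _ (le_inf hP.le h2) inf_le_left).elim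
      (fun e => absurd (e ▸ H1.le_normalizer_inf le_normalizer h1) hn)
      fun e => e.ge.trans inf_le_right
  have hUn : H ≤ 𝐍(𝐙(D)) := hDn.2.trans (norm_le_norm_center D)
  have hVn : H ≤ 𝐍(omegaOne 2 𝐙(D)) := hUn.trans (norm_le_norm_omegaOne _ 2)
  have hZU : 𝐙(P) ≤ 𝐙(D) := le_inf hZ (inf_le_right.trans (cent_anti hDP))
  have hV : ∀ {x}, x ∈ omegaOne 2 𝐙(D) ↔ x ∈ 𝐙(D) ∧ x ^ 2 = 1 :=
    mem_omegaOne_iff_of_comm (isMulComm_center D)
  have hCV : H ⊓ 𝐂(omegaOne 2 𝐙(D)) ≤ D := hDle _ ⟨inf_le_left, H1.le_normalizer_inf le_normalizer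
    (hVn.trans (H1.normalizer_le_normalizer_centralizer _))⟩
    ((inf_le_inf_left H (cent_anti (omegaOne_mono hZU))).trans hC)
  have hcc : ∀ t ∈ P, ∀ u ∈ P, t * ⁅t, u⁆ = ⁅t, u⁆ * t := fun t ht u hu =>
    hcl (commutator_mem_commutator ht hu) t ht
  have hsq : ∀ t ∈ P, t * t ∈ D := fun t ht => hCV ⟨hP.le (mul_mem ht ht), fun v hv => by
    have h1 := sq_conj_eq (hcc t ht v (hDP (hV.1 hv).1.1))
    have h2 := (hV.1 (comm_le_right_iff.2 (hP.le.trans hVn)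
      (commutator_mem_commutator ht hv))).2
    rw [← sq ⁅t, v⁆, h2, one_mul, mul_inv_eq_iff_eq_mul] at h1
    exact h1.symm⟩
  have hDH : ⁅D, H⁆ ≤ 𝐙(D) := (le_centMod_iff.1 (hall _ (norm_le_norm_centMod hDn.2 hUn)
    (le_centMod_iff.2 ⟨hP.le.trans hUn, (commutator_mono hDP le_rfl).trans (hPP.trans hZU)⟩))).2
  have hUH : ⁅𝐙(D), H⁆ ≤ omegaOne 2 𝐙(D) :=
    (le_centMod_iff.1 (hall _ (norm_le_norm_centMod hUn hVn) (le_centMod_iff.2
      ⟨hP.le.trans hVn, by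
        rw [Subgroup.commutator_comm, commutator_le]
        intro t ht u hu
        refine hV.2 ⟨hZU (hPP (commutator_mem_commutator ht (hDP hu.1))), ?_⟩
        have h1 := sq_conj_eq (hcc t ht u (hDP hu.1))
        rw [hu.2 _ (hsq t ht), mul_inv_cancel_right, eq_comm, mul_eq_right] at h1
        rw [sq, h1]⟩))).2
  obtain ⟨hsd, hidx⟩ := pushUp_bar (hP.bar (N := D) Nat.prime_two le_rfl)
    ((H1.isMulCommutative_bar_iff hP.le).2 (hPP.trans hZ)) (fun Y h1 h2 =>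
      (hmax _ ((H1.bar_le_iff hP.le).1 h1) (H1.unbar_le Y)).imp
        (fun e => by rw [← e, H1.bar_unbar]) fun e => (H1.bar_unbar Y).symm.trans (congrArg _ e))
    (fun e => hn (H1.unbar_bar_of_le hDP hP.le ▸ H1.le_normalizer_unbar le_rfl e)) hO (by
      rintro _ ⟨s, hs, rfl⟩
      rw [← map_mul]
      exact H1.qmk_eq_one_iff.2 (hsq s hs))
  have hLn := unbar_normal hDn.1 le_rfl hsd.normal
  have hDL := H1.le_unbar hDn.1 (H2.pPrimeCoreOf 2 (H1.bar H D H))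
  have hLi := relIndex_unbar (Y := H) (N := D) (H2.pPrimeCoreOf 2 (H1.bar H D H))
  have hLP : H1.unbar H D (H2.pPrimeCoreOf 2 (H1.bar H D H)) ⊔ P = H := by
    have := congrArg (H1.unbar H D) hsd.sup
    rwa [H1.unbar_sup, H1.unbar_bar_of_le hDP hP.le, H1.unbar_bar_of_le hDn.1 le_rfl] at this
  have hodd := not_dvd_card_pPrimeCoreOf Nat.prime_two (H1.bar H D H)
  rw [← hLi] at hodd
  generalize H1.unbar H D (H2.pPrimeCoreOf 2 (H1.bar H D H)) = L at hLn hDL hLP hodd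
  have hcop : 𝐨(D).Coprime (D.relIndex L) := by
    obtain ⟨n, hn⟩ := exists_card_eq_pow Nat.prime_two (hP.pgrp.to_le hDP)
    rw [hn]
    exact Nat.Coprime.pow_left n ((Nat.Prime.coprime_iff_not_dvd Nat.prime_two).2 hodd)
  obtain ⟨R, hR⟩ := exists_sdProd_of_hall ⟨hDL, hcop⟩ (hLn.1.trans hDn.2)
  rw [hR.relIndex_left, Nat.coprime_comm] at hcop
  have hRH : R ≤ H := hR.le_right.trans hLn.1
  have hRP : ¬ R ≤ P := fun e => hn (by
    rw [← hLP, ← hR.sup]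
    exact (sup_le (sup_le hDP e) le_rfl).trans le_normalizer)
  have hWV : ⁅D, R⁆ ≤ omegaOne 2 𝐙(D) := H1.commutator_le_of_commutator_le hR.norm hcop
    ((commutator_mono le_rfl hRH).trans hDH) ((commutator_mono le_rfl hRH).trans hUH)
  have hVD : omegaOne 2 𝐙(D) ≤ 𝐙(D) := omegaOne_le _ _
  have hWD : ⁅D, R⁆ ≤ D := comm_le_left_iff.2 hR.norm
  have hWc : D ≤ 𝐂(⁅D, R⁆) := cent_comm.1 ((hWV.trans hVD).trans inf_le_right)
  have hWW := H1.commutator_commutator_eq hR.norm hcop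
  have hRW : R ≤ 𝐍(⁅D, R⁆) := H1.le_normalizer_commutator_self
  have hWn : H ≤ 𝐍(⁅D, R⁆) := by
    rw [show ⁅D, R⁆ = ⁅omegaOne 2 𝐙(D), L⁆ from le_antisymm
      (hWW.ge.trans (commutator_mono hWV hR.le_right)) (hR.sup ▸ comm_sup_le
        (hWc.trans (cent_le_norm _)) hRW
        ((comm_eq_bot_iff.2 (hVD.trans inf_le_right)).le.trans bot_le)
        (commutator_mono (hVD.trans inf_le_left) le_rfl))]
    exact H1.le_normalizer_commutator hVn hLn.2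
  have hWR : 𝐂(R) ⊓ ⁅D, R⁆ = ⊥ := by
    have := H1.centralizer_inf_commutator_eq_bot
      (isMulComm_iff_le_cent.2 (hWD.trans hWc)) hRW (H1.coprime_of_le hcop le_rfl hWD)
    rwa [hWW] at this
  have hDE := H1.commutator_sup_centralizer hR.norm hcop
    (Or.inr (isSolvable_of_isNilpotent (isNilpotent_of_isPGroup Nat.prime_two
      (hP.pgrp.to_le hDP))))
  have hWsq : ∀ w ∈ ⁅D, R⁆, w * w = 1 := fun w hw => by rw [← sq, (hV.1 (hWV hw)).2]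
  refine ⟨D, ⁅D, R⁆, R, ⟨hDP, fun s hs t ht h1 h2 => ?_, hZ, hWD, hWc, hWsq, hP.le.trans hWn,
    fun e => hRP ?_, le_bot_iff.1 (hWR ▸ le_inf (inf_le_right.trans ?_) inf_le_left),
    fun d hd h1 => mem_bot.1 (hWR ▸ ⟨?_, h1⟩)⟩, hRH, hRP, le_rfl⟩
  · have := hidx _ (H1.qmk_mem_bar (y := ⟨s, hP.le hs⟩) hs) _ (H1.qmk_mem_bar (y := ⟨t, hP.le ht⟩) ht)
      (H1.qmk_eq_one_iff.not.2 h1) (H1.qmk_eq_one_iff.not.2 h2)
    rw [← map_mul] at this
    exact H1.qmk_eq_one_iff.1 this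
  · have h1 := hRH.trans (hall _ (hWn.trans (H1.normalizer_le_normalizer_centralizer _)) e)
    rw [cent_comm, ← comm_eq_bot_iff, hWW, comm_eq_bot_iff, cent_comm] at h1
    exact (le_inf hRH (h1.trans (cent_anti (hVD.trans inf_le_left)))).trans (hCV.trans hDP)
  · have hE : ⁅D, R⁆ ≤ 𝐂(D ⊓ 𝐂(R)) := cent_comm.1 (inf_le_left.trans hWc)
    conv_lhs => rw [← hDE]
    exact (der_sup_le (hE.trans (cent_le_norm _)) le_normalizer
      ((comm_eq_bot_iff.2 (hWD.trans hWc)).le.trans bot_le)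
      ((comm_eq_bot_iff.2 hE).le.trans bot_le) (der_le _)).trans inf_le_right
  · rw [← hDE] at hd
    obtain ⟨w, hw, e, he, rfl⟩ := (mem_sup_of_norm ((inf_le_left.trans hWc).trans
      (cent_le_norm _))).1 hd
    rw [show w * e * (w * e) = w * (e * w) * e by group, ← hWc he.1 w hw,
      show w * (w * e) * e = w * w * (e * e) by group, hWsq w hw, one_mul]
    exact mul_mem he.2 he.2

variable {A K : Subgroup X}

/-- The normal 2-complement theorem behind the solvability criterion. -/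
theorem hasNPC_two_of_invariant (hAP : A ≤ 𝐍(P)) (ho : Odd 𝐨(A)) (hP : IsSyl 2 P K)
    (hcl : ⁅P, P⁆ ≤ 𝐂(P)) (hP1 : P ≠ ⊥)
    (hN : ∀ N, N ≠ ⊥ → N ≤ P → P ≤ 𝐍(N) → A ≤ 𝐍(N) → K ⊓ 𝐍(N) ≤ P) : HasNPC 2 K := by
  have hPP : ⁅P, P⁆ ≤ 𝐙(P) := le_inf (der_le P) hcl
  have hZ1 := center_ne_bot (isNilpotent_of_isPGroup Nat.prime_two hP.pgrp) hP1
  have hNP := hN P hP1 le_rfl le_normalizer hAP
  have claim1 : ∀ D, 𝐙(P) ≤ D → D ≤ P → K ⊓ 𝐍(D) ≤ P := by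
    intro D₀ h1 h2
    by_contra h3
    obtain ⟨H, ⟨hPH, hH⟩, hmin⟩ := exists_minimal_of_wellFoundedLT
      (fun H : Subgroup X => P < H ∧ H ≤ K ⊓ 𝐍(D₀))
      ⟨_, lt_of_le_not_ge (le_inf hP.le (le_norm_of_der_le (hPP.trans h1) h2)) h3, le_rfl⟩
    have hHK := hH.trans inf_le_left
    have hn := (norm_le_norm_center P).trans (norm_le_norm_omegaOne _ 2)
    obtain ⟨D, W, R, hg, hR, hRP, hDR⟩ := exists_pushUp (hP.of_le hPH.le hHK) hcl
      (fun Y a1 a2 => a1.eq_or_lt.imp Eq.symm fun e => le_antisymm a2 (hmin ⟨e, a2.trans hH⟩ a2))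
      (fun e => hPH.not_ge ((le_inf hHK e).trans hNP))
      ((inf_le_inf hHK (cent_le_norm _)).trans (hN _ (omegaOne_ne_bot Nat.prime_two
        (prime_dvd_card_of_isPGroup Nat.prime_two (hP.pgrp.to_le inf_le_left) hZ1))
        ((omegaOne_le _ _).trans inf_le_left) (le_normalizer.trans hn) (hAP.trans hn)))
      (h1.trans (le_pCoreOf ⟨h2.trans hPH.le, hH.trans inf_le_right⟩ (hP.pgrp.to_le h2)))
    have a1 : 𝐙(P) ≤ ⨅ a ∈ A, D ^ᵍ a := le_iInf₂ fun a ha => (hg.conj (hAP ha)).zle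
    have a2 : ⨅ a ∈ A, D ^ᵍ a ≤ D := (iInf₂_le 1 (one_mem A)).trans (conj_one D).le
    have a3 : W ≤ ⨅ a ∈ A, D ^ᵍ a := le_iInf₂ fun a ha =>
      hg.le_conj (hAP ha) (ho.of_dvd_nat (orderOf_dvd_card_of_mem ha))
    refine hRP ((le_inf (hR.trans hHK) (comm_le_left_iff.1
      (((commutator_mono a2 le_rfl).trans hDR).trans a3))).trans (hN _
        (fun e => hZ1 (le_bot_iff.1 (e ▸ a1))) (a2.trans hg.le)
        (le_norm_of_der_le (hPP.trans a1) (a2.trans hg.le)) fun b hb => ?_))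
    refine mem_norm_of_conj_le (le_iInf₂ fun a ha => ?_)
    rw [conj_le_iff, conj_conj]
    exact iInf₂_le _ (mul_mem (inv_mem hb) ha)
  have claim2 : ∀ T : Subgroup X, IsPGroup 2 T → T ≤ K → 𝐙(P) ≤ T → T ≤ P := by
    intro T h1 h2 h3
    by_contra h4
    have h5 := lt_inf_norm_of_isNilpotent (isNilpotent_of_isPGroup Nat.prime_two h1)
      (lt_of_le_not_ge (inf_le_right : P ⊓ T ≤ T) fun e => h4 (e.trans inf_le_left))
    exact h5.not_ge (le_inf ((inf_le_inf_right _ h2).trans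
      (claim1 _ (le_inf inf_le_left h3) inf_le_left)) inf_le_left)
  have fus : ∀ x ∈ P, ∀ g ∈ K, g * x * g⁻¹ ∈ P → ∃ u ∈ P, g * x * g⁻¹ = u * x * u⁻¹ := by
    intro x hx g hg hy
    have hZ : IsPGroup 2 ↥𝐙(P) := hP.pgrp.to_le inf_le_left
    obtain ⟨S, hS, hZS⟩ := exists_isSyl_ge (M := K ⊓ 𝐂[g * x * g⁻¹]) Nat.prime_two hZ
      (inf_le_inf hP.le (cent_le_cent1 hy))
    obtain ⟨c, hc, hcS⟩ := hS.exists_conj_le Nat.prime_two (Q := 𝐙(P) ^ᵍ g) (hZ.map _) (by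
      rw [cent1_conj]
      exact le_inf (conj_le_of_mem (inf_le_left.trans hP.le) hg)
        (conj_mono (inf_le_right.trans (cent_le_cent1 hx)) g))
    rw [conj_conj] at hcS
    have h1 : c * g ∈ K := mul_mem hc.1 hg
    have h2 := claim2 (P ^ᵍ (c * g)⁻¹) (hP.pgrp.map _) (conj_le_of_mem hP.le (inv_mem h1))
      (conj_le_iff.1 (hcS.trans (claim2 S hS.pgrp (hS.le.trans inf_le_left) hZS)))
    refine ⟨c * g, hNP ⟨h1, (Subgroup.inv_mem_iff _).1 (mem_norm_of_conj_le h2)⟩, ?_⟩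
    rw [← mem_cent1_iff_conj.1 hc.2]
    group
  obtain ⟨S, hS⟩ := hP.exists_sylow Nat.prime_two
  refine (hasNPC_iff Nat.prime_two).2 (H8.hasNPC_of_controls_fusion S fun x hx g hg => ?_)
  change x ∈ (S : Subgroup K) at hx
  change _ ∈ (S : Subgroup K) at hg
  rw [hS] at hx hg
  obtain ⟨u, hu, e⟩ := fus x hx g g.2 hg
  refine ⟨⟨u, hP.le hu⟩, ?_, Subtype.ext e⟩
  change _ ∈ (S : Subgroup K)
  rw [hS]
  exact hu

theorem isSolvable_of_invariant_max (n : ℕ) : ∀ (X : Type u) [Group X] [Finite X]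
    (A K M P : Subgroup X), 𝐨(K) = n → A ≤ 𝐍(K) → 𝐨(A).Coprime 𝐨(K) → Group.IsSolvable A →
    M < K → A ≤ 𝐍(M) → (∀ H, M ≤ H → H ≤ K → A ≤ 𝐍(H) → H = M ∨ H = K) → Group.IsNilpotent M →
    IsSyl 2 P M → ⁅P, P⁆ ≤ 𝐂(P) → (Odd 𝐨(A) ∨ P = ⊥) → Group.IsSolvable K := by
  induction n using Nat.strong_induction_on with
  | _ n ih =>
  intro X _ _ A K M P hn hA hc hs hMK hAM hmax hnil hP hcl ho
  by_cases hN : ∃ N : Subgroup X, N ≠ ⊥ ∧ N ≤ M ∧ K ≤ 𝐍(N) ∧ A ≤ 𝐍(N)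
  · obtain ⟨N, h1, h2, h3, h4⟩ := hN
    have := H1.normal_subgroupOf_of_le (sup_le h3 h4)
    have hM := hMK.le.trans (le_sup_left (b := A))
    have hNK := h2.trans hMK.le
    refine H8.isSolvable_of_bar' (Y := K ⊔ A) le_sup_left
      (isSolvable_of_isNilpotent (isNilpotent_of_le h2 hnil))
      (ih _ (hn ▸ card_bar_lt le_sup_left (by rwa [inf_eq_left.2 hNK])) _ (H1.bar (K ⊔ A) N A) _
        (H1.bar (K ⊔ A) N M) (H1.bar (K ⊔ A) N P) rfl (H1.bar_le_normalizer hA)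
        (H1.coprime_bar hc) (H1.isSolvable_bar hs) (lt_of_le_of_ne (H1.bar_mono hMK.le)
          fun e => hMK.ne ((H1.bar_inj h2 hM hNK le_sup_left).1 e)) (H1.bar_le_normalizer hAM)
        (fun H a1 a2 a3 => (hmax _ ((H1.bar_le_iff hM).1 a1) (unbar_le_of_le_bar hNK le_sup_left a2)
          (H1.le_normalizer_unbar le_sup_right a3)).imp
            (fun e => (H1.bar_unbar H).symm.trans (congrArg _ e))
            fun e => (H1.bar_unbar H).symm.trans (congrArg _ e))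
        (H1.isNilpotent_bar hM hnil) (hP.bar Nat.prime_two hM) ?_
        (ho.imp odd_card_bar fun e => (H1.bar_eq_bot_iff (hP.le.trans hM)).2 (e.le.trans bot_le)))
    have hPY := hP.le.trans hM
    rw [← H1.bar_commutator hPY hPY, H1.bar_le_centralizer_iff ((der_le P).trans hPY) hPY,
      comm_eq_bot_iff.2 hcl]
    exact bot_le
  have hnorm : ∀ N, N ≠ ⊥ → N ≤ M → M ≤ 𝐍(N) → A ≤ 𝐍(N) → K ⊓ 𝐍(N) = M := fun N h1 h2 h3 h4 =>
    (hmax _ (le_inf hMK.le h3) inf_le_left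
      (H1.le_normalizer_inf hA (H1.le_normalizer_normalizer h4))).resolve_right
      fun e => hN ⟨N, h1, h2, e.ge.trans inf_le_right, h4⟩
  by_cases hM : M = ⊥
  · subst hM
    obtain ⟨q, hq, hd⟩ := exists_prime_dvd_card hMK.ne'
    obtain ⟨Q, hQ, -, hAQ⟩ := exists_invariant_isSyl hq hA hc (Or.inl hs) IsPGroup.of_bot bot_le hAM
    obtain rfl := (hmax Q bot_le hQ.le hAQ).resolve_left (hQ.ne_bot hq hd)
    exact isSolvable_of_isNilpotent (isNilpotent_of_isPGroup hq hQ.pgrp)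
  have hsyl : ∀ p : ℕ, p.Prime → ∀ S, IsSyl p S M → S ≠ ⊥ → 𝐍(M) ≤ 𝐍(S) ∧ IsSyl p S K :=
    fun p hp S hS h1 => by
      have h2 := hS.norm_le_of_isNilpotent hp hnil
      exact ⟨h2, IsSyl.of_norm hp (by rwa [hnorm S h1 hS.le (le_normalizer.trans h2) (hAM.trans h2)])⟩
  obtain ⟨p, hp, S, hS, hS1, hK, ho'⟩ : ∃ p : ℕ, p.Prime ∧ ∃ S, IsSyl p S M ∧ S ≠ ⊥ ∧ HasNPC p K ∧
      (p = 2 ∨ p ≠ 2 ∧ (Odd 𝐨(A) ∨ P = ⊥)) := by
    by_cases h2 : IsPGroup 2 M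
    · obtain rfl := hP.eq_of_le Nat.prime_two hP.le le_rfl h2
      exact ⟨2, Nat.prime_two, M, hP, hM, hasNPC_two_of_invariant hAM (ho.resolve_right hM)
        (hsyl 2 Nat.prime_two M hP hM).2 hcl hM fun N a1 a2 a3 a4 => (hnorm N a1 a2 a3 a4).le,
        Or.inl rfl⟩
    rw [← isPi_singleton_iff Nat.prime_two] at h2
    simp only [IsPiSubgroup, not_forall] at h2
    obtain ⟨p, hp, hd, hp2⟩ := h2
    have := Fact.mk hp
    obtain ⟨S, hS⟩ := exists_isSyl hp M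
    have h1 := hS.ne_bot hp hd
    obtain ⟨h3, h4⟩ := hsyl p hp S hS h1
    refine ⟨p, hp, S, hS, h1, (hasNPC_iff hp).2 (hasNPC_subgroup_of_forall_char hp2 h4.le h4.pgrp
      h4.ndvd fun Z a1 a2 a3 => ?_), Or.inr ⟨hp2, ho⟩⟩
    rw [hnorm Z a2 (a1.trans hS.le) (le_normalizer.trans (h3.trans a3)) (hAM.trans (h3.trans a3))]
    exact (hasNPC_iff hp).1 (hasNPC_of_isNilpotent hp hnil)
  obtain ⟨hNS, hSK⟩ := hsyl p hp S hS hS1
  have hsd := hK.sdProd hp hSK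
  have hAL := hA.trans (H2.normalizer_le_normalizer_pPrimeCoreOf p K)
  have hLp := not_dvd_card_pPrimeCoreOf hp K
  generalize H2.pPrimeCoreOf p K = L at hsd hAL hLp
  have hAS := hAM.trans hNS
  have hSs := isSolvable_of_isNilpotent (isNilpotent_of_isPGroup hp hS.pgrp)
  have hcard : 𝐨(A ⊔ S) ∣ 𝐨(S) * 𝐨(A) := by
    rw [sup_comm]
    exact Dvd.intro _ (card_sup_mul_card_inf hAS)
  obtain ⟨k, hk⟩ := exists_card_eq_pow hp hS.pgrp
  have hML : L ⊓ M ⊔ S = M := by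
    rw [← sup_inf_of_le_right hsd.norm hS.le, hsd.sup, inf_eq_right.2 hMK.le]
  have hL := ih 𝐨(L) (by
      rw [← hn, hsd.card]
      exact lt_mul_of_one_lt_right Nat.card_pos ((one_lt_card_iff_ne_bot S).2 hS1))
    X (A ⊔ S) L (L ⊓ M) (P ⊓ (L ⊓ M)) rfl (sup_le hAL hsd.norm)
    (Nat.Coprime.coprime_dvd_left hcard (Nat.Coprime.mul_left
      (hk ▸ Nat.Coprime.pow_left k ((Nat.Prime.coprime_iff_not_dvd hp).2 hLp))
      (H1.coprime_of_le hc le_rfl hsd.le_left)))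
    (H2.isSolvable_sup_of_le_normalizer hAS hs hSs)
    (lt_of_le_of_ne inf_le_left fun e => hMK.not_ge
      (hsd.sup ▸ sup_le (e.ge.trans inf_le_right) hS.le))
    (H1.le_normalizer_inf (sup_le hAL hsd.norm) (sup_le hAM (hS.le.trans le_normalizer)))
    (fun H a1 a2 a3 => by
      have e : (H ⊔ S) ⊓ L = H := by
        rw [sup_inf_of_le_left (le_sup_right.trans a3) a2, inf_comm, hsd.disj, sup_bot_eq]
      refine (hmax (H ⊔ S) (hML ▸ sup_le_sup_right a1 S) (hsd.sup ▸ sup_le_sup_right a2 S)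
        (H1.le_normalizer_sup (le_sup_left.trans a3) hAS)).imp (fun e' => ?_) fun e' => ?_
      · rw [← e, e', inf_comm]
      · rw [← e, e', inf_eq_right.2 hsd.le_left])
    (isNilpotent_of_le inf_le_right hnil)
    (hP.inf_normal Nat.prime_two (inf_normal hsd.normal hMK.le))
    ((commutator_mono inf_le_left inf_le_left).trans (hcl.trans (cent_anti inf_le_left))) (by
      rcases ho' with rfl | ⟨hp2, ho' | rfl⟩
      · exact Or.inr (by_contra fun e => hLp ((prime_dvd_card_of_isPGroup hp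
          (hP.pgrp.to_le inf_le_left) e).trans (FT.card_dvd_of_le (inf_le_right.trans inf_le_left))))
      · exact Or.inl (Odd.of_dvd_nat (Odd.mul (hk ▸ (hp.odd_of_ne_two hp2).pow) ho') hcard)
      · exact Or.inr (bot_inf_eq _))
  rw [← hsd.sup, sup_comm]
  exact H2.isSolvable_sup_of_le_normalizer hsd.norm hSs hL

/-- **Beltran-Shao**, for an acting group that is solvable of odd order. -/
theorem isSolvable_of_invariant_coatom {G A : Type*} [Group G] [Finite G] [Group A] [Finite A]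
    (φ : A →* MulAut G) (hcop : (Nat.card A).Coprime (Nat.card G)) (hs : Group.IsSolvable A)
    (ho : Odd (Nat.card A)) (M : Subgroup G) (hMtop : M ≠ ⊤)
    (hMinv : ∀ a : A, ∀ m : G, m ∈ M → φ a m ∈ M)
    (hMmax : ∀ H : Subgroup G, M ≤ H → H ≠ ⊤ → (∀ a : A, ∀ h : G, h ∈ H → φ a h ∈ H) → H = M)
    (hnil : Group.IsNilpotent M) {P : Subgroup G} (hP : IsSyl 2 P M) (hcl : ⁅P, P⁆ ≤ 𝐂(P)) :
    Group.IsSolvable G := by
  have hi := SemidirectProduct.inl_injective (φ := φ)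
  have := (isSolvable_map_iff hi).1 (isSolvable_of_invariant_max _ _ (H1.sdR φ ⊤) (H1.sdL φ ⊤)
    (H1.sdL φ M) (H1.sdL φ P) rfl (H1.sdR_le_normalizer_top ⊤) (H1.coprime_sd hcop)
    (H1.isSolvable_sdR_top hs) (lt_of_le_of_ne (map_mono le_top) (H1.sdL_inj.not.2 hMtop))
    (H1.sdR_top_le_normalizer_iff.2 hMinv) (fun H h1 h2 h3 => by
      obtain ⟨H, rfl⟩ := H1.exists_eq_sdL h2
      rw [H1.sdL_inj, H1.sdL_inj, or_iff_not_imp_right]
      exact fun e => hMmax H (H1.sdL_le_sdL.1 h1) e (H1.sdR_top_le_normalizer_iff.1 h3))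
    ((isNilpotent_map_iff hi).2 hnil) ((isSyl_map_iff hi).2 hP)
    (by rw [← map_commutator]; exact (map_le_cent_iff hi).2 hcl)
    (Or.inl (by rwa [H1.card_sdR_top])))
  exact L.isSolvable_of_mulEquiv topEquiv

end Cfsg.Agent.H5
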