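import Cfsg.Agent.H5.Part2
import Cfsg.Agent.H6.TwoSizes
import Cfsg.Agent.H8.CentAux

/-! Camina-type lemmas for groups with three class sizes. -/

set_option autoImplicit false

namespace Cfsg.Agent.H5

open Cfsg Subgroup Cfsg.Agent.L Cfsg.Agent.FT

universe u

variable {G : Type u} [Group G] [Finite G] {p r s : ℕ}

/-- `g` is a `p`-element. -/
def PE (p : ℕ) (g : G) : Prop := ∃ i : ℕ, orderOf g = p ^ i

omit [Finite G] in
theorem PE.isPGroup {g : G} (h : PE p g) : IsPGroup p (zpowers g) :=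
  h.elim fun _ => H8.isPGroup_zpowers_of_orderOf

omit [Finite G] in
theorem pe_of_mem (hp : p.Prime) {P : Subgroup G} (hP : IsPGroup p P) {g : G} (hg : g ∈ P) :
    PE p g := have := Fact.mk hp; H8.exists_orderOf_eq_pow_of_mem hP hg

omit [Finite G] in
theorem PE.coprime (hr : r.Prime) (hs : s.Prime) (hrs : r ≠ s) {a b : G} (ha : PE r a)
    (hb : PE s b) : (orderOf a).Coprime (orderOf b) := by
  obtain ⟨i, hi⟩ := ha
  obtain ⟨j, hj⟩ := hb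
  rw [hi, hj]
  exact Nat.Coprime.pow _ _ ((Nat.coprime_primes hr hs).2 hrs)

omit [Finite G] in
theorem PE.coprime' {a b : G} (ha : PE r a) (hb : (orderOf b).Coprime r) :
    (orderOf a).Coprime (orderOf b) := by
  obtain ⟨i, hi⟩ := ha
  rw [hi]; exact (hb.pow_right i).symm

omit [Finite G] in
theorem PE.coprime_prime (hr : r.Prime) (hs : s.Prime) (hrs : r ≠ s) {a : G} (ha : PE r a) :
    (orderOf a).Coprime s := by
  obtain ⟨i, hi⟩ := ha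
  rw [hi]; exact Nat.Coprime.pow_left _ ((Nat.coprime_primes hr hs).2 hrs)

omit [Finite G] in
theorem PE.conj {a : G} (ha : PE r a) (g : G) : PE r (g * a * g⁻¹) :=
  ha.imp fun _ h => ((MulAut.conj g).orderOf_eq a).trans h

theorem PE.mem_of_isSyl (hp : p.Prime) {S D : Subgroup G} (hS : IsSyl p S D) {g : G} (h : PE p g)
    (hg : g ∈ D) (hn : g ∈ 𝐍(S)) : g ∈ S :=
  hS.le_of_norm hp h.isPGroup (zpowers_le_of_mem hg) (zpowers_le_of_mem hn) (mem_zpowers g)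

omit [Finite G] in
theorem mem_center_iff_top_le {g : G} : g ∈ center G ↔ ⊤ ≤ 𝐂[g] :=
  mem_center_iff.trans ⟨fun h x _ => mem_cent1.2 (h x).symm, fun h x => (mem_cent1.1 (h trivial)).symm⟩

theorem exists_pe_norm (hr : r.Prime) {D : Subgroup G}
    (h : ∀ a ∈ D, PE r a → a ∉ center G → 𝐂[a] = D) {x : G} (hx : x ∈ D) (hxr : PE r x)
    (hxc : x ∉ center G) (hd : r ∣ D.index) : ∃ u ∈ 𝐍(D), PE r u ∧ u ∉ D := by
  have := Fact.mk hr
  obtain ⟨S, hS, hxS⟩ := exists_isSyl_ge hr hxr.isPGroup (zpowers_le_of_mem hx)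
  obtain ⟨u, k, h1, h2, h3⟩ := H6.exists_primePow_mem_normalizer hS.le hS.pgrp hS.ndvd hd
  refine ⟨u, ?_, ⟨k, h1⟩, h3⟩
  rw [← conj_eq_self_iff, ← h x hx hxr hxc, ← cent1_conj, h x hx hxr hxc]
  exact h _ (hS.le ((mem_normalizer_iff.1 h2 x).1 (hxS (mem_zpowers x)))) (hxr.conj u)
    (H6.conj_not_mem_center hxc u)

theorem camina_abs (hr : r.Prime) (hs : s.Prime) (hrs : r ≠ s) {D : Subgroup G}
    (h : ∀ a ∈ D, PE r a ∨ PE s a → a ∉ center G → 𝐂[a] = D) {x y : G} (hx : x ∈ D) (hxr : PE r x)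
    (hxc : x ∉ center G) (hy : y ∈ D) (hys : PE s y) (hyc : y ∉ center G) (hrd : r ∣ D.index)
    (hsd : s ∣ D.index) : False := by
  have := Fact.mk hr
  have := Fact.mk hs
  obtain ⟨u, hu, ⟨k, hk⟩, huD⟩ := exists_pe_norm hr (fun a ha h1 => h a ha (Or.inl h1)) hx hxr hxc hrd
  obtain ⟨v, hv, ⟨l, hl⟩, hvD⟩ := exists_pe_norm hs (fun a ha h1 => h a ha (Or.inr h1)) hy hys hyc hsd
  have hle : piCoreOf {r, s} 𝐙(D) ≤ 𝐙(D) := (piCoreOf_normal _ _).1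
  have hmem : ∀ (t : ℕ) (a : G), t.Prime → t ∈ ({r, s} : Set ℕ) → a ∈ D → PE t a → 𝐂[a] = D →
      a ∈ piCoreOf {r, s} 𝐙(D) := fun t a ht h1 h2 h3 h4 =>
    le_piCoreOf_of_isNilpotent (isNilpotent_of_isMulComm (isMulComm_center D))
      (zpowers_le_of_mem (mem_inf.2 ⟨h2, mem_cent_iff_cent1.2 h4.ge⟩))
      (isPi_of_isPGroup ht h3.isPGroup h1) (mem_zpowers a)
  obtain ⟨i, hi⟩ := hxr
  obtain ⟨j, hj⟩ := hys
  refine H6.camina_false' hrs (A := piCoreOf {r, s} 𝐙(D)) (hle.trans inf_le_left)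
    ((norm_le_norm_center D).trans (norm_le_norm_piCoreOf _ _)) (fun a ha hac => ?_) hi hj
    (hmem r x hr (Or.inl rfl) hx ⟨i, hi⟩ (h x hx (Or.inl ⟨i, hi⟩) hxc))
    (hmem s y hs (Or.inr rfl) hy ⟨j, hj⟩ (h y hy (Or.inr ⟨j, hj⟩) hyc)) hxc hyc hk hl hu hv huD hvD
  refine le_antisymm ?_ (mem_cent_iff_cent1.1 (hle ha).2)
  obtain ⟨b, c, hb, hc, e, -, hbr, hcr⟩ := H8.exists_pPart_pPrimePart hr a
  have hb' := zpowers_le_of_mem ha hb
  have hc' := zpowers_le_of_mem ha hc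
  by_cases h1 : b ∈ center G
  · rw [← h c (hle hc').1 (Or.inr ?_) fun h2 => hac (e ▸ mul_mem h1 h2)]
    · exact cent1_le_cent1_of_mem_zpowers hc
    refine pe_of_mem hs ((isPiElt_singleton_iff hs).1 fun q hq hd => ?_) (mem_zpowers c)
    exact (isPiElt_of_mem (isPi_piCoreOf _ _) hc' q hq hd).resolve_left fun e =>
      hq.ne_one (Nat.eq_one_of_dvd_coprimes hcr hd (e ▸ dvd_rfl))
  · rw [← h b (hle hb').1 (Or.inl hbr) h1]
    exact cent1_le_cent1_of_mem_zpowers hb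

omit [Finite G] in
theorem mem_center_coe {E : Subgroup G} {a : E} : a ∈ center E ↔ E ≤ 𝐂[(a : G)] :=
  mem_center_iff.trans ⟨fun h x hx => mem_cent1.2 (congrArg Subtype.val (h ⟨x, hx⟩)).symm,
    fun h x => Subtype.ext (mem_cent1.1 (h x.2)).symm⟩

theorem camina_rel (hr : r.Prime) (hs : s.Prime) (hrs : r ≠ s) {E D : Subgroup G} (hDE : D ≤ E)
    (h : ∀ a ∈ D, PE r a ∨ PE s a → ¬ E ≤ 𝐂[a] → E ⊓ 𝐂[a] = D) {x y : G} (hx : x ∈ D)
    (hxr : PE r x) (hxc : ¬ E ≤ 𝐂[x]) (hy : y ∈ D) (hys : PE s y) (hyc : ¬ E ≤ 𝐂[y])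
    (hrd : r ∣ D.relIndex E) (hsd : s ∣ D.relIndex E) : False := by
  refine camina_abs hr hs hrs (D := D.subgroupOf E) (fun a ha h1 h2 => ?_) (x := ⟨x, hDE hx⟩)
    (y := ⟨y, hDE hy⟩) hx (by simpa only [PE, orderOf_mk] using hxr) (mt mem_center_coe.1 hxc) hy
    (by simpa only [PE, orderOf_mk] using hys) (mt mem_center_coe.1 hyc) hrd hsd
  rw [H9.centralizer_coe_subgroupOf, ← h a ha (by simpa only [PE, orderOf_coe] using h1)
    (mt mem_center_coe.2 h2), inf_subgroupOf_left]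

theorem camina_K (hr : r.Prime) {D V : Subgroup G} (hV : IsPGroup r V) (hVD : V ≤ D)
    (hn : 𝐍(D) ≤ 𝐍(V)) (hDV : D ≤ 𝐂(V)) (hA : ∀ a ∈ V, a ∉ center G → 𝐂[a] = D) {x v : G}
    (hx : x ∈ V) (hxc : x ∉ center G) (hv : v ∈ 𝐍(D)) (hvD : v ∉ D) (hc : (orderOf v).Coprime r) :
    ∃ K : Subgroup G, D ≤ K ∧ v ∉ K ∧ ∀ u ∈ 𝐍(D), PE r u → u ∈ K := by
  have := Fact.mk hr
  have hDY : D ≤ 𝐍(D) := le_normalizer
  have := H1.normal_subgroupOf_of_le hn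
  obtain ⟨K, -, h1, h2, h3⟩ := H6.camina_exists_normal (V := V.subgroupOf 𝐍(D))
    (D := D.subgroupOf 𝐍(D)) hV.comap_subtype
    ⟨⟨fun a b => Subtype.ext (Subtype.ext (hDV (hVD b.2) _ a.2))⟩⟩
    (fun h => hvD (hA x hx hxc ▸ mem_center_coe.1 (h (show (⟨x, hDY (hVD hx)⟩ : 𝐍(D)) ∈ _ from hx)) hv))
    (fun d hd a ha => Subtype.ext (hDV hd _ ha)) (fun g hg a ha => by
      by_cases h : (a : G) ∈ center G
      · exact mem_center_coe.2 (le_top.trans (mem_center_iff_top_le.1 h))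
      · exact absurd ((hA a ha.1 h).le (mem_cent1.2
          (congrArg Subtype.val (mem_cent1.1 ha.2)).symm)) hg)
    (v := ⟨v, hv⟩) (by rwa [orderOf_mk]) hvD
  refine ⟨K.map (Subgroup.subtype _), fun d hd => ⟨⟨d, hDY hd⟩, h1 hd, rfl⟩, ?_, fun u hu ⟨k, hk⟩ =>
    ⟨⟨u, hu⟩, h3 _ k (by rwa [orderOf_mk]), rfl⟩⟩
  rintro ⟨w, hw, rfl⟩
  exact h2 hw

theorem exists_pe_notMem (hp : p.Prime) {X Y Z : Subgroup G} {j : ℕ} (hj : ¬ p ∣ j)
    (hXY : 𝐨(Y) ∣ 𝐨(X) * j) (hZ : Z ≤ Y) {x : G} (hx : x ∈ Y) (hxp : PE p x) (hxc : Z ≤ 𝐂[x])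
    (hxZ : x ∉ Z) : ∃ w ∈ X, PE p w ∧ w ∉ Z := by
  by_contra! h
  obtain ⟨S, hS⟩ := exists_isSyl hp X
  have hSZ : S ≤ Z := fun w hw => h w (hS.le hw) (pe_of_mem hp hS.pgrp hw)
  have h1 : IsSyl p S Y := ⟨hSZ.trans hZ, hS.pgrp, fun h1 => by
    rw [← H1.card_mul_relIndex hS.le, ← H1.card_mul_relIndex (hSZ.trans hZ), mul_assoc,
      Nat.mul_dvd_mul_iff_left Nat.card_pos] at hXY
    exact (hp.dvd_mul.1 (h1.trans hXY)).elim hS.ndvd hj⟩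
  exact hxZ (hSZ (hxp.mem_of_isSyl hp h1 hx
    (cent_le_norm S (mem_cent_iff_cent1.2 (hSZ.trans hxc)))))

theorem exists_pe_not_le (hp : p.Prime) {D E : Subgroup G} (hZ : 𝐙(E) ≤ D)
    (hd : p ∣ D.relIndex E) : ∃ a ∈ E, PE p a ∧ ¬ E ≤ 𝐂[a] := by
  by_contra! h
  obtain ⟨S, hS⟩ := exists_isSyl hp E
  exact hS.ndvd (hd.trans (relIndex_dvd_of_le_left E fun w hw => hZ (mem_inf.2 ⟨hS.le hw,
    mem_cent_iff_cent1.2 (h w (hS.le hw) (pe_of_mem hp hS.pgrp hw))⟩)))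

theorem exists_second_center_rel (hp : p.Prime) {L E : Subgroup G} (hL : IsPGroup p L) (hLE : L ≤ E)
    (h : ¬ E ≤ 𝐂(L)) : ∃ w ∈ L, ¬ E ≤ 𝐂[w] ∧ L ≤ 𝐍((E ⊓ 𝐂[w] : Subgroup G)) := by
  have := Fact.mk hp
  obtain ⟨w, hw, h1, -, h2⟩ := H8.exists_second_center (P := L.subgroupOf E) (V := L.subgroupOf E)
    hL.comap_subtype le_rfl le_normalizer fun h1 => h (cent_comm.1 fun a ha =>
      mem_cent_iff_cent1.2 (mem_center_coe.1 (h1 (show (⟨a, hLE ha⟩ : E) ∈ _ from ha))))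
  refine ⟨w, hw, mt mem_center_coe.2 h1, fun g hg => ?_⟩
  have h3 := mem_center_coe.1 (h2 ⟨g, hLE hg⟩ hg)
  rw [← conj_eq_self_iff, conj_inf, conj_eq_of_mem (hLE hg), ← cent1_conj]
  ext a
  rw [mem_inf, mem_inf]
  refine and_congr_right fun ha => ?_
  have h4 : g * w * g⁻¹ * (w : G)⁻¹ ∈ 𝐂[a] := mem_cent1_comm.1 (h3 ha)
  rw [mem_cent1_comm, mem_cent1_comm (x := (w : G)), ← mul_mem_cancel_left (y := (w : G)) h4,
    inv_mul_cancel_right]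

end Cfsg.Agent.H5
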