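import Cfsg.Agent.H5.Ito1
import Cfsg.Agent.H6.Burnside

/-! Groups with class sizes `1, m, k m` in which some centralizer is not minimal. -/

set_option autoImplicit false

namespace Cfsg.Agent.H5

open Cfsg Subgroup Cfsg.Agent.L Cfsg.Agent.FT

universe u

/-- Noncentral classes have size `m` or `k m`. -/
structure CS (G : Type u) [Group G] (m k : ℕ) : Prop where
  one_lt : 1 < k
  idx : ∀ g : G, g ∉ center G → (𝐂[g] : Subgroup G).index = m ∨ (𝐂[g] : Subgroup G).index = k * m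

variable {G : Type u} [Group G] [Finite G] {p q r s m k : ℕ}

/-- The centralizer of `a` is minimal among centralizers of noncentral elements. -/
def MinC (a : G) : Prop := ∀ b : G, b ∉ center G → 𝐂[b] ≤ 𝐂[a] → 𝐂[b] = 𝐂[a]

theorem card_eq_of_index_eq {H K : Subgroup G} (h : H.index = K.index) : 𝐨(H) = 𝐨(K) :=
  Nat.eq_of_mul_eq_mul_right (Nat.pos_of_ne_zero (index_ne_zero_of_finite (H := K)))
    (by rw [K.card_mul_index, ← h, H.card_mul_index])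

omit [Finite G] in
theorem mul_notMem_center {a b : G} (ha : a ∉ center G) (hc : Commute a b)
    (h : (orderOf a).Coprime (orderOf b)) : a * b ∉ center G := fun h1 =>
  ha (zpowers_le_of_mem h1 (H9.mem_zpowers_mul_of_coprime hc h))

omit [Finite G] in
theorem MinC.le {a b : G} (h : MinC a) (ha : a ∉ center G) (hb : b ∈ 𝐂[a])
    (hc : (orderOf a).Coprime (orderOf b)) : 𝐂[a] ≤ 𝐂[b] := by
  have h1 := H9.centralizer_mul_of_coprime (mem_cent1.1 hb) hc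
  rw [← h _ (mul_notMem_center ha (mem_cent1.1 hb) hc) (h1 ▸ inf_le_left), h1]
  exact inf_le_right

omit [Finite G] in
theorem center_le_inf {E : Subgroup G} {a : G} (ha : a ∈ E) : 𝐙(E) ≤ E ⊓ 𝐂[a] :=
  inf_le_inf_left E (cent_le_cent1 ha)

omit [Finite G] in
theorem notMem_center_of_not_le {E : Subgroup G} {a : G} (h : ¬ E ≤ 𝐂[a]) : a ∉ center G :=
  fun h1 => h (le_top.trans (mem_center_iff_top_le.1 h1))

namespace CS

theorem eq_m (h : CS G m k) {a b : G} (ha : (𝐂[a] : Subgroup G).index = m) (hb : b ∉ center G)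
    (hle : 𝐂[a] ≤ 𝐂[b]) : 𝐂[a] = 𝐂[b] := by
  refine H6.eq_of_le_of_index_le hle ?_
  have := h.one_lt
  rcases h.idx b hb with e | e <;> rw [ha, e]
  nlinarith

theorem minC (h : CS G m k) {a : G} (ha : (𝐂[a] : Subgroup G).index = k * m) : MinC a := by
  intro b hb hle
  refine H6.eq_of_le_of_index_le hle ?_
  have := h.one_lt
  rcases h.idx b hb with e | e <;> rw [ha, e]
  nlinarith

theorem of_not_minC (h : CS G m k) {a : G} (ha : a ∉ center G) (hm : ¬ MinC a) :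
    (𝐂[a] : Subgroup G).index = m ∧ ∃ D : Subgroup G, D ≤ 𝐂[a] ∧ 𝐙(𝐂[a]) ≤ D ∧ D.index = k * m := by
  refine ⟨(h.idx a ha).resolve_right fun e => hm (h.minC e), ?_⟩
  simp only [MinC, not_forall] at hm
  obtain ⟨b, hb, hle, hne⟩ := hm
  exact ⟨_, hle, inf_le_right.trans (cent_le_cent1 (hle (self_mem_cent1 b))),
    (h.idx b hb).resolve_left fun e => hne (h.eq_m e ha hle)⟩

theorem relIndex_eq {D E : Subgroup G} (hle : D ≤ E) (hD : D.index = k * m) (hE : E.index = m) :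
    D.relIndex E = k := by
  have h1 := relIndex_mul_index hle
  rw [hD, hE] at h1
  exact Nat.eq_of_mul_eq_mul_right (hE ▸ Nat.pos_of_ne_zero index_ne_zero_of_finite) h1

theorem rel (h : CS G m k) {y g : G} (hy : y ∉ center G) (hym : (𝐂[y] : Subgroup G).index = m)
    (hg : g ∈ 𝐂[y]) (hc : (orderOf y).Coprime (orderOf g)) (hn : ¬ 𝐂[y] ≤ 𝐂[g]) :
    𝐂[y * g] = 𝐂[y] ⊓ 𝐂[g] ∧ y * g ∉ center G ∧ (𝐂[y] ⊓ 𝐂[g] : Subgroup G).index = k * m := by
  have h1 := H9.centralizer_mul_of_coprime (mem_cent1.1 hg) hc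
  have h2 := mul_notMem_center hy (mem_cent1.1 hg) hc
  refine ⟨h1, h2, h1 ▸ (h.idx _ h2).resolve_left fun e => hn ?_⟩
  rw [← h.eq_m e hy (h1 ▸ inf_le_left), h1]
  exact inf_le_right

/-- Inside a large centralizer `C(y)`, the centralizer of `g` is minimal. -/
theorem rel_le (h : CS G m k) {y g a : G} (hy : y ∉ center G) (hym : (𝐂[y] : Subgroup G).index = m)
    (hg : g ∈ 𝐂[y]) (hc : (orderOf y).Coprime (orderOf g)) (hn : ¬ 𝐂[y] ≤ 𝐂[g])
    (ha : a ∈ 𝐂[y] ⊓ 𝐂[g]) (h1 : (orderOf y).Coprime (orderOf a))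
    (h2 : (orderOf g).Coprime (orderOf a)) : 𝐂[y] ⊓ 𝐂[g] ≤ 𝐂[a] := by
  obtain ⟨e1, e2, e3⟩ := h.rel hy hym hg hc hn
  rw [← e1] at e3 ha ⊢
  refine (h.minC e3).le e2 ha ?_
  rw [(show Commute y g from mem_cent1.1 hg).orderOf_mul_eq_mul_orderOf_of_coprime hc]
  exact Nat.Coprime.mul_left h1 h2

theorem rel_eq (h : CS G m k) {y g : G} (hy : y ∉ center G) (hym : (𝐂[y] : Subgroup G).index = m)
    (hc : (orderOf y).Coprime (orderOf g)) (hn : ¬ 𝐂[y] ≤ 𝐂[g]) {D : Subgroup G} (hg : g ∈ D)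
    (hD : D.index = k * m) (h1 : D ≤ 𝐂[y]) (h2 : D ≤ 𝐂[g]) : 𝐂[y] ⊓ 𝐂[g] = D :=
  (H6.eq_of_le_of_index_le (le_inf h1 h2) (by rw [hD, (h.rel hy hym (h1 hg) hc hn).2.2])).symm

theorem exists_pe (h : CS G m k) {y : G} (hy : y ∉ center G) (hym : (𝐂[y] : Subgroup G).index = m)
    {D : Subgroup G} (hle : D ≤ 𝐂[y]) (hZ : 𝐙(𝐂[y]) ≤ D) (hD : D.index = k * m) (hr : r.Prime)
    (hrk : r ∣ k) (hc : (orderOf y).Coprime r) : ∃ b ∈ D, PE r b ∧ ¬ 𝐂[y] ≤ 𝐂[b] := by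
  obtain ⟨a, ha, har, hn⟩ := exists_pe_not_le hr hZ (relIndex_eq hle hD hym ▸ hrk)
  obtain ⟨b, hb, hbr, hbZ⟩ := exists_pe_notMem hr (X := D) (Y := 𝐂[y] ⊓ 𝐂[a]) (Z := 𝐙(𝐂[y]))
    (j := 1) (mt Nat.dvd_one.1 hr.ne_one) (by
      rw [mul_one, card_eq_of_index_eq (hD.trans (h.rel hy hym ha (har.coprime' hc).symm hn).2.2.symm)])
    (center_le_inf ha) (mem_inf.2 ⟨ha, self_mem_cent1 a⟩) har ((center_le_inf ha).trans inf_le_right)
    fun h1 => hn (mem_cent_iff_cent1.1 h1.2)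
  exact ⟨b, hb, hbr, fun h1 => hbZ (mem_inf.2 ⟨hle hb, mem_cent_iff_cent1.2 h1⟩)⟩

theorem lemA (h : CS G m k) {y : G} (hy : y ∉ center G) (hm : ¬ MinC y) (hr : r.Prime)
    (hs : s.Prime) (hrs : r ≠ s) (hrk : r ∣ k) (hsk : s ∣ k) (hyr : (orderOf y).Coprime r)
    (hys : (orderOf y).Coprime s) : False := by
  obtain ⟨hym, D, hle, hZ, hD⟩ := h.of_not_minC hy hm
  obtain ⟨a, ha, har, hn⟩ := h.exists_pe hy hym hle hZ hD hr hrk hyr
  have hya := (har.coprime' hyr).symm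
  have h1 := (h.rel hy hym (hle ha) hya hn).2.2
  obtain ⟨b, hb, hbs, hn'⟩ := h.exists_pe hy hym inf_le_left (center_le_inf (hle ha)) h1 hs hsk hys
  have hyb := (hbs.coprime' hys).symm
  have h2 := h.rel_eq hy hym hyb hn' hb h1 inf_le_left
    (h.rel_le hy hym (hle ha) hya hn hb hyb (har.coprime hr hs hrs hbs))
  have h3 := relIndex_eq inf_le_left h1 hym
  refine camina_rel hr hs hrs inf_le_left (fun g hg hp hng => ?_)
    (mem_inf.2 ⟨hle ha, self_mem_cent1 a⟩) har hn hb hbs hn' (h3 ▸ hrk) (h3 ▸ hsk)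
  rcases hp with hp | hp
  · have h4 := (hp.coprime' hyr).symm
    exact h.rel_eq hy hym h4 hng hg h1 inf_le_left (h2 ▸ h.rel_le hy hym hb.1 hyb hn' (h2 ▸ hg) h4
      (hbs.coprime hs hr hrs.symm hp))
  · have h4 := (hp.coprime' hys).symm
    exact h.rel_eq hy hym h4 hng hg h1 inf_le_left (h.rel_le hy hym (hle ha) hya hn hg h4
      (har.coprime hr hs hrs hp))

theorem lemB (h : CS G m k) {y c : G} (hy : y ∉ center G) (hm : ¬ MinC y) (hq : q.Prime)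
    (hk : ∀ t : ℕ, t.Prime → t ∣ k → t = q) (hr : r.Prime) (hrq : r ≠ q)
    (hyq : (orderOf y).Coprime q) (hyr : (orderOf y).Coprime r) (hc : c ∈ 𝐂[y]) (hcr : PE r c) :
    𝐂[y] ≤ 𝐂[c] := by
  by_contra hn
  obtain ⟨hym, D, hle, hZ, hD⟩ := h.of_not_minC hy hm
  obtain ⟨t, ht, htk⟩ := Nat.exists_prime_and_dvd h.one_lt.ne'
  obtain rfl := hk t ht htk
  obtain ⟨L, hL⟩ := exists_isSyl hq 𝐂[y]
  have hnL : ∀ D' : Subgroup G, D' ≤ 𝐂[y] → D'.index = k * m → ¬ L ≤ D' := fun D' h1 h2 h3 =>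
    hL.ndvd ((relIndex_eq h1 h2 hym ▸ htk).trans (relIndex_dvd_of_le_left _ h3))
  obtain ⟨w, hw, hnw, hLN⟩ := exists_second_center_rel hq hL.pgrp hL.le fun h1 =>
    hnL D hle hD ((le_inf hL.le (cent_comm.1 h1)).trans hZ)
  have hcop : ∀ w ∈ L, (orderOf y).Coprime (orderOf w) := fun w hw =>
    ((pe_of_mem hq hL.pgrp hw).coprime' hyq).symm
  have h1 := (h.rel hy hym (hL.le hw) (hcop w hw) hnw).2.2
  have h2 := relIndex_eq inf_le_left h1 hym
  have hN : 𝐂[y] ≤ 𝐍((𝐂[y] ⊓ 𝐂[w] : Subgroup G)) := by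
    rw [← relIndex_eq_one]
    by_contra h3
    obtain ⟨t', ht', h4⟩ := Nat.exists_prime_and_dvd h3
    obtain rfl := hk t' ht' (h2 ▸ h4.trans (relIndex_dvd_of_le_left _ le_normalizer))
    exact hL.ndvd (h4.trans (relIndex_dvd_of_le_left _ hLN))
  have hrk : ¬ r ∣ k := fun h3 => hrq (hk r hr h3)
  have hyc := (hcr.coprime' hyr).symm
  have hcD : c ∈ 𝐂[y] ⊓ 𝐂[w] := by
    by_contra h3
    obtain ⟨i, hi⟩ := hcr
    have := Fact.mk hr
    exact hrk (h2 ▸ H8.dvd_relIndex_of_not_mem hr hi (hN hc) h3 inf_le_left hc)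
  have h3 := h.rel_eq hy hym hyc hn hcD h1 inf_le_left (h.rel_le hy hym (hL.le hw) (hcop w hw) hnw
    hcD hyc ((pe_of_mem hq hL.pgrp hw).coprime hq hr hrq.symm hcr))
  refine hnL _ inf_le_left h1 fun v hv => ?_
  by_cases h4 : 𝐂[y] ≤ 𝐂[v]
  · exact mem_inf.2 ⟨hL.le hv, mem_cent1_comm.1 (h4 (hL.le hw))⟩
  obtain ⟨S, hS⟩ := exists_isSyl hr (𝐂[y] ⊓ 𝐂[v] : Subgroup G)
  obtain ⟨g, hg, hgS⟩ := (hS.trans hr inf_le_left (by
    rwa [relIndex_eq inf_le_left (h.rel hy hym (hL.le hv) (hcop v hv) h4).2.2 hym])).exists_conj_le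
    hr hcr.isPGroup (zpowers_le_of_mem hc)
  rw [← conj_eq_of_mem_norm (hN hg), ← h3, conj_inf, conj_eq_of_mem hg, ← cent1_conj]
  exact mem_inf.2 ⟨hL.le hv, mem_cent1_comm.1 (hS.le (hgS (conj_mem_conj (mem_zpowers c) g))).2⟩

theorem dvd_idx (h : CS G m k) (hr : r.Prime) (hrk : ¬ r ∣ k) {c : G} (hc : c ∉ center G)
    (hcr : PE r c) {g : G} (hg : g ∉ center G) : r ∣ (𝐂[g] : Subgroup G).index := by
  have h1 : r ∣ m := by
    by_contra h1
    have := Fact.mk hr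
    obtain ⟨i, hi⟩ := hcr
    refine hc (mem_center_iff.2 fun y => H7.commute_of_not_dvd_cs_normal ⊤ (fun y _ hd => ?_)
      (mem_top c) hi y (mem_top y))
    change r ∣ (𝐂[y] : Subgroup G).index at hd
    by_cases h2 : y ∈ center G
    · rw [H9.index_centralizer_eq_one_iff.2 h2] at hd
      exact hr.ne_one (Nat.dvd_one.1 hd)
    rcases h.idx y h2 with e | e <;> rw [e] at hd
    exacts [h1 hd, (hr.dvd_mul.1 hd).elim hrk h1]
  rcases h.idx g hg with e | e <;> rw [e]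
  exacts [h1, h1.mul_left k]

theorem exists_pe_cent (h : CS G m k) (hr : r.Prime) (hrk : ¬ r ∣ k) {c : G} (hc : c ∉ center G)
    (hcr : PE r c) {g : G} (hg : g ∉ center G) : ∃ w ∈ 𝐂[g], PE r w ∧ w ∉ center G := by
  refine exists_pe_notMem hr hrk ?_ (center_le_centralizer _) (self_mem_cent1 c) hcr
    (center_le_centralizer _) hc
  have h1 := (𝐂[c] : Subgroup G).card_mul_index.trans (𝐂[g] : Subgroup G).card_mul_index.symm
  have h0 : 0 < m := Nat.pos_of_ne_zero fun e => index_ne_zero_of_finite (H := 𝐂[g])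
    (by rcases h.idx g hg with e' | e' <;> simp [e', e])
  have := h.one_lt
  rcases h.idx c hc with e | e <;> rcases h.idx g hg with e' | e' <;> rw [e, e'] at h1
  · exact Dvd.dvd.mul_right (Nat.eq_of_mul_eq_mul_right h0 h1).dvd k
  · exact (Nat.eq_of_mul_eq_mul_right h0 (h1.trans (mul_assoc _ _ _).symm)).dvd
  · exact Dvd.dvd.mul_right ⟨k, (Nat.eq_of_mul_eq_mul_right h0 ((mul_assoc _ _ _).trans h1)).symm⟩ k
  · exact Dvd.dvd.mul_right (Nat.eq_of_mul_eq_mul_right (by positivity) h1).dvd k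

theorem case_one (h : CS G m k) (hq : q.Prime) (hk : ∀ t : ℕ, t.Prime → t ∣ k → t = q)
    (hr : r.Prime) (hs : s.Prime) (hrs : r ≠ s) (hrq : r ≠ q) (hsq : s ≠ q) {a b : G}
    (ha : a ∉ center G) (har : PE r a) (hb : b ∉ center G) (hbs : PE s b) : False := by
  have key : ∀ {r s : ℕ} {a b y : G}, r.Prime → s.Prime → r ≠ s → r ≠ q → s ≠ q → a ∉ center G →
      PE r a → b ∉ center G → PE s b → y ∉ center G → PE r y → MinC y := by
    intro r s a b y hr hs hrs hrq hsq ha har hb hbs hy hyr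
    by_contra hm
    have hsk : ¬ s ∣ k := fun h1 => hsq (hk s hs h1)
    obtain ⟨c, hc, hcs, hcc⟩ := h.exists_pe_cent hs hsk hb hbs hy
    have hB := fun c hc hcs => h.lemB hy hm hq hk hs hsq (hyr.coprime_prime hr hq hrq)
      (hyr.coprime_prime hr hs hrs) (c := c) hc hcs
    have hym := (h.of_not_minC hy hm).1
    have h1 := h.eq_m hym hcc (hB c hc hcs)
    refine camina_abs hr hs hrs (D := 𝐂[y]) (fun g hg hp hgc => (h.eq_m hym hgc ?_).symm)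
      (self_mem_cent1 y) hyr hy hc hcs hcc (h.dvd_idx hr (fun h1 => hrq (hk r hr h1)) ha har hy)
      (h.dvd_idx hs hsk hb hbs hy)
    rcases hp with hp | hp
    · exact h1 ▸ h.lemB hcc (by rwa [MinC, ← h1]) hq hk hr hrq (hcs.coprime_prime hs hq hsq)
        (hcs.coprime_prime hs hr hrs.symm) (h1 ▸ hg) hp
    · exact hB g hg hp
  have hsk : ¬ s ∣ k := fun h1 => hsq (hk s hs h1)
  have k1 := fun y => key (y := y) hr hs hrs hrq hsq ha har hb hbs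
  have k2 := fun y => key (y := y) hs hr hrs.symm hsq hrq hb hbs ha har
  obtain ⟨c, hc, hcs, hcc⟩ := h.exists_pe_cent hs hsk hb hbs ha
  have h0 : ∀ g ∈ 𝐂[a], PE s g → g ∉ center G → 𝐂[g] = 𝐂[a] := fun g hg hp hgc =>
    (k2 g hgc hp a ha ((k1 a ha har).le ha hg (har.coprime hr hs hrs hp))).symm
  refine camina_abs hr hs hrs (D := 𝐂[a]) (fun g hg hp hgc => hp.elim (fun hp => ?_)
    fun hp => h0 g hg hp hgc) (self_mem_cent1 a) har ha hc hcs hcc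
    (h.dvd_idx hr (fun h1 => hrq (hk r hr h1)) ha har ha) (h.dvd_idx hs hsk hb hbs ha)
  rw [← h0 c hc hcs hcc] at hg ⊢
  exact (k1 g hgc hp c hcc ((k2 c hcc hcs).le hcc hg (hcs.coprime hs hr hrs.symm hp))).symm

theorem case_two (h : CS G m k) (hp : p.Prime) (hq : q.Prime) (hpq : p ≠ q) (hpk : p ∣ k)
    (hqk : q ∣ k) (hr : r.Prime) (hrp : r ≠ p) (hrq : r ≠ q) {a y : G} (ha : a ∉ center G)
    (har : PE r a) (hy : y ∉ center G) (hyp : PE p y) (hm : ¬ MinC y) : False := by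
  have hyr := hyp.coprime_prime hp hr hrp.symm
  have hyq := hyp.coprime_prime hp hq hpq
  have hrk : ¬ r ∣ k := fun h1 => h.lemA hy hm hr hq hrq h1 hqk hyr hyq
  have hmin : ∀ c, c ∉ center G → PE r c → MinC c := fun c hc hcr => by_contra fun h1 =>
    h.lemA hc h1 hp hq hpq hpk hqk (hcr.coprime_prime hr hp hrp) (hcr.coprime_prime hr hq hrq)
  have hym := (h.of_not_minC hy hm).1
  obtain ⟨c, hc, hcr, hcc⟩ := h.exists_pe_cent hr hrk ha har hy
  have hyc := (hcr.coprime' hyr).symm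
  have hle : 𝐂[c] ≤ 𝐂[y] := (hmin c hcc hcr).le hcc (mem_cent1_comm.1 hc) hyc.symm
  have hn : ¬ 𝐂[y] ≤ 𝐂[c] := fun h1 => hm (by
    rw [MinC, le_antisymm h1 hle]; exact hmin c hcc hcr)
  have hD := (h.rel hy hym hc hyc hn).2.2
  rw [inf_eq_right.2 hle] at hD
  have hZ : 𝐙(𝐂[y]) ≤ 𝐂[c] := (center_le_inf hc).trans inf_le_right
  obtain ⟨b, hb, hbq, hnb⟩ := h.exists_pe hy hym hle hZ hD hq hqk hyq
  have hyb := (hbq.coprime' hyq).symm
  have hb' := h.rel_eq hy hym hyb hnb hb hD hle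
    ((hmin c hcc hcr).le hcc hb (hcr.coprime hr hq hrq hbq))
  set D := 𝐂[c] with hDdef
  have hab : ∀ g ∈ D, D ≤ 𝐂[g] := fun g hg => by
    obtain ⟨g₁, g₂, h1, h2, e, hc', h3, h4⟩ := H8.exists_pPart_pPrimePart hr g
    rw [e, H9.centralizer_mul_of_coprime hc' (PE.coprime' h3 h4)]
    exact le_inf (hb' ▸ h.rel_le hy hym (hle hb) hyb hnb (hb' ▸ zpowers_le_of_mem hg h1)
      (PE.coprime' h3 hyr).symm (hbq.coprime hq hr hrq.symm h3))
      ((hmin c hcc hcr).le hcc (zpowers_le_of_mem hg h2) (hcr.coprime' h4))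
  have hDc : IsMulCommutative D := isMulComm_iff_le_cent.2 fun g hg => mem_cent_iff_cent1.2 (hab g hg)
  have hnil := isNilpotent_of_isMulComm hDc
  have hR : ∀ g ∈ D, PE r g → g ∉ center G → 𝐂[g] = D := fun g hg h1 h2 =>
    (hmin g h2 h1 c hcc (hab g hg)).symm
  have hcore : ∀ {t : ℕ} {g : G}, t.Prime → g ∈ D → PE t g → g ∈ pCoreOf t D := fun ht hg h1 =>
    (isSyl_pCoreOf_of_isNilpotent ht hnil).le_of_normal ht (pCoreOf_normal _ _).2 h1.isPGroup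
      (zpowers_le_of_mem hg) (mem_zpowers _)
  have hnc : ∀ {t : ℕ}, t.Prime → 𝐍(D) ≤ 𝐍(pCoreOf t D) := fun ht => by
    rw [pCoreOf_eq ht]; exact norm_le_norm_piCoreOf _ D
  obtain ⟨u, hu, hur, huD⟩ := exists_pe_norm hr hR (self_mem_cent1 c) hcr hcc
    (h.dvd_idx hr hrk ha har hcc)
  obtain ⟨T, hT⟩ := exists_isSyl hr 𝐍(D)
  set K := D ⊔ closure {u ∈ 𝐍(D) | PE r u} with hKdef
  have hKY : K ≤ 𝐍(D) := sup_le le_normalizer ((closure_le _).2 fun _ hu => hu.1)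
  have hK : K ≤ T ⊔ D := le_of_forall_exists_isSyl_le fun t ht _ => by
    by_cases h1 : t = r
    · exact ⟨T, h1 ▸ hT.of_le (fun w hw => mem_sup_right (subset_closure
        ⟨hT.le hw, pe_of_mem hr hT.pgrp hw⟩)) hKY, le_sup_left⟩
    obtain ⟨S, hS⟩ := exists_isSyl ht K
    refine ⟨S, hS, fun v hv => mem_sup_right (by_contra fun hvD => ?_)⟩
    obtain ⟨J, h2, h3, h4⟩ := camina_K hr (H2.isPGroup_pCoreOf r D) (pCoreOf_normal _ _).1 (hnc hr)
      (cent_comm.1 fun g hg => mem_cent_iff_cent1.2 (hab g ((pCoreOf_normal _ _).1 hg)))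
      (fun g hg => hR g ((pCoreOf_normal _ _).1 hg) (pe_of_mem hr (H2.isPGroup_pCoreOf r D) hg))
      (hcore hr (self_mem_cent1 c) hcr) hcc (hKY (hS.le hv)) hvD
      ((pe_of_mem ht hS.pgrp hv).coprime_prime ht hr h1)
    exact h3 (sup_le h2 ((closure_le _).2 fun w hw => h4 w hw.1 hw.2) (hS.le hv))
  set Q := pCoreOf q D with hQdef
  have hQD : Q ≤ D := (pCoreOf_normal _ _).1
  have hQ : IsPGroup q Q := H2.isPGroup_pCoreOf q D
  have hDQ : D ≤ 𝐂(Q) := cent_comm.1 fun g hg => mem_cent_iff_cent1.2 (hab g (hQD hg))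
  have hWQ : ⁅Q, K⁆ ≤ Q := comm_le_left_iff.2 (hKY.trans (hnc hq))
  have hWT : ⁅Q, K⁆ ≤ ⁅Q, T⁆ := (commutator_mono le_rfl hK).trans (comm_sup_le
    (H1.le_normalizer_commutator (hT.le.trans (hnc hq)) le_normalizer)
    (hDQ.trans ((cent_anti (comm_le_left_iff.2 (hT.le.trans (hnc hq)))).trans (cent_le_norm _)))
    le_rfl ((comm_eq_bot_iff.2 (cent_comm.1 hDQ)).le.trans bot_le))
  have hW1 : ⁅Q, K⁆ ≠ ⊥ := fun e => by
    obtain ⟨i, hi⟩ := hur
    have := Fact.mk hr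
    have h1 := H8.dvd_relIndex_of_not_mem hr hi hu huD (hab b hb) (mem_cent1_comm.1 (cent_le_cent1
      (show u ∈ K from mem_sup_right (subset_closure ⟨hu, i, hi⟩))
      (comm_eq_bot_iff.1 e (hcore hq hb hbq))))
    rcases h.idx b (notMem_center_of_not_le hnb) with e | e
    · exact hrk (relIndex_eq (hab b hb) hD e ▸ h1)
    · rw [H6.eq_of_le_of_index_le (hab b hb) (by rw [hD, e]), relIndex_self] at h1
      exact hr.ne_one (Nat.dvd_one.1 h1)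
  have hrel := relIndex_eq hle hD hym
  obtain ⟨v, hvE, hvq, hvN, hvD⟩ : ∃ v ∈ 𝐂[y], PE q v ∧ v ∈ 𝐍(D) ∧ v ∉ D := by
    have hS := isSyl_pCoreOf_of_isNilpotent hq hnil
    obtain ⟨S, hS', h1⟩ := exists_isSyl_ge hq hQ (hQD.trans hle)
    obtain ⟨v, hv, hvQ⟩ := SetLike.exists_of_lt (lt_inf_norm_of_isNilpotent
      (isNilpotent_of_isPGroup hq hS'.pgrp) (lt_of_le_of_ne h1 fun e => hS'.ndvd
        ((hrel ▸ hqk).trans (relIndex_dvd_of_le_left _ (e ▸ hQD)))))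
    rw [mem_inf] at hv
    have hvq := pe_of_mem hq hS'.pgrp hv.1
    refine ⟨v, hS'.le hv.1, hvq, ?_, fun h2 => hvQ (hcore hq h2 hvq)⟩
    have h2 := hQD ((mem_normalizer_iff.1 hv.2 b).1 (hcore hq hb hbq))
    have h3 := conj_eq_of_mem (hS'.le hv.1)
    rw [← conj_eq_self_iff]
    nth_rewrite 1 [← hb']
    rw [conj_inf, h3, ← cent1_conj]
    refine h.rel_eq hy hym ((hbq.conj v).coprime' hyq).symm (fun h4 => hnb ?_) h2 hD hle (hab _ h2)
    rwa [cent1_conj, ← h3, conj_le_conj_iff] at h4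
  obtain ⟨i, hi⟩ := hvq
  have hKN : 𝐍(D) ≤ 𝐍(K) := H1.le_normalizer_sup le_rfl fun g hg =>
    mem_normalizer_closure_of_conj_mem
      fun a ha => ⟨mul_mem (mul_mem hg ha.1) (inv_mem hg), ha.2.conj g⟩
  obtain ⟨w, hw, hw1, hvw⟩ := exists_fixed hq (hQ.to_le hWQ) hW1 (H1.le_normalizer_commutator
    (hnc hq) hKN hvN) (k := i)
    (hi ▸ pow_orderOf_eq_one v)
  have hwc : w ∉ center G := fun h1 => hw1 (by
    rw [← mem_bot, ← H1.centralizer_inf_commutator_eq_bot (isMulComm_of_le hQD hDc)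
      (hT.le.trans (hnc hq)) (coprime_card_of_isPGroup hr hq hrq hT.pgrp hQ)]
    exact mem_inf.2 ⟨center_le_centralizer _ h1, hWT hw⟩)
  have hwD := hQD (hWQ hw)
  have hwq := pe_of_mem hq hQ (hWQ hw)
  have hE : 𝐂[y] = 𝐂[w] := h.eq_m hym hwc (by_contra fun h1 => hvD (h.rel_eq hy hym
    (hwq.coprime' hyq).symm h1 hwD hD hle (hab w hwD) ▸ mem_inf.2 ⟨hvE, mem_cent1.2 hvw.symm⟩))
  have hwp := hwq.coprime_prime hq hp hpq.symm
  obtain ⟨x, hx, hxp, hnx⟩ := h.exists_pe hwc (hE ▸ hym) (hE ▸ hle) (hE ▸ hZ) hD hp hpk hwp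
  refine camina_rel hp hq hpq hle (fun g hg h1 h2 => h1.elim (fun h1 => ?_) fun h1 =>
    h.rel_eq hy hym (h1.coprime' hyq).symm h2 hg hD hle (hab g hg)) hx hxp (hE ▸ hnx) hb hbq hnb
    (hrel ▸ hpk) (hrel ▸ hqk)
  rw [hE] at h2 hle hym ⊢
  exact h.rel_eq hwc hym (h1.coprime' hwp).symm h2 hg hD hle (hab g hg)

theorem isSolvable (h : CS G m k) {y : G} (hy : y ∉ center G) (hm : ¬ MinC y) :
    Group.IsSolvable (G ⧸ center G) := by
  by_contra hs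
  have h1 : ∀ p q : ℕ, ∃ r : ℕ, r.Prime ∧ r ≠ p ∧ r ≠ q ∧ ∃ a : G, a ∉ center G ∧ PE r a := by
    intro p q
    obtain ⟨r, hr, hd, h1⟩ : ∃ r : ℕ, r.Prime ∧ r ∣ Nat.card (G ⧸ center G) ∧ r ≠ p ∧ r ≠ q := by
      by_contra! h1
      exact hs (H6.isSolvable_of_primes_two p q fun r hr hd => or_iff_not_imp_left.2 (h1 r hr hd))
    obtain ⟨S, hS⟩ := exists_isSyl hr (⊤ : Subgroup G)
    obtain ⟨a, ha, hac⟩ : ∃ a ∈ S, a ∉ center G := by
      by_contra! h2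
      exact hS.ndvd (by rw [relIndex_top_right]; exact hd.trans (index_dvd_of_le h2))
    exact ⟨r, hr, h1.1, h1.2, a, hac, pe_of_mem hr hS.pgrp ha⟩
  obtain ⟨t, i, y', ht, hy', hi, hy'c⟩ := H8.exists_primePow_not_mem hy
  have hm' : ¬ MinC y' := by
    rwa [MinC, ← h.eq_m (h.of_not_minC hy hm).1 hy'c (cent1_le_cent1_of_mem_zpowers hy')]
  obtain ⟨q, hq, hqk⟩ := Nat.exists_prime_and_dvd h.one_lt.ne'
  by_cases hk : ∀ t : ℕ, t.Prime → t ∣ k → t = q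
  · obtain ⟨r, hr, hrq, -, a, ha, har⟩ := h1 q q
    obtain ⟨s, hs, hsq, hsr, b, hb, hbs⟩ := h1 q r
    exact h.case_one hq hk hr hs hsr.symm hrq hsq ha har hb hbs
  push Not at hk
  obtain ⟨p, hp, hpk, hpq⟩ := hk
  obtain ⟨r, hr, hrp, hrq, a, ha, har⟩ := h1 p q
  by_cases h2 : t = p
  · exact h.case_two hp hq hpq hpk hqk hr hrp hrq ha har hy'c ⟨i, h2 ▸ hi⟩ hm'
  by_cases h3 : t = q
  · exact h.case_two hq hp hpq.symm hqk hpk hr hrq hrp ha har hy'c ⟨i, h3 ▸ hi⟩ hm'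
  exact h.lemA hy'c hm' hp hq hpq hpk hqk (PE.coprime_prime ht hp h2 ⟨i, hi⟩)
    (PE.coprime_prime ht hq h3 ⟨i, hi⟩)

end CS

end Cfsg.Agent.H5
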