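import Cfsg.Agent.H5.Ito2
import Cfsg.Agent.H5.Part6
import Cfsg.Agent.H9.FrobCompl

/-! Itô's theorem: groups with three class sizes are solvable. -/

set_option autoImplicit false

namespace Cfsg.Agent.H5

open Cfsg Subgroup Cfsg.Agent.L Cfsg.Agent.FT

universe u

variable {G : Type u} [Group G] [Finite G]

theorem isSolvable_of_hughes {p : ℕ} (hp : p.Prime) (h : closure {g : G | g ^ p ≠ 1} ≠ ⊤) :
    Group.IsSolvable G := by
  have := Fact.mk hp
  set H := closure {g : G | g ^ p ≠ 1}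
  have hn : H.Normal := normal_iff_top_le.2 fun g _ => mem_normalizer_closure_of_conj_mem
    fun a ha e => ha (by rwa [conj_pow, H9.conj_eq_one_iff] at e)
  have h1 : ∀ g, g ∉ H → g ^ p = 1 := fun g hg => by_contra fun e => hg (subset_closure e)
  obtain ⟨y, -, hy⟩ := SetLike.exists_of_lt (lt_top_iff_ne_top.2 h)
  have := isNilpotent_of_coset_pow hp H y (normal_iff_top_le.1 hn (mem_top y)) fun g hg =>
    h1 _ fun h2 => hy ((mul_mem_cancel_left hg).1 h2)
  have h2 : IsPGroup p (G ⧸ H) := fun g => ⟨1, by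
    obtain ⟨g, rfl⟩ := QuotientGroup.mk_surjective g
    by_cases h3 : g ∈ H
    · rw [(QuotientGroup.eq_one_iff g).2 h3, one_pow]
    · rw [pow_one, ← QuotientGroup.mk_pow, h1 g h3, QuotientGroup.mk_one]⟩
  have := h2.isNilpotent
  exact solvable_of_ker_le_range H.subtype (QuotientGroup.mk' H) (by simp)

theorem Part.isSolvable_or_three [Nontrivial G] {d : G → Subgroup G} (hd : Part d)
    (hne : ∀ x, x ≠ 1 → d x ≠ ⊤) (hab : ∀ x, x ≠ 1 → IsMulCommutative (d x)) :
    Group.IsSolvable G ∨ Three G := by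
  rcases partition_classification hd hne with ⟨⟨e⟩⟩ | ⟨p, hp, h⟩ | ⟨H, hH⟩ | h
  · refine Or.inl (H6.isSolvable_of_primes_two 2 3 fun r hr hd => ?_)
    rw [Nat.card_congr e.toEquiv, Nat.card_perm, Nat.card_fin,
      show Nat.factorial 4 = 2 ^ 3 * 3 from rfl, hr.dvd_mul] at hd
    exact hd.imp (fun h => (Nat.prime_dvd_prime_iff_eq hr Nat.prime_two).1 (hr.dvd_of_dvd_pow h))
      (Nat.prime_dvd_prime_iff_eq hr Nat.prime_three).1
  · exact Or.inl (isSolvable_of_hughes hp h)
  · left
    obtain ⟨K, _, _, hK, hφ⟩ := H9.frob_exists_isFrobAction hH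
    have h1 : Group.IsSolvable H := by
      rcases Nat.even_or_odd 𝐨(H) with h2 | h2
      swap
      · exact feit_thompson H h2
      have : Fact (Nat.Prime 2) := ⟨Nat.prime_two⟩
      obtain ⟨e, he⟩ := exists_prime_orderOf_dvd_card' 2 (even_iff_two_dvd.1 h2)
      have he1 : (e : G) ≠ 1 := fun h => by rw [show e = 1 from Subtype.ext h] at he; simp at he
      refine isSolvable_of_isNilpotent (isNilpotent_of_isMulComm (isMulComm_of_le
        (fun y hy => by_contra fun h3 => h3 ?_) (hab e he1)))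
      have h4 : Commute (e : G) y :=
        (congrArg Subtype.val (mem_center_iff.1 (hφ.involution_mem_center he) ⟨y, hy⟩)).symm
      have h5 := hd.orderOf_eq he1 h3 h4
      rw [orderOf_coe, he] at h5
      rw [show y = e from congrArg Subtype.val
        (hφ.involution_unique (s := ⟨y, hy⟩) (by rw [orderOf_mk, h5]) he)]
      exact hd.mem _
    have h2 := isSolvable_sup_of_normal H K h1
      (isSolvable_of_isNilpotent (isNilpotent_frobeniusKernel hH hK))
    rw [sup_comm, H9.frob_kernel_sup hH hK] at h2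
    exact solvable_of_surjective (f := (⊤ : Subgroup G).subtype) fun x => ⟨⟨x, trivial⟩, rfl⟩
  · exact Or.inr h.2

theorem isSolvable_quotient_of_minC {m n : ℕ} [Nontrivial (G ⧸ center G)]
    (h : ∀ g : G, g ∉ center G → (𝐂[g] : Subgroup G).index = m ∨ (𝐂[g] : Subgroup G).index = n)
    (hm : ∀ g : G, g ∉ center G → MinC g) : Group.IsSolvable (G ⧸ center G) := by
  have h1 : ∀ a b : G, (a : G ⧸ center G) = b → 𝐂[a] = 𝐂[b] := by
    suffices h : ∀ a b : G, (a : G ⧸ center G) = b → 𝐂[a] ≤ 𝐂[b] from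
      fun a b e => le_antisymm (h a b e) (h b a e.symm)
    intro a b e g hg
    rw [mem_cent1_comm] at hg ⊢
    simpa using mul_mem hg (center_le_centralizer _ (QuotientGroup.eq.1 e))
  have h2 : ∀ a : G ⧸ center G, a ≠ 1 → a.out ∉ center G := fun a ha h => ha (by
    rw [← a.out_eq']; exact (QuotientGroup.eq_one_iff _).2 h)
  have h3 : ∀ a : G, 𝐂(𝐂[a]) ≤ 𝐂[a] := fun a => cent_le_cent1 (self_mem_cent1 a)
  refine (Part.isSolvable_or_three
    (d := fun a => (𝐂(𝐂[a.out])).map (QuotientGroup.mk' (center G)))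
    ⟨fun a => ⟨a.out, mem_cent_iff_cent1.2 le_rfl, a.out_eq'⟩, ?_⟩ (fun a ha e => h2 a ha ?_)
    fun a _ => ?_).resolve_right ?_
  · rintro a _ ha hb ⟨b, hab, rfl⟩
    have h4 := h1 _ b (QuotientGroup.mk' (center G) b).out_eq'
    show (𝐂(𝐂[_])).map _ = (𝐂(𝐂[_])).map _
    rw [h4, hm b (fun h => hb ((QuotientGroup.eq_one_iff b).2 h)) _ (h2 a ha)
      (mem_cent_iff_cent1.1 hab)]
  · refine mem_center_iff_top_le.2 fun g _ => ?_
    obtain ⟨b, hb, e⟩ : (g : G ⧸ center G) ∈ _ := e.ge (mem_top _)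
    simpa using mul_mem (h3 _ hb) (center_le_centralizer _ (QuotientGroup.eq.1 e))
  · refine ⟨⟨?_⟩⟩
    rintro ⟨_, b, hb, rfl⟩ ⟨_, c, hc, rfl⟩
    exact Subtype.ext (by
      show _ * _ = _ * _
      rw [← map_mul, ← map_mul, mem_cent.1 hc b (h3 _ hb)])
  rintro ⟨x, y, z, hxy, hxz, hyz⟩
  have h4 : ∀ a b : G ⧸ center G, (𝐂[a.out] : Subgroup G).index = (𝐂[b.out] : Subgroup G).index →
      orderOf a ∣ 𝐨(𝐂[b]) := by
    intro a b e
    have h5 := card_eq_of_index_eq e
    rw [card_eq_card_map_mk'_mul (center G) _ (center_le_centralizer _),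
      card_eq_card_map_mk'_mul (center G) 𝐂[b.out] (center_le_centralizer _)] at h5
    have h6 := H9.map_centralizer_singleton_le (QuotientGroup.mk' (center G)) b.out
    rw [QuotientGroup.mk'_apply, QuotientGroup.out_eq'] at h6
    refine Dvd.dvd.trans ?_ (FT.card_dvd_of_le h6)
    rw [← Nat.eq_of_mul_eq_mul_right Nat.card_pos h5]
    exact orderOf_dvd_card_of_mem ⟨a.out, self_mem_cent1 _, a.out_eq'⟩
  have hx := h _ (h2 x (by rintro rfl; simp at hxy))
  have hy := h _ (h2 y (by rintro rfl; simp at hyz))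
  have hz := h _ (h2 z (by
    rintro rfl
    exact hxz (orderOf_dvd_card_of_mem (cent1_one.ge (mem_top x)))))
  have := mt (h4 x y) hxy
  have := mt (h4 x z) hxz
  have := mt (h4 y z) hyz
  omega

theorem isSolvable_of_three_sizes {m n : ℕ} (hmn : m < n)
    (h : ∀ g : G, g ∉ center G → (𝐂[g] : Subgroup G).index = m ∨ (𝐂[g] : Subgroup G).index = n) :
    Group.IsSolvable G := by
  have := isSolvable_of_isNilpotent (isNilpotent_of_isMulComm (A := center G) inferInstance)
  suffices Group.IsSolvable (G ⧸ center G) from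
    solvable_of_ker_le_range (center G).subtype (QuotientGroup.mk' (center G)) (by simp)
  rcases subsingleton_or_nontrivial (G ⧸ center G) with h1 | h1
  · infer_instance
  by_cases hm : ∀ g : G, g ∉ center G → MinC g
  · exact isSolvable_quotient_of_minC h hm
  push Not at hm
  obtain ⟨y, hy, hm⟩ := hm
  have hm' := hm
  simp only [MinC, not_forall] at hm'
  obtain ⟨x, hx, hle, hne⟩ := hm'
  have h2 := index_strictAnti (lt_of_le_of_ne hle hne)
  obtain ⟨k, hk⟩ := index_dvd_of_le hle
  have h3 := h x hx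
  have h4 := h y hy
  have h5 : n = k * m := by rw [mul_comm]; rcases h4 with e | e <;> rw [e] at hk h2 <;> omega
  subst h5
  exact CS.isSolvable ⟨by by_contra h6; interval_cases k <;> omega, h⟩ hy hm

end Cfsg.Agent.H5
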