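import Cfsg.Agent.H5.KR4

/-! Solvable complex linear groups: class numbers modulo a nilpotent normal subgroup. -/

set_option autoImplicit false

namespace Cfsg.Agent.H5.KRel

open Subgroup Cfsg Cfsg.Agent Cfsg.Agent.FT Module Cfsg.Agent.H7.Hk
open Cfsg.Agent.H9 (rep_mul_apply rep_inv_apply rep_apply_inv)
open scoped commutatorElement

universe u

theorem prim {Γ : Type u} [Group Γ] [Finite Γ] [Group.IsSolvable Γ] {W : Type*} [AddCommGroup W]
    [Module ℂ W] [FiniteDimensional ℂ W] [Nontrivial W] {σ : Γ →* End ℂ W} (h : Fpf σ) :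
    ∃ F : Subgroup Γ, F.Normal ∧ NM F ⊥ ∧ KR ⊤ F (3 ^ (finrank ℂ W - 1)) := by
  obtain ⟨D, ⟨hDn, hD⟩, hmax⟩ := exists_maximal_of_wellFoundedGT
    (fun A : Subgroup Γ => A.Normal ∧ A ≤ 𝐂(A)) ⟨⊥, inferInstance, bot_le⟩
  have fpf := h D hDn hD
  obtain ⟨e, e1, e2, e3, -⟩ := wt σ D hD fpf
  have := (H5.KN.dim_bounds σ D D hD fpf hD (commutator_le_left _ _) fun _ h _ => h).1
  obtain ⟨X, E, hX, DX, XC, XX, XZ, iX, iC, hc⟩ := recur2
    (fun A h1 h2 h3 => le_antisymm (hmax ⟨h1, h3⟩ h2) h2) 𝐂(D) inferInstance hD le_rfl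
  have hE : E ≤ e := (Nat.pow_le_pow_iff_left two_ne_zero).1 (iX ▸ e3 X XC XX XZ)
  have hN : (centMod X D).Normal :=
    normalizer_eq_top_iff.1 (top_le_iff.1 (norm_le_norm_centMod lnn lnn))
  set F := 𝐂(D) ⊓ centMod X D with hF
  have h1 : ⁅X, F⁆ ≤ D := (le_centMod_iff.1 inf_le_right).2
  have h2 : ⁅D, F⁆ = ⊥ := comm_eq_bot_iff.2 (cent_comm.1 inf_le_left)
  have h3 : ⁅⁅X, F⁆, F⁆ = ⊥ := eq_bot_iff.2 (h2 ▸ commutator_mono h1 le_rfl)
  have h4 : ⁅F, F⁆ ≤ D := (le_inf ((commutator_le_left _ _).trans inf_le_left) (comm_eq_bot_iff.1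
    (commutator_commutator_eq_bot_of_rotate (by rwa [commutator_comm F X]) h3))).trans iC
  refine ⟨F, inferInstance, ⟨2, h2 ▸ commutator_mono h4 le_rfl⟩, ?_⟩
  have t1 : 1 ≤ 𝐂(D).index := Nat.pos_of_ne_zero index_ne_zero_of_finite
  refine ((KR.of_relIndex (relIndex_top_right _).le).trans
    (hc.mono (F' := F) le_rfl le_rfl le_rfl) lnn).mono le_rfl inf_le_right ?_
  calc _ ≤ 3 ^ (𝐂(D).index - 1) * 3 ^ (e - 1) := Nat.mul_le_mul
        (by have := Nat.lt_pow_self (n := 𝐂(D).index - 1) (by norm_num : 1 < 3); omega)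
        (Nat.pow_le_pow_right (by norm_num) (by omega))
    _ ≤ _ := (pow_mul_le t1 e1).trans (Nat.pow_le_pow_right (by norm_num) (by omega))

variable {G : Type u} [Group G] [Finite G] [Group.IsSolvable G]

theorem irred {V : Type*} [AddCommGroup V] [Module ℂ V] [FiniteDimensional ℂ V] [Nontrivial V]
    (ρ : G →* End ℂ V) (irr : ∀ W : Submodule ℂ V, (∀ h, ∀ w ∈ W, ρ h w ∈ W) → W = ⊥ ∨ W = ⊤) :
    ∃ F : Subgroup G, F.Normal ∧ NM F ρ.ker ∧ KR ⊤ F (3 ^ (finrank ℂ V - 1)) := by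
  obtain ⟨N, Γ, _, _, π, W, σ, hs, W0, hd, hk, hf⟩ := blocks ρ irr
  have := Group.isSolvable_of_surjective hs
  have : Nontrivial W := Submodule.nontrivial_iff_ne_bot.2 W0
  obtain ⟨F, hF, h1, h2⟩ := prim hf
  obtain ⟨n, h3⟩ := ((h1.comap π).map N.subtype).core
  refine ⟨_, inferInstance, ⟨n, h3.trans hk⟩, ?_⟩
  have h4 := (((h2.comap π).map N.subtype).mono (A' := N) (fun x hx => ⟨⟨x, hx⟩, mem_top _, rfl⟩)
    inf_le_right le_rfl).core fun x hx => mem_norm_of_conj_le fun y hy => by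
      obtain ⟨_, ⟨a, ha, rfl⟩, rfl⟩ := mem_conj'.1 hy
      exact ⟨⟨x, hx⟩ * a * ⟨x, hx⟩⁻¹, (hF.comap π).conj_mem a ha _, rfl⟩
  refine ((KR.of_relIndex (relIndex_top_right _).le).trans h4 lnn).mono le_rfl inf_le_right ?_
  have h5 := dixon N
  have m1 : 1 ≤ finrank ℂ W := finrank_pos
  obtain ⟨t, ht⟩ : ∃ t, N.index = t + 1 :=
    ⟨_, (Nat.succ_pred_eq_of_ne_zero index_ne_zero_of_finite).symm⟩
  obtain ⟨m, hm⟩ : ∃ m, finrank ℂ W = m + 1 := ⟨finrank ℂ W - 1, by omega⟩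
  rw [ht, pow_succ 24 t] at h5
  have h6 : N.normalCore.index ≤ 3 ^ t := by
    rw [← Nat.pow_le_pow_iff_left (by norm_num : 3 ≠ 0), ← pow_mul, mul_comm, pow_mul]
    exact (Nat.le_of_mul_le_mul_right h5 (by norm_num)).trans (Nat.pow_le_pow_left (by norm_num) t)
  rw [ht, hm] at hd ⊢
  refine (Nat.mul_le_mul_right _ h6).trans ?_
  rw [← pow_mul, ← pow_add]
  exact Nat.pow_le_pow_right (by norm_num) (Nat.le_sub_one_of_lt (by simp; nlinarith))

theorem main (r : ℕ) : ∀ (V : Type) [AddCommGroup V] [Module ℂ V] [FiniteDimensional ℂ V]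
    [Nontrivial V] (ρ : G →* End ℂ V), finrank ℂ V = r →
    ∃ F : Subgroup G, F.Normal ∧ NM F ρ.ker ∧ KR ⊤ F (3 ^ (r - 1)) := by
  induction r using Nat.strong_induction_on with
  | _ r ih =>
  intro V _ _ _ _ ρ hr
  by_cases irr : ∀ W : Submodule ℂ V, (∀ h, ∀ w ∈ W, ρ h w ∈ W) → W = ⊥ ∨ W = ⊤
  · exact hr ▸ irred ρ irr
  push Not at irr
  obtain ⟨W, hW, W0, W1⟩ := irr
  let τ : G →* End ℂ W :=
    { toFun := fun g => (ρ g).restrict (hW g)
      map_one' := by ext w; simp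
      map_mul' := fun a b => by ext w; exact rep_mul_apply ρ a b w }
  let υ : G →* End ℂ (V ⧸ W) :=
    { toFun := fun g => W.mapQ W (ρ g) (hW g)
      map_one' := by ext w; simp
      map_mul' := fun a b => by ext w; simp }
  have : Nontrivial W := Submodule.nontrivial_iff_ne_bot.2 W0
  have : Nontrivial (V ⧸ W) := Submodule.Quotient.nontrivial_iff.2 W1
  have h0 := W.finrank_quotient_add_finrank
  have p1 : 0 < finrank ℂ W := finrank_pos
  have p2 : 0 < finrank ℂ (V ⧸ W) := finrank_pos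
  obtain ⟨F, hF, ⟨h1, h2⟩⟩ := ih _ (by omega) W τ rfl
  obtain ⟨F', hF', ⟨h3, h4⟩⟩ := ih _ (by omega) (V ⧸ W) υ rfl
  obtain ⟨n, h5⟩ := h1.inf h3
  refine ⟨F ⊓ F', inferInstance, ⟨n, h5.trans fun g hg => ?_⟩, (h2.inf h4 lnn).mono le_rfl
    inf_le_right (by rw [← pow_add]; exact Nat.pow_le_pow_right (by norm_num) (by omega))⟩
  refine MonoidHom.mem_ker.2 (LinearMap.ext fun v => ?_)
  have a1 : ρ g v - v ∈ W := (Submodule.Quotient.eq W).1
    (LinearMap.congr_fun (MonoidHom.mem_ker.1 hg.2) (Submodule.Quotient.mk v))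
  have a2 : ρ g (ρ g v - v) = ρ g v - v :=
    congrArg Subtype.val (LinearMap.congr_fun (MonoidHom.mem_ker.1 hg.1) ⟨_, a1⟩)
  have a3 : ∀ k : ℕ, ρ (g ^ k) v = v + (k : ℂ) • (ρ g v - v) := fun k => by
    induction k with
    | zero => simp
    | succ k ih => rw [pow_succ', rep_mul_apply, ih, map_add, map_smul, a2]; push_cast; module
  have a4 := a3 (orderOf g)
  rw [pow_orderOf_eq_one, map_one, End.one_apply, left_eq_add, smul_eq_zero] at a4
  exact sub_eq_zero.1 (a4.resolve_left (Nat.cast_ne_zero.2 (orderOf_pos g).ne'))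

end Cfsg.Agent.H5.KRel
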