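/-
A π-homogeneous group whose maximal π-subgroups are conjugate has a normal π-complement.
-/
import Cfsg.Agent.H5.BrauerNC

set_option autoImplicit false

namespace Cfsg.Agent.H5

open Subgroup Cfsg Cfsg.Agent Cfsg.Agent.FT

universe u

variable {G : Type u} [Group G]

/-- `H` is a maximal π-subgroup of `L`. -/
def MaxPi (π : Set ℕ) (L H : Subgroup G) : Prop :=
  H ≤ L ∧ IsPiSubgroup π H ∧ ∀ X : Subgroup G, H ≤ X → X ≤ L → IsPiSubgroup π X → X ≤ H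

/-- The maximal π-subgroups of `L` are conjugate in `L`. -/
def DPi (π : Set ℕ) (L : Subgroup G) : Prop :=
  ∀ H₁ H₂ : Subgroup G, MaxPi π L H₁ → MaxPi π L H₂ → ∃ g ∈ L, H₁ ^ᵍ g = H₂

variable {π : Set ℕ} {L H : Subgroup G}

theorem isPi_conj' (h : IsPiSubgroup π H) (g : G) : IsPiSubgroup π (H ^ᵍ g) :=
  (isPiSubgroup_map_iff (conj_injective g)).2 h

theorem MaxPi.conj (h : MaxPi π L H) {g : G} (hg : g ∈ L) : MaxPi π L (H ^ᵍ g) :=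
  ⟨conj_le_of_mem h.1 hg, isPi_conj' h.2.1 g, fun X h1 h2 h3 => le_conj_iff.2
    (h.2.2 _ (conj_le_iff.1 h1) (conj_le_of_mem h2 (inv_mem hg)) (isPi_conj' h3 _))⟩

variable [Finite G]

theorem exists_maxPi_ge {X : Subgroup G} (hX : X ≤ L) (h : IsPiSubgroup π X) :
    ∃ H, MaxPi π L H ∧ X ≤ H := by
  obtain ⟨H, h1, h2⟩ := Finite.exists_le_maximal (p := fun Y : Subgroup G => Y ≤ L ∧ IsPiSubgroup π Y)
    ⟨hX, h⟩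
  exact ⟨H, ⟨h2.1.1, h2.1.2, fun Y a b c => h2.2 ⟨b, c⟩ a⟩, h1⟩

theorem le_sup_of_conj_le {M : Subgroup G} (hH : H ≤ L)
    (h : ∀ X ≤ L, IsPiSubgroup π X → ∃ g ∈ L, X ^ᵍ g ≤ H)
    (hM : ∀ x ∈ L, IsPiElt πᶜ x → x ∈ M) : L ≤ M ⊔ H := by
  refine le_of_forall_exists_isSyl_le fun p hp _ => ?_
  obtain ⟨P, hP⟩ := exists_isSyl hp L
  by_cases hπ : p ∈ π
  · obtain ⟨g, hg, h1⟩ := h P hP.le (isPi_of_isPGroup hp hP.pgrp hπ)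
    exact ⟨_, hP.conj_of_mem_norm (le_normalizer hg), h1.trans le_sup_right⟩
  · exact ⟨P, hP, fun x hx => mem_sup_left (hM x (hP.le hx)
      (isPiElt_of_mem (isPi_of_isPGroup hp hP.pgrp hπ) hx))⟩

theorem DPi.exists_conj_le (hD : DPi π L) (hH : MaxPi π L H) (X : Subgroup G) (hX : X ≤ L)
    (h : IsPiSubgroup π X) : ∃ g ∈ L, X ^ᵍ g ≤ H := by
  obtain ⟨K, hK, h1⟩ := exists_maxPi_ge hX h
  obtain ⟨g, hg, rfl⟩ := hD K H hK hH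
  exact ⟨g, hg, conj_mono h1 g⟩

/-- The conjugating element can be chosen to centralize `H₁ ∩ H₂ ∩ N(Q)`. -/
theorem exists_conj_cent_of_trans {Q : Subgroup G} (hQL : Q ≤ L) (hQ : IsPiSubgroup π Q)
    (ih : DPi π (L ⊓ 𝐍(Q)) → ∃ K : Subgroup G, ∀ x, x ∈ K ↔ x ∈ L ⊓ 𝐍(Q) ∧ IsPiElt πᶜ x)
    (htr : ∀ H₁ H₂, MaxPi π L H₁ → MaxPi π L H₂ → Q ≤ H₁ → Q ≤ H₂ → ∃ g ∈ L ⊓ 𝐍(Q), H₁ ^ᵍ g = H₂)
    {H₁ H₂ : Subgroup G} (h₁ : MaxPi π L H₁) (h₂ : MaxPi π L H₂) (q₁ : Q ≤ H₁) (q₂ : Q ≤ H₂) :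
    ∃ c ∈ L, H₁ ^ᵍ c = H₂ ∧ H₁ ⊓ H₂ ⊓ 𝐍(Q) ≤ 𝐂[c] := by
  have h1 : ∀ X ≤ L ⊓ 𝐍(Q), IsPiSubgroup π X → ∃ H, MaxPi π L H ∧ X ≤ H ∧ Q ≤ H := fun X hX h => by
    obtain ⟨H, a, b⟩ := exists_maxPi_ge (sup_le (hX.trans inf_le_left) hQL)
      (isPi_sup h hQ (hX.trans inf_le_right))
    exact ⟨H, a, le_sup_left.trans b, le_sup_right.trans b⟩
  have h2 : ∀ X, MaxPi π (L ⊓ 𝐍(Q)) X → ∃ H, MaxPi π L H ∧ Q ≤ H ∧ X = H ⊓ (L ⊓ 𝐍(Q)) :=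
    fun X hX => by
      obtain ⟨H, a, b, c⟩ := h1 X hX.1 hX.2.1
      exact ⟨H, a, c, le_antisymm (le_inf b hX.1)
        (hX.2.2 _ (le_inf b hX.1) inf_le_right (isPi_of_le inf_le_left a.2.1))⟩
  obtain ⟨K, hK⟩ := ih fun X Y hX hY => by
    obtain ⟨A, a1, a2, rfl⟩ := h2 X hX
    obtain ⟨B, b1, b2, rfl⟩ := h2 Y hY
    obtain ⟨g, hg, rfl⟩ := htr A B a1 b1 a2 b2
    exact ⟨g, hg, by rw [conj_inf, conj_eq_of_mem hg]⟩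
  have hKn : L ⊓ 𝐍(Q) ≤ 𝐍(K) := fun g hg => mem_norm_of_conj_le (by
    rintro _ ⟨x, hx, rfl⟩
    exact (hK _).2 ⟨mul_mem (mul_mem hg ((hK x).1 hx).1) (inv_mem hg),
      isPiElt_conj.2 ((hK x).1 hx).2⟩)
  obtain ⟨g, hg, rfl⟩ := htr H₁ H₂ h₁ h₂ q₁ q₂
  obtain ⟨k, hk, y, hy, rfl⟩ := (mem_sup_of_norm (inf_le_right.trans hKn)).1
    (le_sup_of_conj_le (π := π) (H := H₁ ⊓ (L ⊓ 𝐍(Q))) (M := K) inf_le_right (fun X hX h => by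
      obtain ⟨H, a, b, c⟩ := h1 X hX h
      obtain ⟨n, hn, rfl⟩ := htr H H₁ a h₁ c q₁
      exact ⟨n, hn, le_inf (conj_mono b n) (conj_le_of_mem hX hn)⟩)
      (fun x hx h => (hK x).2 ⟨hx, h⟩) hg)
  rw [← conj_conj, conj_eq_of_mem hy.1]
  refine ⟨k, ((hK k).1 hk).1.1, rfl, fun x hx => ?_⟩
  have h3 : k⁻¹ * (x * k * x⁻¹) ∈ K :=
    mul_mem (inv_mem hk) (conj_le_of_mem_norm le_rfl (hKn ⟨h₁.1 hx.1.1, hx.2⟩) (conj_mem_conj hk x))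
  have h4 : k⁻¹ * (x * k * x⁻¹) ∈ H₁ := by
    simpa [mul_assoc] using mul_mem (mem_conj.1 hx.1.2) (inv_mem hx.1.1)
  have h5 := (isPiElt_of_mem h₁.2.1 h4).eq_one ((hK _).1 h3).2
  rw [mem_cent1]
  calc k * x = (x * k * x⁻¹) * x := by rw [← inv_mul_eq_one.1 h5]
    _ = x * k := by group

theorem exists_compl_of_dPi
    (hom : ∀ H : Subgroup G, IsPiSubgroup π H → ∀ x ∈ 𝐍(H), IsPiElt πᶜ x → x ∈ 𝐂(H))
    (L : Subgroup G) (hD : DPi π L) : ∃ K : Subgroup G, ∀ x, x ∈ K ↔ x ∈ L ∧ IsPiElt πᶜ x := by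
  induction L using WellFoundedLT.induction with
  | ind L ih =>
  by_cases hc : ∃ Q ≤ L, IsPiSubgroup π Q ∧ L ≤ 𝐍(Q) ∧ ¬ L ≤ 𝐂(Q)
  · obtain ⟨Q, -, hQ, hn, hc⟩ := hc
    have hM : ∀ x ∈ L, IsPiElt πᶜ x → x ∈ L ⊓ 𝐂(Q) := fun x hx h => ⟨hx, hom Q hQ x (hn hx) h⟩
    have hMn : L ≤ 𝐍(L ⊓ 𝐂(Q)) := H1.le_normalizer_inf le_normalizer (H1.le_normalizer_centralizer hn)
    have h2 : ∀ X, MaxPi π (L ⊓ 𝐂(Q)) X → ∃ H, MaxPi π L H ∧ X = H ⊓ (L ⊓ 𝐂(Q)) := fun X hX => by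
      obtain ⟨H, a, b⟩ := exists_maxPi_ge (hX.1.trans inf_le_left) hX.2.1
      exact ⟨H, a, le_antisymm (le_inf b hX.1)
        (hX.2.2 _ (le_inf b hX.1) inf_le_right (isPi_of_le inf_le_left a.2.1))⟩
    obtain ⟨K, hK⟩ := ih (L ⊓ 𝐂(Q)) (inf_lt_left.2 hc) fun X Y hX hY => by
      obtain ⟨A, a, rfl⟩ := h2 X hX
      obtain ⟨B, b, rfl⟩ := h2 Y hY
      obtain ⟨g, hg, rfl⟩ := hD A B a b
      obtain ⟨m, hm, y, hy, rfl⟩ := (mem_sup_of_norm (a.1.trans hMn)).1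
        (le_sup_of_conj_le a.1 (hD.exists_conj_le a) hM hg)
      exact ⟨m, hm, by rw [conj_inf, conj_eq_of_mem hm, ← conj_conj, conj_eq_of_mem hy]⟩
    exact ⟨K, fun x => (hK x).trans ⟨fun h => ⟨h.1.1, h.2⟩, fun h => ⟨hM x h.1 h.2, h.2⟩⟩⟩
  push Not at hc
  have ih' : ∀ Q : Subgroup G, ¬ L ≤ 𝐍(Q) → DPi π (L ⊓ 𝐍(Q)) →
      ∃ K : Subgroup G, ∀ x, x ∈ K ↔ x ∈ L ⊓ 𝐍(Q) ∧ IsPiElt πᶜ x :=
    fun Q hQ => ih _ (inf_lt_left.2 hQ)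
  have hT : ∀ p : ℕ, p.Prime → p ∈ π → ∀ Q ≤ L, IsPGroup p Q → ∀ H₁ H₂, MaxPi π L H₁ →
      MaxPi π L H₂ → Q ≤ H₁ → Q ≤ H₂ → ∃ g ∈ L ⊓ 𝐂(Q), H₁ ^ᵍ g = H₂ := fun p hp hπ Q => by
    induction Q using WellFoundedGT.induction with
    | ind Q ihQ =>
    intro hQL hQ H₁ H₂ h₁ h₂ q₁ q₂
    have hQπ := isPi_of_isPGroup hp hQ hπ
    by_cases hn : L ≤ 𝐍(Q)
    · obtain ⟨g, hg, e⟩ := hD H₁ H₂ h₁ h₂
      exact ⟨g, ⟨hg, hc Q hQL hQπ hn hg⟩, e⟩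
    have syl : ∀ A B, MaxPi π L A → MaxPi π L B → IsSyl p Q A → Q ≤ B →
        ∃ g ∈ L ⊓ 𝐍(Q), A ^ᵍ g = B := fun A B a b hs q => by
      obtain ⟨g, hg, rfl⟩ := hD A B a b
      obtain ⟨h, hh, e⟩ := hs.exists_conj_eq hp (hs.of_card_eq hp (le_conj_iff.1 q) (card_conj _ _))
      refine ⟨g * h⁻¹, mem_inf.2 ⟨mul_mem hg (inv_mem (a.1 hh)), ?_⟩, by
        rw [← conj_conj, conj_eq_of_mem (inv_mem hh)]⟩
      rw [conj_conj, conj_eq_self_iff] at e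
      simpa using inv_mem e
    have nsyl : ∀ A, Q ≤ A → ¬ IsSyl p Q A → ∃ R, Q < R ∧ R ≤ A ⊓ 𝐍(Q) ∧ IsPGroup p R :=
      fun A q hs => by
        obtain ⟨P, hP, h⟩ := exists_isSyl_ge hp hQ q
        exact ⟨P ⊓ 𝐍(Q), lt_inf_norm_of_isNilpotent (isNilpotent_of_isPGroup hp hP.pgrp)
          (h.lt_of_ne fun e => hs (e ▸ hP)), inf_le_inf_right _ hP.le, hP.pgrp.to_le inf_le_left⟩
    obtain ⟨c, hcL, e, h⟩ := exists_conj_cent_of_trans hQL hQπ (ih' Q hn) (fun A B a b qa qb => by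
      by_cases s1 : IsSyl p Q A
      · exact syl A B a b s1 qb
      by_cases s2 : IsSyl p Q B
      · obtain ⟨g, hg, rfl⟩ := syl B A b a s2 qa
        exact ⟨g⁻¹, inv_mem hg, conj_conj_inv _ _⟩
      obtain ⟨R, r1, r2, r3⟩ := nsyl A qa s1
      obtain ⟨S, s1, s2, s3⟩ := nsyl B qb s2
      obtain ⟨P, hP, hRP⟩ := exists_isSyl_ge hp r3 (r2.trans (inf_le_inf_right _ a.1))
      obtain ⟨n, hn, hSP⟩ := hP.exists_conj_le hp s3 (s2.trans (inf_le_inf_right _ b.1))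
      obtain ⟨D, d, hPD⟩ := exists_maxPi_ge (hP.le.trans inf_le_left)
        (isPi_of_isPGroup hp hP.pgrp hπ)
      have s4 : Q < S ^ᵍ n := by rwa [← conj_eq_of_mem_norm hn.2, conj_lt_conj_iff]
      obtain ⟨c₁, hc₁, e₁⟩ := ihQ R r1 (r2.trans (inf_le_left.trans a.1)) r3 A D a d
        (r2.trans inf_le_left) (hRP.trans hPD)
      obtain ⟨c₂, hc₂, e₂⟩ := ihQ _ s4 (hSP.trans (hPD.trans d.1)) (hP.pgrp.to_le hSP) D (B ^ᵍ n) d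
        (b.conj hn.1) (hSP.trans hPD) (conj_mono (s2.trans inf_le_left) n)
      refine ⟨n⁻¹ * (c₂ * c₁), mul_mem (inv_mem hn) (mul_mem
        ⟨hc₂.1, cent_le_norm Q (cent_anti s4.le hc₂.2)⟩
        ⟨hc₁.1, cent_le_norm Q (cent_anti r1.le hc₁.2)⟩), ?_⟩
      rw [← conj_conj, ← conj_conj, e₁, e₂, conj_conj_inv]) h₁ h₂ q₁ q₂
    exact ⟨c, ⟨hcL, mem_cent_iff_cent1.2 ((le_inf (le_inf q₁ q₂) le_normalizer).trans h)⟩, e⟩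
  obtain ⟨H, hH, -⟩ := exists_maxPi_ge (L := L) bot_le (isPi_bot π)
  refine exists_normal_compl_of_fusion hH.1 hH.2.1 (fun E hE _ h => hD.exists_conj_le hH E hE h)
    fun x hx g hg hgx => ?_
  by_cases hz : zpowers x ≤ 𝐂(L)
  · exact ⟨1, one_mem _, by simp [hz (mem_zpowers x) g hg]⟩
  obtain ⟨p, hp, Q, hQ, hQc⟩ : ∃ p : ℕ, p.Prime ∧ ∃ Q, IsSyl p Q (zpowers x) ∧ ¬ Q ≤ 𝐂(L) := by
    by_contra hne
    push Not at hne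
    exact hz (le_of_forall_isSyl_le hne)
  have hQH := hQ.le.trans (zpowers_le.2 hx)
  have hQπ := isPi_of_le hQH hH.2.1
  have hπ := mem_of_isPi_of_isPGroup hp hQ.pgrp (fun e => hQc (e ▸ bot_le)) hQπ
  have hx2 : x ∈ H ^ᵍ g⁻¹ := mem_conj.2 (by simpa using hgx)
  obtain ⟨c, hcL, e, h⟩ := exists_conj_cent_of_trans (hQH.trans hH.1) hQπ (ih' Q fun hn =>
    hQc (cent_comm.1 (hc Q (hQH.trans hH.1) hQπ hn))) (fun A B a b qa qb =>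
      (hT p hp hπ Q (hQH.trans hH.1) hQ.pgrp A B a b qa qb).imp fun g hg =>
      ⟨⟨hg.1.1, cent_le_norm Q hg.1.2⟩, hg.2⟩) hH (hH.conj (inv_mem hg)) hQH
      (hQ.le.trans (zpowers_le.2 hx2))
  have hxc := mem_cent1.1 (h ⟨⟨hx, hx2⟩, cent_le_norm Q (cent_anti hQ.le
    ((cent_zpowers x).ge (self_mem_cent1 x)))⟩)
  have hn : g * c ∈ 𝐍(H) := conj_eq_self_iff.1 (by rw [← conj_conj, e, conj_inv_conj])
  have h1 := piPt_mul_piPt_compl π (g * c)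
  have h2 := hom H hH.2.1 _ (piPt_mem hn πᶜ) (isPiElt_piPt _ _) x hx
  refine ⟨piPt π (g * c), hH.2.2 (zpowers (piPt π (g * c)) ⊔ H) le_sup_right
    (sup_le (zpowers_le.2 (piPt_mem (mul_mem hg hcL) π)) hH.1)
    (isPi_sup (isPi_zpowers.2 (isPiElt_piPt _ _)) hH.2.1 (zpowers_le.2 (piPt_mem hn π)))
    (mem_sup_left (mem_zpowers _)), ?_⟩
  generalize piPt π (g * c) = a at *
  generalize piPt πᶜ (g * c) = b at *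
  calc a * x * a⁻¹ = a * (x * b) * (a * b)⁻¹ := by group
    _ = (a * b) * x * (a * b)⁻¹ := by rw [h2]; group
    _ = g * (c * x) * c⁻¹ * g⁻¹ := by rw [h1]; group
    _ = _ := by rw [hxc]; group

end Cfsg.Agent.H5
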