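import Mathlib
import Cfsg.Agent.H5.Misc
import Cfsg.Agent.H5.NilpMax
import Cfsg.Agent.H1.Abelian
import Cfsg.Agent.H3.PBasic
import Cfsg.Agent.H8.Frobenius
import Cfsg.Agent.H9.FrobAction

/-! Groups whose non-abelian subgroups are self-normalizing. -/

set_option autoImplicit false

namespace Cfsg.Agent.H5

open Subgroup
open scoped commutatorElement

variable {G : Type*} [Group G]

theorem not_hasNPC_of_perfect [Finite G] (hG : _root_.commutator G = ⊤) {p : ℕ} [hp : Fact p.Prime]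
    (hd : p ∣ Nat.card G) : ¬ HasNormalPComplement p G := by
  intro h
  obtain ⟨N, hN, h1, k, hk⟩ := H8.hasNPC_iff_exists.1 h
  have h2 : N ≠ ⊤ := by
    rintro rfl
    rw [card_top] at h1
    exact hp.out.one_lt.ne' (h1.symm.eq_one_of_dvd hd)
  haveI : Nontrivial (G ⧸ N) := QuotientGroup.nontrivial_iff.2 h2
  haveI := H1.isSolvable_of_isPGroup (H8.isPGroup_quotient_iff_index.2 ⟨k, hk⟩)
  apply (Group.IsSolvable.commutator_lt_top_of_nontrivial (G ⧸ N)).ne
  have h3 := map_commutator (⊤ : Subgroup G) ⊤ (QuotientGroup.mk' N)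
  rw [← _root_.commutator_def, hG, map_top_of_surjective _ (QuotientGroup.mk'_surjective N)] at h3
  exact h3.symm

theorem isMulCommutative_of_isNilpotent_of_sylow [Finite G] [Group.IsNilpotent G]
    (h : ∀ (p : ℕ) [Fact p.Prime] (P : Sylow p G), IsMulCommutative (P : Subgroup G)) :
    IsMulCommutative G := by
  have h1 : center G = ⊤ := L.eq_top_of_forall_sylow_le fun p _ _ => by
    obtain ⟨P⟩ : Nonempty (Sylow p G) := inferInstance
    refine ⟨P, fun x hx => mem_center_iff.2 fun g => ?_⟩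
    obtain ⟨u, hu, w, -, hw, -, rfl⟩ := exists_mul_centralizer_of_isNilpotent (M := ⊤) le_top
      P.isPGroup' (by rw [relIndex_top_right]; exact P.not_dvd_index) (mem_top g)
    rw [mul_assoc, ← hw x hx, ← mul_assoc, isMulCommutative_iff_forall.1 (h p P) u hu x hx,
      mul_assoc]
  exact ⟨⟨fun a b => mem_center_iff.1 (h1 ▸ mem_top b) a⟩⟩

theorem selfNorm_of_semidirect [Finite G] {x : G} {A : Subgroup G} {p : ℕ} (hp : p.Prime)
    [hAn : A.Normal] (hA : IsMulCommutative A) {k : ℕ} (hx : orderOf x = p ^ k)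
    (hpA : ¬ p ∣ Nat.card A) (hc : (zpowers x).IsComplement' A) (hz : x ^ p ∈ center G)
    (hf : ∀ a ∈ A, a ≠ 1 → x * a * x⁻¹ ≠ a) (H : Subgroup G) (hH : ¬ IsMulCommutative H) :
    normalizer (H : Set G) = H := by
  haveI := Fact.mk hp
  have key : ∀ K : Subgroup G, x ∈ K → normalizer (K : Set G) = K := by
    intro K hxK
    refine le_antisymm (fun g hg => ?_) le_normalizer
    obtain ⟨⟨u, a⟩, rfl⟩ := (hc.existsUnique g).exists
    have hu : (u : G) ∈ K := zpowers_le.2 hxK u.2
    refine mul_mem hu ?_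
    have ha : (a : G) ∈ normalizer (K : Set G) :=
      (Subgroup.mul_mem_cancel_left _ (le_normalizer hu)).1 hg
    have h1 : ∀ n : A, MulAut.conjNormal x n = n → n = 1 := fun n hn => by
      by_contra h
      exact hf n n.2 (fun h1 => h (Subtype.ext h1)) (congrArg Subtype.val hn)
    obtain ⟨b, hb, hab⟩ := H9.fpf_surj_on h1 (L := K.subgroupOf A)
      (fun b hb => mul_mem (mul_mem hxK hb) (inv_mem hxK))
      (y := a * (MulAut.conjNormal x a)⁻¹) (by
        have := mul_mem ((mem_normalizer_iff.1 ha x).1 hxK) (inv_mem hxK)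
        change (a : G) * (x * a * x⁻¹)⁻¹ ∈ K
        simpa only [mul_inv_rev, inv_inv, mul_assoc] using this)
    have h2 := h1 (a⁻¹ * b) (by
      rw [map_mul, map_inv, inv_mul_eq_iff_eq_mul, ← mul_assoc, ← mul_inv_eq_iff_eq_mul,
        ← inv_inj, mul_inv_rev, mul_inv_rev, inv_inv, inv_inv, hab])
    rw [inv_mul_eq_one] at h2
    rw [h2]
    exact hb
  have hC : IsMulCommutative (A ⊔ zpowers (x ^ p) : Subgroup G) :=
    H3.isMulCommutative_sup_zpowers hA (center_le_centralizer _ hz)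
  obtain ⟨h, hh, hhC⟩ : ∃ h ∈ H, h ∉ A ⊔ zpowers (x ^ p) := by
    by_contra h
    push Not at h
    exact hH (isMulCommutative_iff_forall.2 fun a ha b hb =>
      isMulCommutative_iff_forall.1 hC a (h a ha) b (h b hb))
  obtain ⟨y, b, hy, -, rfl, -, ⟨j, hj⟩, hb⟩ := H8.exists_pPart_pPrimePart hp h
  have hbA : b ∈ A := H8.mem_of_coprime_index (by
    rw [hc.index_eq_card, Nat.card_zpowers, hx]; exact Nat.Coprime.pow_right k hb)
  have hyC : y ∉ A ⊔ zpowers (x ^ p) := fun h => hhC (mul_mem h (mem_sup_left hbA))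
  obtain ⟨g, -, hg⟩ := H1.exists_conj_le_sylow (H := ⊤) (P := zpowers x) (Q := zpowers y)
    (H8.isPGroup_zpowers_of_orderOf hx) (by rwa [relIndex_top_right, hc.symm.index_eq_card]) le_top
    (H8.isPGroup_zpowers_of_orderOf hj)
  obtain ⟨i, hi⟩ := (mem_powers_iff_mem_zpowers).2 (H1.map_conj_le_iff.1 hg y (mem_zpowers y))
  have hi' : x ^ i = g * y * g⁻¹ := hi
  have h1 : ¬ p ∣ i := by
    rintro ⟨m, rfl⟩
    haveI := H3.zpowers_normal_of_mem_center hz
    apply hyC
    have h2 : y = g⁻¹ * (x ^ p) ^ m * g := by rw [← pow_mul, hi']; group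
    rw [h2]
    exact mem_sup_right ((inferInstance : (zpowers (x ^ p)).Normal).conj_mem' _
      (pow_mem (mem_zpowers _) m) g)
  have h2 : x ∈ H.map (MulAut.conj g).toMonoidHom := by
    have h3 : x ∈ zpowers (x ^ i) := mem_zpowers_pow_iff.2 (by
      rw [hx]; exact Nat.Coprime.pow_right k (hp.coprime_iff_not_dvd.2 h1).symm)
    refine zpowers_le.2 ?_ h3
    rw [hi']
    exact mem_map_of_mem _ (zpowers_le.2 hh hy)
  have h3 := key _ h2
  rw [H1.normalizer_map_conj] at h3
  exact map_injective (MulAut.conj g).injective h3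

end Cfsg.Agent.H5
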