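import Mathlib

/-! A `p`-subgroup of `GL(n, p)` is generated by at most `n² / 4` elements: the leading positions
of its elements (for a generic weight) form a partial order, the covering relations give
generators, and a Hasse diagram is triangle free. -/

set_option autoImplicit false

namespace Cfsg.Agent.H5

open Subgroup Module

section Lev

variable {F : Type*} [Field F] {n : ℕ}

/-- All nonzero entries of `M` have weight at least `w`. -/
def Lev (w : ℕ) (M : Matrix (Fin n) (Fin n) F) : Prop :=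
  ∀ i j : Fin n, M i j ≠ 0 → w + 2 ^ (i : ℕ) ≤ 2 ^ (j : ℕ)

theorem Lev.mono {a b : ℕ} {M : Matrix (Fin n) (Fin n) F} (h : Lev a M) (hab : b ≤ a) :
    Lev b M := fun i j hij => by have := h i j hij; omega

theorem Lev.mul {a b : ℕ} {M N : Matrix (Fin n) (Fin n) F} (h : Lev a M) (h' : Lev b N) :
    Lev (a + b) (M * N) := by
  intro i k hik
  rw [Matrix.mul_apply] at hik
  obtain ⟨j, -, hj⟩ := Finset.exists_ne_zero_of_sum_ne_zero hik
  have h1 := h i j (left_ne_zero_of_mul hj)
  have h2 := h' j k (right_ne_zero_of_mul hj)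
  omega

theorem Lev.add {a : ℕ} {M N : Matrix (Fin n) (Fin n) F} (h : Lev a M) (h' : Lev a N) :
    Lev a (M + N) := by
  intro i j hij
  by_cases h1 : M i j = 0
  · exact h' i j (by simpa [h1] using hij)
  · exact h i j h1

theorem Lev.smul {a : ℕ} {M : Matrix (Fin n) (Fin n) F} (h : Lev a M) (c : F) :
    Lev a (c • M) := fun i j hij => h i j fun h0 => hij (by simp [h0])

theorem Lev.neg {a : ℕ} {M : Matrix (Fin n) (Fin n) F} (h : Lev a M) : Lev a (-M) :=
  fun i j hij => h i j fun h0 => hij (by simp [h0])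

theorem lev_zero (a : ℕ) : Lev a (0 : Matrix (Fin n) (Fin n) F) := fun i j h => by simp at h

theorem Lev.eq_zero {M : Matrix (Fin n) (Fin n) F} (h : Lev (2 ^ n) M) : M = 0 := by
  ext i j
  by_contra h0
  have h1 := h i j h0
  have h2 : 2 ^ (j : ℕ) < 2 ^ n := Nat.pow_lt_pow_right one_lt_two j.2
  exact absurd (le_self_add.trans h1) (not_le.2 h2)

theorem weight_unique {w i j k l : ℕ} (hw : 1 ≤ w) (h1 : w + 2 ^ i = 2 ^ j)
    (h2 : w + 2 ^ k = 2 ^ l) : i = k ∧ j = l := by
  have key : ∀ {i j k l : ℕ}, w + 2 ^ i = 2 ^ j → w + 2 ^ k = 2 ^ l → ¬ j < l := by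
    intro i j k l h1 h2 h
    have hkl : k < l := (Nat.pow_lt_pow_iff_right one_lt_two).1 (by omega)
    obtain ⟨m, rfl⟩ : ∃ m, l = m + 1 := ⟨l - 1, by omega⟩
    have h3 : 2 ^ j ≤ 2 ^ m := Nat.pow_le_pow_right two_pos (by omega)
    have h4 : 2 ^ k ≤ 2 ^ m := Nat.pow_le_pow_right two_pos (by omega)
    have h5 : 0 < 2 ^ i := Nat.pos_of_ne_zero (by positivity)
    rw [pow_succ] at h2
    omega
  have hjl : j = l := le_antisymm (not_lt.1 (key h2 h1)) (not_lt.1 (key h1 h2))
  subst hjl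
  exact ⟨Nat.pow_right_injective le_rfl (by simp only; omega), rfl⟩

theorem Lev.succ {w : ℕ} (hw : 1 ≤ w) {M : Matrix (Fin n) (Fin n) F} (h : Lev w M) {i j : Fin n}
    (hij : w + 2 ^ (i : ℕ) = 2 ^ (j : ℕ)) (h0 : M i j = 0) : Lev (w + 1) M := by
  intro k l hkl
  have h1 := h k l hkl
  by_contra h2
  obtain ⟨e1, e2⟩ := weight_unique hw hij (show w + 2 ^ (k : ℕ) = 2 ^ (l : ℕ) by omega)
  rw [Fin.ext e1, Fin.ext e2] at h0
  exact hkl h0

theorem Lev.apply_eq_zero {w : ℕ} {M : Matrix (Fin n) (Fin n) F} (h : Lev (w + 1) M)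
    {i j : Fin n} (hij : w + 2 ^ (i : ℕ) = 2 ^ (j : ℕ)) : M i j = 0 := by
  by_contra h0
  have := h i j h0
  omega

variable {G : Type*} [Group G] (φ : G →* Matrix (Fin n) (Fin n) F)

/-- `(i, j)` is the leading position of `g`. -/
def Lead (g : G) (i j : Fin n) : Prop :=
  ∃ w, 1 ≤ w ∧ w + 2 ^ (i : ℕ) = 2 ^ (j : ℕ) ∧ Lev w (φ g - 1) ∧ (φ g - 1) i j ≠ 0

theorem sub_one_mul (g h : G) :
    φ (g * h) - 1 = (φ g - 1) + (φ h - 1) + (φ g - 1) * (φ h - 1) := by
  rw [map_mul]; noncomm_ring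

theorem lead_commutator (h1 : ∀ g, Lev 1 (φ g - 1)) {g h : G} {i j k : Fin n}
    (hg : Lead φ g i j) (hh : Lead φ h j k) : Lead φ (g * h * (g⁻¹ * h⁻¹)) i k := by
  obtain ⟨a, ha, haw, hga, hg0⟩ := hg
  obtain ⟨b, hb, hbw, hhb, hh0⟩ := hh
  set D := (φ g - 1) * (φ h - 1) + -((φ h - 1) * (φ g - 1)) with hD
  have hDl : Lev (a + b) D := (hga.mul hhb).add (add_comm b a ▸ (hhb.mul hga).neg)
  have he : φ (g * h * (g⁻¹ * h⁻¹)) - 1 = D + D * (φ (g⁻¹ * h⁻¹) - 1) := by
    have e1 : φ h * φ g * φ (g⁻¹ * h⁻¹) = 1 := by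
      rw [← map_mul, ← map_mul]; simp
    rw [map_mul, map_mul, hD]
    calc φ g * φ h * φ (g⁻¹ * h⁻¹) - 1
        = φ g * φ h * φ (g⁻¹ * h⁻¹) - φ h * φ g * φ (g⁻¹ * h⁻¹) := by rw [e1]
      _ = _ := by noncomm_ring
  have hw : a + b + 2 ^ (i : ℕ) = 2 ^ (k : ℕ) := by omega
  have hD2 : Lev (a + b + 1) (D * (φ (g⁻¹ * h⁻¹) - 1)) := hDl.mul (h1 _)
  refine ⟨a + b, by omega, hw, he ▸ hDl.add (hD2.mono (by omega)), ?_⟩
  rw [he, Matrix.add_apply, hD2.apply_eq_zero hw, add_zero, hD, Matrix.add_apply,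
    Matrix.neg_apply, Matrix.mul_apply, Matrix.mul_apply, Finset.sum_eq_single j,
    Finset.sum_eq_zero, neg_zero, add_zero]
  · exact mul_ne_zero hg0 hh0
  · intro l _
    by_contra h0
    have h2 := hhb i l (left_ne_zero_of_mul h0)
    have h3 := hga l k (right_ne_zero_of_mul h0)
    have h4 := (weight_unique hb hbw (show b + 2 ^ (i : ℕ) = 2 ^ (l : ℕ) by omega)).1
    rw [h4] at haw
    omega
  · intro l _ hl
    by_contra h0
    have h2 := hga i l (left_ne_zero_of_mul h0)
    have h3 := hhb l k (right_ne_zero_of_mul h0)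
    exact hl (Fin.ext (weight_unique ha haw (show a + 2 ^ (i : ℕ) = 2 ^ (l : ℕ) by omega)).2.symm)
  · simp

theorem lev_pow {w : ℕ} (hw : 1 ≤ w) {h : G} (hh : Lev w (φ h - 1)) (m : ℕ) :
    Lev (w + 1) (φ (h ^ m) - 1 + -((m : F) • (φ h - 1))) := by
  induction m with
  | zero => simpa using lev_zero _
  | succ m ih =>
    have h1 : Lev w (φ (h ^ m) - 1) := by
      have := (ih.mono (Nat.le_succ w)).add (hh.smul (m : F))
      simpa using this
    have h2 : φ (h ^ (m + 1)) - 1 + -(((m + 1 : ℕ) : F) • (φ h - 1)) =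
        (φ (h ^ m) - 1 + -((m : F) • (φ h - 1))) + (φ (h ^ m) - 1) * (φ h - 1) := by
      rw [pow_succ, sub_one_mul, Nat.cast_succ, add_smul, one_smul]; abel
    rw [h2]
    exact ih.add ((h1.mul hh).mono (by omega))

end Lev

/-- A group of unitriangular matrices over the prime field is generated by `n² / 4` elements. -/
theorem exists_generators_unitriangular {p n : ℕ} [Fact p.Prime] {G : Type*} [Group G]
    (φ : G →* Matrix (Fin n) (Fin n) (ZMod p))
    (hφ : ∀ g i j, (φ g - 1) i j ≠ 0 → i < j) :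
    ∃ T : Finset G, T.card ≤ n ^ 2 / 4 ∧ closure (T : Set G) ⊔ φ.ker = ⊤ := by
  classical
  have h1 : ∀ g, Lev 1 (φ g - 1) := fun g i j hij => by
    have : 2 ^ (i : ℕ) < 2 ^ (j : ℕ) := Nat.pow_lt_pow_right one_lt_two (hφ g i j hij)
    omega
  let S : Fin n → Fin n → Prop := fun i j => ∃ g, Lead φ g i j
  have hS : ∀ i j, S i j → i < j := fun i j ⟨g, w, _, _, _, h⟩ => hφ g i j h
  let C : Fin n → Fin n → Prop := fun i k => S i k ∧ ¬ ∃ j, S i j ∧ S j k
  let Γ : SimpleGraph (Fin n) :=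
    { Adj := fun i k => C i k ∨ C k i
      symm := ⟨fun i k h => h.symm⟩
      loopless := ⟨fun i h => by
        rcases h with h | h <;> exact lt_irrefl _ (hS _ _ h.1)⟩ }
  have hΓ : Γ.CliqueFree 3 := by
    intro t ht
    obtain ⟨a, b, c, hab, hac, hbc, -⟩ := SimpleGraph.is3Clique_iff.1 ht
    rcases hab with hab | hab <;> rcases hac with hac | hac <;> rcases hbc with hbc | hbc
    · exact hac.2 ⟨b, hab.1, hbc.1⟩
    · exact hab.2 ⟨c, hac.1, hbc.1⟩
    · exact lt_asymm (hS _ _ hac.1) ((hS _ _ hab.1).trans (hS _ _ hbc.1))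
    · exact hbc.2 ⟨a, hac.1, hab.1⟩
    · exact hbc.2 ⟨a, hab.1, hac.1⟩
    · exact lt_asymm (hS _ _ hab.1) ((hS _ _ hac.1).trans (hS _ _ hbc.1))
    · exact hab.2 ⟨c, hbc.1, hac.1⟩
    · exact hac.2 ⟨b, hbc.1, hab.1⟩
  have hcard : Γ.edgeFinset.card ≤ n ^ 2 / 4 := by
    have := SimpleGraph.CliqueFree.card_edgeFinset_le (r := 2) hΓ
    simp only [Fintype.card_fin] at this
    have h2 : (n % 2).choose 2 = 0 := Nat.choose_eq_zero_of_lt (Nat.mod_lt _ two_pos)
    rw [h2] at this
    refine this.trans ?_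
    simp only [add_zero]
    exact Nat.div_le_div_right (by omega)
  have hch : ∀ e : Sym2 (Fin n), ∃ g : G, ∀ i k, e = s(i, k) → C i k → Lead φ g i k := by
    intro e
    by_cases h : ∃ i k, e = s(i, k) ∧ C i k
    · obtain ⟨i, k, he, hc⟩ := h
      obtain ⟨g, hg⟩ := hc.1
      refine ⟨g, fun i' k' he' hc' => ?_⟩
      rw [he, Sym2.eq_iff] at he'
      rcases he' with ⟨rfl, rfl⟩ | ⟨rfl, rfl⟩
      · exact hg
      · exact absurd (hS _ _ hc.1) (lt_asymm (hS _ _ hc'.1))
    · exact ⟨1, fun i k he hc => absurd ⟨i, k, he, hc⟩ h⟩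
  choose f hf using hch
  refine ⟨Γ.edgeFinset.image f, Finset.card_image_le.trans hcard, ?_⟩
  set H := closure ((Γ.edgeFinset.image f : Finset G) : Set G) with hH
  have hSH : ∀ d : ℕ, ∀ i k : Fin n, (k : ℕ) - i = d → S i k → ∃ h ∈ H, Lead φ h i k := by
    intro d
    induction d using Nat.strong_induction_on with
    | _ d ih =>
    intro i k hd hik
    by_cases hc : ∃ j, S i j ∧ S j k
    · obtain ⟨j, hij, hjk⟩ := hc
      have l1 : (i : ℕ) < j := hS _ _ hij
      have l2 : (j : ℕ) < k := hS _ _ hjk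
      obtain ⟨g, hg, hg'⟩ := ih _ (by omega) i j rfl hij
      obtain ⟨h, hh, hh'⟩ := ih _ (by omega) j k rfl hjk
      exact ⟨_, mul_mem (mul_mem hg hh) (mul_mem (inv_mem hg) (inv_mem hh)),
        lead_commutator φ h1 hg' hh'⟩
    · refine ⟨f s(i, k), subset_closure ?_, hf _ i k rfl ⟨hik, hc⟩⟩
      simp only [Finset.coe_image, SimpleGraph.coe_edgeFinset]
      exact ⟨_, (Γ.mem_edgeSet).2 (Or.inl ⟨hik, hc⟩), rfl⟩
  have key : ∀ d w : ℕ, 1 ≤ w → w + d = 2 ^ n → ∀ g, Lev w (φ g - 1) → g ∈ H ⊔ φ.ker := by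
    intro d
    induction d with
    | zero =>
      intro w _ hw g hg
      rw [add_zero] at hw
      exact mem_sup_right (sub_eq_zero.1 (Lev.eq_zero (hw ▸ hg)))
    | succ d ih =>
      intro w hw1 hw g hg
      by_cases hg' : Lev (w + 1) (φ g - 1)
      · exact ih _ (by omega) (by omega) g hg'
      obtain ⟨i, j, hij, hlt⟩ : ∃ i j, (φ g - 1) i j ≠ 0 ∧ 2 ^ (j : ℕ) < w + 1 + 2 ^ (i : ℕ) := by
        by_contra! h
        exact hg' h
      have hwij : w + 2 ^ (i : ℕ) = 2 ^ (j : ℕ) := by have := hg i j hij; omega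
      obtain ⟨h, hh, w', -, hw', hhl, hh0⟩ := hSH _ i j rfl ⟨g, w, hw1, hwij, hg, hij⟩
      obtain rfl : w' = w := by omega
      set m := (-(φ g - 1) i j / (φ h - 1) i j).val with hm
      have h2 := lev_pow φ hw1 hhl m
      have h3 : Lev w' (φ (h ^ m) - 1) := by
        have := (h2.mono (Nat.le_succ w')).add (hhl.smul (m : ZMod p))
        simpa using this
      have h4 : Lev (w' + 1) ((φ g - 1) + (m : ZMod p) • (φ h - 1)) := by
        refine (hg.add (hhl.smul _)).succ hw1 hwij ?_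
        rw [Matrix.add_apply, Matrix.smul_apply, hm, ZMod.natCast_zmod_val, smul_eq_mul,
          div_mul_cancel₀ _ hh0, add_neg_cancel]
      have h5 : Lev (w' + 1) (φ (g * h ^ m) - 1) := by
        have := (h4.add h2).add ((hg.mul h3).mono (show w' + 1 ≤ w' + w' by omega))
        rw [sub_one_mul]
        convert this using 1
        abel
      have h6 := ih _ (by omega) (by omega) _ h5
      exact (Subgroup.mul_mem_cancel_right _ (mem_sup_left (pow_mem hh m))).1 h6
  rw [eq_top_iff]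
  intro g _
  exact key (2 ^ n - 1) 1 le_rfl (by have : 0 < 2 ^ n := by positivity
                                     omega) g (h1 g)

/-- A `p`-group acting on a vector space over the field with `p` elements is unitriangular. -/
theorem exists_basis_unitriangular {p : ℕ} [hp : Fact p.Prime] {G : Type*} [Group G]
    (hG : IsPGroup p G) {V : Type*} [AddCommGroup V] [Module (ZMod p) V] [Finite V]
    (ρ : G →* End (ZMod p) V) :
    ∃ b : Basis (Fin (finrank (ZMod p) V)) (ZMod p) V,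
      ∀ g i, ρ g (b i) - b i ∈ Submodule.span (ZMod p) (b '' Set.Iio i) := by
  have key : ∀ m, m ≤ finrank (ZMod p) V → ∃ v : Fin m → V, LinearIndependent (ZMod p) v ∧
      ∀ g i, ρ g (v i) - v i ∈ Submodule.span (ZMod p) (v '' Set.Iio i) := by
    intro m
    induction m with
    | zero => exact fun _ => ⟨Fin.elim0, linearIndependent_empty_type, fun g i => i.elim0⟩
    | succ m ih =>
      intro hm
      obtain ⟨v, hv, hv'⟩ := ih (by omega)
      set W := Submodule.span (ZMod p) (Set.range v) with hW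
      have hWinv : ∀ g, W ≤ W.comap (ρ g) := by
        intro g
        rw [hW, Submodule.span_le]
        rintro _ ⟨i, rfl⟩
        have h1 : ρ g (v i) - v i ∈ W :=
          Submodule.span_mono (Set.image_subset_range _ _) (hv' g i)
        have h2 : v i ∈ W := Submodule.subset_span ⟨i, rfl⟩
        simpa using W.add_mem h1 h2
      have hWne : W ≠ ⊤ := by
        intro h
        have := finrank_span_eq_card hv
        rw [← hW, h, finrank_top, Fintype.card_fin] at this
        omega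
      let act : MulAction G (V ⧸ W) :=
        { smul := fun g x => W.mapQ W (ρ g) (hWinv g) x
          one_smul := fun x => by
            obtain ⟨x, rfl⟩ := W.mkQ_surjective x
            change W.mapQ W (ρ 1) (hWinv 1) (W.mkQ x) = _
            simp
          mul_smul := fun g h x => by
            obtain ⟨x, rfl⟩ := W.mkQ_surjective x
            change W.mapQ W (ρ (g * h)) (hWinv _) (W.mkQ x) =
              W.mapQ W (ρ g) (hWinv _) (W.mapQ W (ρ h) (hWinv _) (W.mkQ x))
            simp }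
      have hnt : Nontrivial (V ⧸ W) := Submodule.Quotient.nontrivial_iff.2 hWne
      have hdvd : p ∣ Nat.card (V ⧸ W) := by
        have : Finite (V ⧸ W) := Finite.of_surjective _ W.mkQ_surjective
        rw [Module.natCard_eq_pow_finrank (K := ZMod p), Nat.card_zmod]
        exact dvd_pow_self _ Module.finrank_pos.ne'
      have : Finite (V ⧸ W) := Finite.of_surjective _ W.mkQ_surjective
      obtain ⟨x, hx, hx0⟩ := hG.exists_fixed_point_of_prime_dvd_card_of_fixed_point (V ⧸ W) hdvd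
        (a := 0) (fun g => map_zero (W.mapQ W (ρ g) (hWinv g)))
      obtain ⟨x, rfl⟩ := W.mkQ_surjective x
      have hxW : x ∉ W := fun h => hx0 ((Submodule.Quotient.mk_eq_zero W).2 h).symm
      refine ⟨Fin.snoc v x, hv.finSnoc hxW, fun g i => ?_⟩
      refine Fin.lastCases ?_ (fun i => ?_) i
      · have h1 : W.mapQ W (ρ g) (hWinv g) (W.mkQ x) = W.mkQ x := hx g
        simp only [Submodule.mkQ_apply, Submodule.mapQ_apply] at h1
        rw [Submodule.Quotient.eq] at h1
        rw [Fin.snoc_last]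
        refine Submodule.span_mono ?_ h1
        rintro _ ⟨j, rfl⟩
        exact ⟨j.castSucc, j.castSucc_lt_last, by simp⟩
      · rw [Fin.snoc_castSucc]
        refine Submodule.span_mono ?_ (hv' g i)
        rintro _ ⟨j, hj, rfl⟩
        exact ⟨j.castSucc, Fin.castSucc_lt_castSucc_iff.2 hj, by simp⟩
  obtain ⟨v, hv, hv'⟩ := key _ le_rfl
  refine ⟨Basis.mk hv (hv.span_eq_top_of_card_eq_finrank' (by simp)).ge, ?_⟩
  simpa only [Basis.coe_mk] using hv'

/-- The image of a `p`-group in `GL(n, p)` is generated by `n² / 4` elements. -/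
theorem exists_generators_pgroup_rep {p : ℕ} [hp : Fact p.Prime] {G : Type*} [Group G]
    (hG : IsPGroup p G) {V : Type*} [AddCommGroup V] [Module (ZMod p) V] [Finite V]
    (ρ : G →* End (ZMod p) V) :
    ∃ T : Finset G, T.card ≤ finrank (ZMod p) V ^ 2 / 4 ∧ closure (T : Set G) ⊔ ρ.ker = ⊤ := by
  obtain ⟨b, hb⟩ := exists_basis_unitriangular hG ρ
  obtain ⟨T, hT, hT'⟩ := exists_generators_unitriangular
    ((LinearMap.toMatrixAlgEquiv b).toMulEquiv.toMonoidHom.comp ρ) (by
      intro g i j hij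
      have h1 := (b.mem_span_image).1 (hb g j)
      refine h1 ?_
      rw [Finset.mem_coe, Finsupp.mem_support_iff]
      convert hij using 1
      simp [LinearMap.toMatrixAlgEquiv_apply, Matrix.one_apply, Finsupp.single_apply, eq_comm])
  refine ⟨T, hT, ?_⟩
  rw [← hT']
  congr 1
  ext g
  simp [MonoidHom.mem_ker]

end Cfsg.Agent.H5
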